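import Cfsg.Agent.H35.S4Defs

/-! Transport of the relations of type III to all roots (piece F0C). -/

set_option autoImplicit false

namespace Cfsg.Agent.H83.S4F

open Cfsg Cfsg.Agent.H63 Cfsg.Agent.H63.SL Cfsg.Agent.H35.S4 Subgroup
open scoped commutatorElement

universe u v

theorem ind2 (i0 : ZMod 8) (Q : ZMod 8 → Prop) (h0 : Q i0)
    (hs : ∀ i, (sh i ↔ sh i0) → Q i → Q (i + 2)) (i : ZMod 8) (hi : sh i ↔ sh i0) : Q i := by
  have k : ∀ i0 i : ZMod 8, (sh i ↔ sh i0) →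
      i = i0 ∨ i = i0 + 2 ∨ i = i0 + 2 + 2 ∨ i = i0 + 2 + 2 + 2 := by decide
  have k2 : ∀ i : ZMod 8, (sh (i + 2) ↔ sh i) ∧ (sh (i + 2 + 2) ↔ sh i) := by decide
  have h1 := hs _ Iff.rfl h0
  have h2 := hs _ (k2 i0).1 h1
  rcases k i0 i hi with rfl | rfl | rfl | rfl
  exacts [h0, h1, h2, hs _ (k2 i0).2 h2]

/-- **F0C** -/
theorem f0c : F0cStmt.{u, v} := by
  intro F _ _ G _ _ L x t hC A _ j σ y E f hS hF hf
  have sq := hS.quad.sq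
  have hz : ∀ a s ν, Hz σ s ν → Hz σ (a * s) (a * σ a * ν) := fun a s ν h => by
    rw [Hz] at h ⊢
    rw [map_mul, map_mul, map_mul, sq]
    linear_combination (a * σ a) * h
  have p1 : ∀ i : ZMod 8, ¬ sh i → sh (i + 1) ∧ sh (i - 1) ∧ ¬ sh (i + 2) := by decide
  have p2 : ∀ i : ZMod 8, sh i → ¬ sh (i + 1) ∧ sh (i + 2) ∧ ¬ sh (i + 3) := by decide
  have ry : ∀ i, sh i → ∀ a,
      n2 x 4 * n2 x 3 * y i a * (n2 x 4 * n2 x 3)⁻¹ = y (i + 2) a := fun i hi a => by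
    have := hS.wey 4 _ ((by decide : ∀ i : ZMod 8, sh i → sh (2 * 3 + 4 - i)) i hi) (σ a)
    rw [← hS.wey 3 i hi, sq, show 2 * 4 + 4 - (2 * 3 + 4 - i) = i + 2 by ring] at this
    rw [← this]; group
  have rE : ∀ i, ¬ sh i → ∀ s ν, Hz σ s ν →
      n2 x 4 * n2 x 3 * E i s ν * (n2 x 4 * n2 x 3)⁻¹ = E (i + 2) s ν := fun i hi s ν h => by
    have := hF.wey 4 _ ((by decide : ∀ i : ZMod 8, ¬ sh i → ¬ sh (2 * 3 + 4 - i)) i hi) s ν h
    rw [← hF.wey 3 i hi s ν h, show 2 * 4 + 4 - (2 * 3 + 4 - i) = i + 2 by ring] at this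
    rw [← this]; group
  have lg : ∀ i : ZMod 8, (sh i ↔ sh 2) ↔ ¬ sh i := by decide
  have st : ∀ i : ZMod 8, (sh i ↔ sh 1) ↔ sh i := by decide
  have l3 : ∀ i, sh i → ∀ a s ν, Hz σ s ν → ⁅y i a, E (i + 3) s ν⁆ =
      E (i + 1) (a * s) (a * σ a * ν) * y (i + 2) (σ a * ν) := fun i hi => by
    refine ind2 1 (fun i => ∀ a s ν, Hz σ s ν → ⁅y i a, E (i + 3) s ν⁆ =
      E (i + 1) (a * s) (a * σ a * ν) * y (i + 2) (σ a * ν)) (fun a s ν h => ?_)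
      (fun i hi H a s ν h => ?_) i ((st i).2 hi)
    · have := hF.l3 a s ν h
      rwa [hf, map_zero, add_zero] at this
    · rw [st] at hi
      obtain ⟨q1, q2, q3⟩ := p2 i hi
      rw [add_right_comm i 2 3, add_right_comm i 2 1, ← ry i hi, ← rE _ q3 s ν h,
        ← conjugate_commutatorElement, H a s ν h, ← rE _ q1 _ _ (hz a s ν h), ← ry _ q2, conj_mul]
  refine ⟨hF.mul, hF.inj, hF.res, hF.conj, fun i hi s ν h a => ?_, fun i hi => ?_,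
    fun i hi a s ν h => ⟨l3 i hi a s ν h, ?_⟩, hF.wey, hF.tor, hF.mem, fun i hi => ?_⟩
  · have := ((hF.mem i hi _).2 ⟨s, ν, h, rfl⟩).2.2.1
    exact ⟨this _ (.inr ((hS.hat _ (p1 i hi).1 _).2 ⟨a, rfl⟩)),
      this _ (.inl ((hS.hat _ (p1 i hi).2.1 _).2 ⟨a, rfl⟩))⟩
  · refine ind2 2 (fun i => ∀ s ν s' ν', Hz σ s ν → Hz σ s' ν' →
      ⁅E i s ν, E (i + 2) s' ν'⁆ = y (i + 1) (σ s * s')) hF.l2
      (fun i hi H s ν s' ν' h h' => ?_) i ((lg i).2 hi)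
    rw [lg] at hi
    obtain ⟨q1, -, q3⟩ := p1 i hi
    rw [add_right_comm i 2 1, ← rE _ q3 s' ν' h', ← rE i hi s ν h, ← conjugate_commutatorElement,
      H s ν s' ν' h h', ry _ q1]
  · obtain ⟨q1, q2, q3⟩ := p2 i hi
    have k := congrArg (fun g => n2 x (i + 2) * g * (n2 x (i + 2))⁻¹) (l3 i hi (σ a) s ν h)
    have e : ∀ i : ZMod 8, 2 * (i + 2) + 4 - i = i ∧ 2 * (i + 2) + 4 - (i + 3) = i - 3 ∧
        2 * (i + 2) + 4 - (i + 1) = i - 1 ∧ 2 * (i + 2) + 4 - (i + 2) = i - 2 := by decide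
    simp only [conjugate_commutatorElement, ← conj_mul] at k
    rw [hS.wey _ _ hi, hF.wey _ _ q3 s ν h, hF.wey _ _ q1 _ _ (hz _ s ν h), hS.wey _ _ q2, (e i).1,
      (e i).2.1, (e i).2.2.1, (e i).2.2.2, sq, map_mul, mul_comm (σ a) a] at k
    exact k
  · refine ind2 2 (fun i => OddC L t {p | ∃ s ν, Hz σ s ν ∧ p = E i s ν}) ?_ ?_ i ((lg i).2 hi)
    · exact fun k h1 h2 h3 p hp => hF.odd k h1 h2 h3 p ((hF.mem 2 (by decide) p).2 hp)
    · rintro i hi H k h1 h2 h3 _ ⟨s, ν, h, rfl⟩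
      have c : Commute k (n2 x 4 * n2 x 3) := (h1 _ (mul_mem (hC.kb.nL 4) (hC.kb.nL 3))).symm
      rw [← rE i ((lg i).1 hi) s ν h]
      exact (c.mul_right (H k h1 h2 h3 _ ⟨s, ν, h, rfl⟩)).mul_right c.inv_right

set_option linter.all false in
theorem eqns_S4F0c : True := by
  trivial

end Cfsg.Agent.H83.S4F
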