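import Cfsg.Agent.H79.RbDefs

/-! Schur's degree formula (pieces Schur and Deg of project RB). -/

set_option autoImplicit false

open Finset Polynomial

namespace Cfsg.Agent.H83.RbS

open Cfsg.Agent.H79.RB

theorem lagr {ι : Type*} [DecidableEq ι] (S : Finset ι) (a b : ι → ℚ) (ha : Set.InjOn a S) :
    ∑ x ∈ S, (∏ y ∈ S, (a x - b y)) / ∏ y ∈ S.erase x, (a x - a y) = ∑ x ∈ S, (a x - b x) := by
  rcases S.eq_empty_or_nonempty with rfl | hS
  · simp
  have hd : (Lagrange.nodal S b - Lagrange.nodal S a).degree < #S := by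
    rw [← Lagrange.degree_nodal (v := b)]
    exact degree_sub_lt_left (by simp only [Lagrange.degree_nodal]) Lagrange.nodal_monic.ne_zero
      (by rw [Lagrange.nodal_monic, Lagrange.nodal_monic])
  have h := Lagrange.coeff_eq_sum ha hd
  rw [coeff_sub, Lagrange.nodal_eq, Lagrange.nodal_eq, prod_X_sub_C_coeff_card_pred _ _ hS.card_pos,
    prod_X_sub_C_coeff_card_pred _ _ hS.card_pos] at h
  rw [sum_sub_distrib, ← neg_sub_neg, h]
  refine sum_congr rfl fun x hx => ?_
  rw [← Lagrange.nodal_eq, ← Lagrange.nodal_eq, eval_sub, Lagrange.eval_nodal_at_node hx, sub_zero,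
    Lagrange.eval_nodal]

/-- The factor of a new part. -/
noncomputable def uu (x : ℕ) (T : Finset ℕ) : ℚ :=
  (x.factorial : ℚ)⁻¹ * ∏ y ∈ T, |(x : ℚ) - y| / ((x : ℚ) + y)

theorem eqns_uu : True := by have := @uu.eq_1; trivial

theorem hS_insert {x : ℕ} {T : Finset ℕ} (hx : x ∉ T) : hS (insert x T) = hS T * uu x T := by
  have : ∀ y ∈ T, |(x : ℚ) - y| / ((x : ℚ) + y) =
      (if y < x then ((x : ℚ) - y) / ((x : ℚ) + y) else 1) *
        if x < y then ((y : ℚ) - x) / ((y : ℚ) + x) else 1 := fun y hy => by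
    rcases lt_trichotomy x y with h | rfl | h
    · rw [if_neg h.not_gt, if_pos h, one_mul, abs_sub_comm, abs_of_pos (by simpa using h), add_comm]
    · exact absurd hy hx
    · rw [if_pos h, if_neg h.not_gt, mul_one, abs_of_pos (by simpa using h)]
  simp only [hS, uu, prod_filter, prod_product, prod_insert hx, lt_irrefl, if_false, one_mul,
    prod_congr rfl this, prod_mul_distrib]
  ring

theorem hS_dn {S : Finset ℕ} (h0 : 0 ∉ S) {x : ℕ} (hx : x - 1 ∉ S) :
    hS (dn S x) = hS (S.erase x) * uu (x - 1) (S.erase x) := by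
  have h1 : x - 1 ∉ S.erase x := fun h => hx (mem_of_mem_erase h)
  by_cases h : x - 1 = 0
  · rw [h] at h1
    rw [dn, h, erase_insert h1, uu, prod_eq_one fun y hy => ?_]
    · simp
    · have : (y : ℚ) ≠ 0 := by exact_mod_cast fun e : y = 0 => h1 (e ▸ hy)
      simp [this]
  · rw [dn, erase_eq_of_notMem (by
      rw [mem_insert]; rintro (e | e); exacts [h e.symm, h0 (mem_of_mem_erase e)]), hS_insert h1]

theorem uu_pred {T : Finset ℕ} (h0 : 0 ∉ T) {x : ℕ} (hx : x + 1 ∉ T) :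
    uu x T = uu (x + 1) T * ((x + 1 : ℚ) * ∏ y ∈ T,
      ((x + 1 : ℚ) * x - y * (y + 1)) / ((x + 1 : ℚ) * x - y * (y - 1))) := by
  have h1 : (x.factorial : ℚ) ≠ 0 := by positivity
  rw [uu, uu, mul_mul_mul_comm, ← prod_mul_distrib, Nat.factorial_succ]
  congr 1
  · push_cast; field_simp
  refine prod_congr rfl fun y hy => ?_
  have h2 : (0 : ℚ) < y := by exact_mod_cast Nat.pos_of_ne_zero fun e => h0 (e ▸ hy)
  have h3 : (x : ℚ) + 1 - y ≠ 0 := sub_ne_zero.2 (by exact_mod_cast fun e : x + 1 = y => hx (e ▸ hy))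
  rw [show (x + 1 : ℚ) * x - y * (y + 1) = (x + 1 + y) * (x - y) by ring,
    show (x + 1 : ℚ) * x - y * (y - 1) = (x + y) * (x + 1 - y) by ring]
  push_cast
  rcases le_or_gt y x with h | h
  · have : (y : ℚ) ≤ x := by exact_mod_cast h
    rw [abs_of_nonneg (by linarith), abs_of_nonneg (by linarith)]
    field_simp
  · have : (x : ℚ) + 1 ≤ y := by exact_mod_cast h
    rw [abs_of_nonpos (by linarith), abs_of_nonpos (by linarith)]
    field_simp

/-- **Schur** -/
theorem schurStmt : SchurStmt := by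
  intro S h0
  have hi : Set.InjOn (fun x : ℕ => (x : ℚ) * (x - 1)) S := fun x hx y hy e => by
    have h1 : (1 : ℚ) ≤ x := by exact_mod_cast Nat.pos_of_ne_zero fun e : x = 0 => h0 (e ▸ hx)
    have h2 : (1 : ℚ) ≤ y := by exact_mod_cast Nat.pos_of_ne_zero fun e : y = 0 => h0 (e ▸ hy)
    have : ((x : ℚ) - y) * (x + y - 1) = 0 := by linear_combination e
    exact_mod_cast sub_eq_zero.1 ((mul_eq_zero.1 this).resolve_right (by linarith))
  have h := lagr S _ (fun y : ℕ => (y : ℚ) * (y + 1)) hi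
  have key : ∀ x ∈ S, hS (S.erase x) * uu (x - 1) (S.erase x) = -(1 / 2) * hS S *
      ((∏ y ∈ S, ((x : ℚ) * (x - 1) - y * (y + 1))) /
        ∏ y ∈ S.erase x, ((x : ℚ) * (x - 1) - y * (y - 1))) := fun x hx => by
    obtain ⟨x, rfl⟩ := Nat.exists_eq_add_one_of_ne_zero fun e : x = 0 => h0 (e ▸ hx)
    rw [Nat.add_sub_cancel, uu_pred (fun e => h0 (mem_of_mem_erase e)) (notMem_erase _ _),
      ← mul_assoc, ← hS_insert (notMem_erase _ _), insert_erase hx, ← mul_prod_erase _ _ hx,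
      prod_div_distrib]
    push_cast
    simp only [add_sub_cancel_right]
    ring
  rw [sum_congr rfl fun x hx => hS_dn h0 (mem_filter.1 hx).2, sum_filter_of_ne, sum_congr rfl key,
    ← mul_sum, h, Nat.cast_sum, sum_mul, mul_sum]
  · exact sum_congr rfl fun x _ => by ring
  · intro x hx hne hm
    have : x - 1 ∈ S.erase x := mem_erase.2 ⟨by
      have := Nat.pos_of_ne_zero fun e : x = 0 => h0 (e ▸ hx); omega, hm⟩
    exact hne (by rw [uu, prod_eq_zero this (by simp), mul_zero, mul_zero])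

/-- **Deg** -/
theorem degStmt (hB : BasicStmt) (hA : AdjStmt) (hR : RecStmt) : DegStmt := by
  intro S n
  induction n generalizing S with
  | zero =>
    intro h0 hs
    obtain rfl : S = ∅ := eq_empty_of_forall_notMem fun x hx =>
      h0 (sum_eq_zero_iff.1 hs x hx ▸ hx)
    refine ⟨1, ?_, by simp [hS]⟩
    rw [hB.2.2.2.2.2.2.2.2.2.2.2.1, pow_zero]
    simpa [nrm] using ip_monomial 0 1
  | succ n ih =>
    intro h0 hs
    have : ∀ x ∈ S.filter (fun x => x - 1 ∉ S), ∃ g : ℕ,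
        ip (MvPolynomial.X 0 ^ n) (QS (dn S x)) = g ∧ (g : ℚ) = n.factorial * hS (dn S x) :=
      fun x hx => ih _ (notMem_erase _ _) (by
        obtain ⟨h1, h2⟩ := mem_filter.1 hx
        have := Nat.pos_of_ne_zero fun e : x = 0 => h0 (e ▸ h1)
        rw [← add_sum_erase _ _ h1] at hs
        rw [dn, sum_erase (f := fun x : ℕ => x) _ rfl, sum_insert fun h => h2 (mem_of_mem_erase h)]
        omega)
    choose! g h1 h2 using this
    refine ⟨∑ x ∈ S.filter (fun x => x - 1 ∉ S), g x, ?_, ?_⟩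
    · rw [pow_succ', hA.1, hR S h0, map_sum, Nat.cast_sum, sum_congr rfl h1]
    · rw [Nat.cast_sum, sum_congr rfl h2, ← mul_sum, ← schurStmt S h0, hs, Nat.factorial_succ]
      push_cast
      ring

set_option linter.all false in
theorem eqns_RbSchur : True := by
  first | (have := @_root_.Cfsg.Agent.H83.RbS.uu.eq_def.{0,0,0,0}) | (have := @_root_.Cfsg.Agent.H83.RbS.uu.eq_def.{0,0,0}) | (have := @_root_.Cfsg.Agent.H83.RbS.uu.eq_def.{0,0}) | (have := @_root_.Cfsg.Agent.H83.RbS.uu.eq_def.{0}) | (have := @_root_.Cfsg.Agent.H83.RbS.uu.eq_def) | skip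
  first | (have := @_root_.Cfsg.Agent.H83.RbS.uu.eq_1.{0,0,0,0}) | (have := @_root_.Cfsg.Agent.H83.RbS.uu.eq_1.{0,0,0}) | (have := @_root_.Cfsg.Agent.H83.RbS.uu.eq_1.{0,0}) | (have := @_root_.Cfsg.Agent.H83.RbS.uu.eq_1.{0}) | (have := @_root_.Cfsg.Agent.H83.RbS.uu.eq_1) | skip
  first | (have := @_root_.Cfsg.Agent.H83.RbS.uu.eq_2.{0,0,0,0}) | (have := @_root_.Cfsg.Agent.H83.RbS.uu.eq_2.{0,0,0}) | (have := @_root_.Cfsg.Agent.H83.RbS.uu.eq_2.{0,0}) | (have := @_root_.Cfsg.Agent.H83.RbS.uu.eq_2.{0}) | (have := @_root_.Cfsg.Agent.H83.RbS.uu.eq_2) | skip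
  first | (have := @_root_.Cfsg.Agent.H83.RbS.uu.congr_simp.{0,0,0,0}) | (have := @_root_.Cfsg.Agent.H83.RbS.uu.congr_simp.{0,0,0}) | (have := @_root_.Cfsg.Agent.H83.RbS.uu.congr_simp.{0,0}) | (have := @_root_.Cfsg.Agent.H83.RbS.uu.congr_simp.{0}) | (have := @_root_.Cfsg.Agent.H83.RbS.uu.congr_simp) | skip
  trivial

end Cfsg.Agent.H83.RbS
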