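import Cfsg.Agent.H45.IvDefs

/-! Project CY, chapter IV, piece FP0: the counting argument. -/

set_option autoImplicit false

namespace Cfsg.Agent.H83.CyFp0

open Subgroup MulAction Cfsg.Agent.H11.Cy Cfsg.Agent.H45.Iv Finset
open scoped commutatorElement

theorem dbl {α β : Type} [Fintype β] (X : Finset α) (r : α → β → Prop)
    [∀ a b, Decidable (r a b)] :
    ∑ c ∈ X, #(univ.filter fun v => r c v) = ∑ v, #(X.filter fun c => r c v) := by
  simp only [card_filter]
  exact sum_comm

theorem fp0 : Fp0Stmt := by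
  intro G _ _ Ω _ _ p A h k ls x y hxy a ha a1 s hs sZ w0 hw0
  classical
  have := Fintype.ofFinite G
  have := Fintype.ofFinite Ω
  have := h.nt
  have : Nonempty Ω := ⟨x⟩
  obtain ⟨X, hX⟩ : ∃ X : Finset G, ∀ c, c ∈ X ↔ IsConj a c :=
    ⟨univ.filter (IsConj a ·), fun c => by simp⟩
  have hpt : ∀ c ∈ X, ∃ v, c ∈ A v ∧ ∀ u, c • u = u ↔ u = v := fun c hc => by
    obtain ⟨g, rfl⟩ := isConj_iff.1 ((hX c).1 hc)
    refine ⟨g • x, h.eqv g x a ha, fun u => ⟨fun e => (h.semi _ u _ (h.eqv g x a ha) e).resolve_left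
      (by simpa using a1), fun e => e ▸ h.fix _ _ (h.eqv g x a ha)⟩⟩
  choose! pt hA hF using hpt
  let N : Ω → Ω → ℕ := fun u v => #(X.filter fun c => c • u = v)
  have inv : ∀ (g : G) u v, N u v = N (g • u) (g • v) := fun g u v =>
    card_bijective (MulAut.conj g) (MulAut.conj g).bijective fun c => by
      simp only [mem_filter, hX, MulAut.conj_apply, mul_smul, inv_smul_smul, smul_left_cancel_iff]
      exact and_congr_left' ⟨fun e => e.trans (isConj_iff.2 ⟨g, rfl⟩),
        fun e => e.trans (isConj_iff.2 ⟨g, rfl⟩).symm⟩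
  have d1 : ∀ u, N u u = N x x := fun u => by
    obtain ⟨u', hu'⟩ := exists_ne u
    obtain ⟨g, -, e, -⟩ := h.two x trivial y trivial u trivial u' trivial hxy hu'.symm
    rw [inv g x x, e]
  have d2 : ∀ u v, u ≠ v → N u v = N x y := fun u v huv => by
    obtain ⟨g, -, e, e'⟩ := h.two x trivial y trivial u trivial v trivial hxy huv
    rw [inv g x y, e, e']
  have s1 : #X = Fintype.card Ω * N x x := by
    have e := dbl X fun c (v : Ω) => c • v = v
    rw [sum_congr rfl (g := fun _ => 1) fun c hc => card_eq_one.2 ⟨pt c, by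
      ext u; simp [hF c hc]⟩, sum_congr rfl (g := fun _ => N x x) fun u _ => d1 u] at e
    simpa using e
  have s2 : #X = N x x + (Fintype.card Ω - 1) * N x y := by
    have e := dbl X fun c (v : Ω) => c • x = v
    rw [sum_congr rfl (g := fun _ => 1) fun c hc => card_eq_one.2 ⟨c • x, by
      ext u; simp [eq_comm]⟩, ← add_sum_erase _ _ (mem_univ x),
      sum_congr rfl (g := fun _ => N x y) fun u hu => d2 x u (ne_of_mem_erase hu).symm] at e
    simpa [card_erase_of_mem] using e
  have n2 : 1 < Fintype.card Ω := Fintype.one_lt_card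
  have d3 : N x y = N x x := by
    obtain ⟨n, hn⟩ : ∃ n, Fintype.card Ω = n + 1 + 1 := ⟨Fintype.card Ω - 2, by omega⟩
    rw [hn] at s1 s2
    rw [s1, Nat.add_sub_cancel, add_mul (n + 1), one_mul, add_comm, add_right_inj] at s2
    exact (Nat.eq_of_mul_eq_mul_left (by omega) s2).symm
  have d4 : ∀ u v, N u v = N x x := fun u v => by
    by_cases e : u = v
    · rw [← e, d1]
    · rw [d2 u v e, d3]
  let f : G → ℕ := fun c => #(univ.filter fun v : Ω => c • v = a • v)
  have s3 : ∑ c ∈ X, f c = #X := by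
    have e := dbl X fun c (v : Ω) => c • v = a • v
    rw [sum_congr rfl (s₁ := univ) (g := fun _ => N x x) fun u _ => d4 u (a • u)] at e
    rw [s1]
    simpa using e
  have s4 : Fintype.card Ω - 1 ≤ #(X.filter fun c => f c = 0) := by
    have e : ∑ c ∈ X, (1 + if c = a then Fintype.card Ω - 1 else 0) ≤
        ∑ c ∈ X, (f c + if f c = 0 then 1 else 0) := sum_le_sum fun c _ => by
      split_ifs with e1 e2 e2
      · subst e1
        simp [f] at e2
      · subst e1
        simp only [f, filter_true, card_univ]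
        omega
      all_goals omega
    rw [sum_add_distrib, sum_add_distrib, s3, sum_ite_eq', if_pos ((hX a).2 (IsConj.refl a)),
      ← card_filter] at e
    simpa using e
  have bad : ∀ c, f c = 0 → ∀ u : Ω, (a * c⁻¹) • u ≠ u := fun c hc u e => by
    have : c⁻¹ • u ∈ univ.filter fun v : Ω => c • v = a • v := by
      rw [mem_filter, smul_inv_smul, ← mul_smul, e]
      exact ⟨mem_univ _, rfl⟩
    rw [card_eq_zero.1 hc] at this
    simp at this
  have b1 : ∀ c ∈ X, f c = 0 → x ≠ pt c := fun c hc h0 e => bad c h0 x (by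
    rw [mul_smul, h.fix x _ (inv_mem (e ▸ hA c hc)), h.fix x a ha])
  have b2 : ∀ c ∈ X, f c = 0 → a * c⁻¹ ∈ Rl A x (pt c) := fun c hc h0 => by
    by_contra e
    obtain ⟨u, -, e1, -⟩ := (ls x _ (b1 c hc h0)).1.out _
      (mul_mem (mem_sup_left ha) (mem_sup_right (inv_mem (hA c hc)))) e
    exact bad c h0 u ((e1 u).2 rfl)
  have uq : ∀ v, x ≠ v → ∀ c ∈ A v, ∀ c' ∈ A v, a * c⁻¹ ∈ Rl A x v → a * c'⁻¹ ∈ Rl A x v →
      c = c' := fun v hv c hc c' hc' e e' => by
    have := (ls x v hv).1.disj v _ (mul_mem hc (inv_mem hc')) (by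
      simpa [mul_assoc] using mul_mem (inv_mem e) e')
    exact mul_inv_eq_one.1 this
  have sF : s ∈ Fl A x y := (ls x y hxy).1.sup ▸ mem_sup_left hs
  have sx : x ≠ s • x := fun e => sZ ((ls x y hxy).2.1.stab s hs x (k.ln x y).1 e.symm)
  have sL : s • x ∈ Ln A x y := fun b hb => by
    have e := h.eqv s⁻¹ _ b hb
    rw [inv_smul_smul] at e
    simpa [mul_assoc] using mul_mem (mul_mem sF (mem_sup_left e : _ ∈ Fl A x y)) (inv_mem sF)
  have ec : ⁅a, s⁆ = a * (s * a * s⁻¹)⁻¹ := by rw [commutatorElement_def]; group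
  have sR : a * (s * a * s⁻¹)⁻¹ ∈ Rl A x (s • x) := by
    rw [(k.sp x y hxy x (k.ln x y).1 _ sL sx).1, ← ec]
    exact commutator_mem_commutator (mem_sup_left ha) sF
  have s5 : #(X.filter fun c => f c = 0) ≤ #((univ.erase x).erase (s • x)) := by
    refine card_le_card_of_injOn pt (fun c hc => ?_) fun c hc c' hc' e => ?_
    · obtain ⟨hc, h0⟩ := mem_filter.1 (mem_coe.1 hc)
      refine mem_coe.2 (mem_erase.2 ⟨fun e => ?_, mem_erase.2 ⟨(b1 c hc h0).symm, mem_univ _⟩⟩)
      have e1 := uq _ sx c (e ▸ hA c hc) _ (h.eqv s x a ha) (e ▸ b2 c hc h0) sR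
      exact bad c h0 w0 (by rw [e1, ← ec, hw0])
    · obtain ⟨hc, h0⟩ := mem_filter.1 (mem_coe.1 hc)
      obtain ⟨hc', h0'⟩ := mem_filter.1 (mem_coe.1 hc')
      exact uq _ (b1 c hc h0) c (hA c hc) c' (e ▸ hA c' hc') (b2 c hc h0) (e ▸ b2 c' hc' h0')
  rw [card_erase_of_mem (mem_erase.2 ⟨sx.symm, mem_univ _⟩), card_erase_of_mem (mem_univ _),
    card_univ] at s5
  omega

set_option linter.all false in
theorem eqns_CyFp0 : True := by
  trivial

end Cfsg.Agent.H83.CyFp0
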