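import Cfsg.Agent.H11.CyLp
import Cfsg.Agent.H79.ElWk

/-!
# Project CY, piece LP-WK: the section `W / A x` against the lines through `x`
-/

set_option autoImplicit false

namespace Cfsg.Agent.H83.CyWk

open Subgroup MulAction Cfsg.Agent.H11.Cy Cfsg.Agent.H11.Cy.Lp
open Cfsg.Agent.H11.EL (Nm Ct WS)
open Cfsg.Agent.H79.ElWk (ct_le_nm cj_line fixl)

section
variable {G : Type} [Group G] {Ω : Type} [MulAction G Ω] {p : ℕ} {A : Ω → Subgroup G}

theorem cj_A (h : St p A) (g : G) (x : Ω) : H11.EL.cj g (A x) = A (g • x) := by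
  refine le_antisymm ?_ (fun a ha => ⟨g⁻¹ * a * g⁻¹⁻¹,
    inv_smul_smul g x ▸ h.eqv g⁻¹ _ a ha, by simp [mul_assoc]⟩)
  rintro _ ⟨a, ha, rfl⟩
  exact h.eqv g x a ha

theorem cj_Fl (h : St p A) {x : Ω} (y : Ω) {w : G} (hw : w ∈ Ct (A x)) :
    H11.EL.cj w (Fl A x y) = Fl A x (w • y) := by
  change H11.EL.cj w (A x ⊔ A y) = A x ⊔ A (w • y)
  rw [cj_line hw, cj_A h]

theorem nm_of_mem (h : St p A) {x y : Ω} (l3 : L3 p A x y) {w : G} (hw : w ∈ Ct (A x))
    (hl : w • y ∈ Ln A x y) : w ∈ Nm (Fl A x y) := by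
  have hx : w • x = x := (l3.mc.ep.nA x w).1 (ct_le_nm _ hw)
  have hne : x ≠ w • y := by
    intro e
    apply l3.xy
    have : w • x = w • y := hx.trans e
    exact (smul_left_cancel_iff w).1 this
  rw [← H11.EL.cj_eq_iff, cj_Fl h y hw]
  exact l3.mc.ep.span x y l3.xy x (l3.la x y l3.xy).mx (w • y) hl hne

end

theorem wk : WKStmt := by
  intro G _ _ Ω _ _ p A h x y l3 W l ws
  have la := l3.la x y l3.xy
  have key : W ⊓ Kl A x y = ⊥ → ∀ w ∈ W, w ∈ Nm (Fl A x y) → w ∈ A x := by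
    intro hb w hw hn
    obtain ⟨k, hk, a, ha, e⟩ := la.CM w (ws.ct hw) hn
    have hkW : k ∈ W := by
      have : k = w * a⁻¹ := by rw [e]; group
      rw [this]; exact mul_mem hw (inv_mem (ws.le ha))
    have : k ∈ W ⊓ Kl A x y := ⟨hkW, hk⟩
    rw [hb, mem_bot] at this
    rw [e, this, one_mul]; exact ha
  refine ⟨fun k hkW hk hk1 => ⟨hk, hk1, ?_⟩, fun hb k hk hk1 w hw hc => ?_⟩
  · by_cases hex : ∃ w ∈ W, w • y ∉ Ln A x y
    · obtain ⟨w, hw, hn⟩ := hex
      refine ⟨w • y, hn, ?_⟩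
      have := fixl (B := A y) (ws.ct hw) (ct_le_nm _ hk) (ws.ab k hkW w hw)
      rw [cj_A h] at this
      exact this
    · push Not at hex
      obtain ⟨z, hn⟩ : ∃ z, z ∉ Ln A x y := by
        by_contra hc
        push Not at hc
        exact l3.mu x y l3.xy (Set.eq_univ_of_forall hc)
      have hzx : z ≠ x := by
        rintro rfl; exact hn la.mx
      obtain ⟨c, hc, e⟩ := l3.ctr x y z l3.xy.symm hzx
      refine ⟨z, hn, ?_⟩
      have hcW : c⁻¹ ∈ Nm W := ws.nm (inv_mem (ct_le_nm _ hc))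
      have hk' : c⁻¹ * k * c ∈ W := by
        have := (mem_normalizer_iff.1 hcW k).1 hkW
        simpa using this
      have hn' : c⁻¹ * k * c ∈ Nm (Fl A x y) := nm_of_mem h l3 (ws.ct hk') (hex _ hk')
      rw [← H11.EL.cj_eq_iff, ← e, ← cj_Fl h y hc, ← H11.EL.cj_mul]
      have e2 : k * c = c * (c⁻¹ * k * c) := by group
      rw [e2, H11.EL.cj_mul, H11.EL.cj_eq_iff.2 hn']
  · refine key hb w hw (l3.tiN x y l3.xy k hk hk1 w ?_)
    have : w * k * w⁻¹ = k := by rw [hc.eq]; group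
    rw [this]; exact hk

set_option linter.all false in
theorem eqns_CyWk : True := by
  trivial

end Cfsg.Agent.H83.CyWk
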