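import Cfsg.Agent.H50.E72Defs
import Cfsg.Agent.H28.Act
import Cfsg.Agent.H28.SUmk
import Cfsg.Agent.H28.Transport
import Cfsg.Agent.H31.HermSU

/-!
# An elementary abelian group of order 81 in `U₄(3)` and the fusion of its elements
-/

set_option autoImplicit false

namespace Cfsg.Agent.H83.E72EmbU

open Cfsg Cfsg.Agent.H28 Cfsg.Agent.H50.E72 Multiplicative

universe u

theorem add_cube : ∀ x y : F9, (x + y) ^ 3 = x ^ 3 + y ^ 3 := by decide +kernel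

/-- The nilpotent parts. -/
def nm (e : E4) : Fin 4 → Fin 4 → F9 :=
  ![![⟨0, e 0⟩, ⟨e 0, e 0⟩, ⟨e 2, e 3⟩, ⟨e 2 + e 3, e 3 - e 2⟩],
    ![⟨-e 0, e 0⟩, ⟨0, -e 0⟩, ⟨e 2 - e 3, e 2 + e 3⟩, ⟨-e 2, -e 3⟩],
    ![⟨-e 2, e 3⟩, ⟨e 3 - e 2, e 2 + e 3⟩, ⟨0, -e 1⟩, ⟨-e 1, -e 1⟩],
    ![⟨-e 2 - e 3, e 3 - e 2⟩, ⟨e 2, -e 3⟩, ⟨e 1, -e 1⟩, ⟨0, e 1⟩]]

/-- The matrices of the elementary abelian group. -/
def xm (e : E4) (i j : Fin 4) : F9 := (if i = j then 1 else 0) + nm e i j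

theorem nm_add (e f : E4) (i j : Fin 4) : nm (e + f) i j = nm e i j + nm f i j := by
  fin_cases i <;> fin_cases j <;> ext <;> simp [nm] <;> ring

theorem nm_row : ∀ e i, nm e i 1 = ⟨1, -1⟩ * nm e i 0 ∧ nm e i 3 = ⟨1, -1⟩ * nm e i 2 := by
  decide +kernel

theorem nm_col : ∀ e j, nm e 0 j + ⟨1, -1⟩ * nm e 1 j = 0 ∧ nm e 2 j + ⟨1, -1⟩ * nm e 3 j = 0 := by
  decide +kernel

theorem nm_mul (e f : E4) (i j : Fin 4) : ∑ k, nm e i k * nm f k j = 0 := by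
  rw [Fin.sum_univ_four, (nm_row e i).1, (nm_row e i).2]
  linear_combination nm e i 0 * (nm_col f j).1 + nm e i 2 * (nm_col f j).2

theorem xm_mul (e f : E4) (i j : Fin 4) : xm (e + f) i j = ∑ k, xm e i k * xm f k j := by
  simp only [xm, add_mul, mul_add, Finset.sum_add_distrib, nm_mul, nm_add, ite_mul, mul_ite,
    one_mul, zero_mul, mul_one, mul_zero, Finset.sum_ite_eq, Finset.sum_ite_eq', Finset.mem_univ,
    if_true]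
  ring

theorem xm_det : ∀ e, (Matrix.of (xm e)).det = 1 := by decide +kernel

theorem xm_un : ∀ e i j, ∑ k, xm e k i * xm e k j ^ 3 = if i = j then 1 else 0 := by
  decide +kernel

theorem xm_ne : ∀ e, e ≠ 0 → ∃ i j, i ≠ j ∧ xm e i j ≠ 0 := by decide +kernel

/-- Two elements of the normaliser. -/
def gm : Bool → Fin 4 → Fin 4 → F9
  | false => ![![⟨1, 0⟩, ⟨0, 0⟩, ⟨2, 1⟩, ⟨2, 0⟩], ![⟨0, 0⟩, ⟨1, 0⟩, ⟨1, 0⟩, ⟨2, 2⟩],
      ![⟨1, 1⟩, ⟨2, 0⟩, ⟨1, 0⟩, ⟨0, 0⟩], ![⟨1, 0⟩, ⟨1, 2⟩, ⟨0, 0⟩, ⟨1, 0⟩]]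
  | true => ![![⟨2, 1⟩, ⟨0, 2⟩, ⟨1, 0⟩, ⟨0, 0⟩], ![⟨0, 1⟩, ⟨1, 1⟩, ⟨0, 0⟩, ⟨1, 0⟩],
      ![⟨2, 0⟩, ⟨0, 0⟩, ⟨2, 2⟩, ⟨0, 2⟩], ![⟨0, 0⟩, ⟨2, 0⟩, ⟨0, 1⟩, ⟨1, 2⟩]]

/-- Their action on the elementary abelian group. -/
def sg : Bool → E4 → E4
  | false, e => ![e 0 - e 1 - e 3, e 1, e 2, e 3 - e 1]
  | true, e => ![-e 1, e 1 + e 2 - e 0, e 2 - e 1, -e 3]

theorem gm_det : ∀ b, (Matrix.of (gm b)).det = 1 := by decide +kernel

theorem gm_un : ∀ b i j, ∑ k, gm b k i * gm b k j ^ 3 = if i = j then 1 else 0 := by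
  decide +kernel

theorem gm_x : ∀ b e i j, ∑ k, gm b i k * xm e k j = ∑ k, xm (sg b e) i k * gm b k j := by
  decide +kernel

/-- The distance to the orbit representative. -/
def ds (e : E4) : ℕ :=
  [0, 0, 6, 5, 8, 5, 3, 3, 2, 0, 1, 8, 3, 4, 5, 7, 2, 5, 8, 7, 9, 6, 4, 6, 7, 1, 4, 6, 4, 5, 6, 6,
    3, 4, 5, 2, 0, 1, 2, 3, 5, 4, 6, 6, 4, 6, 4, 5, 4, 4, 6, 6, 6, 3, 6, 5, 7, 7, 6, 4, 3, 4, 2, 2,
    1, 3, 3, 4, 5, 5, 7, 3, 6, 5, 7, 3, 5, 5, 5, 5, 2].getD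
    ((e 0).val + 3 * (e 1).val + 9 * (e 2).val + 27 * (e 3).val) 0

/-- The orbit representatives. -/
def rp (c : ZMod 3) : E4 :=
  if c = 0 then ![1, 0, 0, 0] else if c = 1 then ![0, 0, 1, 0] else ![0, 0, 1, 1]

theorem step : ∀ e : E4, e ≠ 0 → e = rp (q4 e) ∨
    ∃ b, ds (sg b e) < ds e ∧ sg b e ≠ 0 ∧ q4 (sg b e) = q4 e := by decide +kernel

/-- The elements of `SU₄(3)`. -/
def xs (e : E4) : SU 4 F9 3 := suMk add_cube (by norm_num) (xm e) (xm_det e) (xm_un e)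

/-- The normalising elements of `SU₄(3)`. -/
def gs (b : Bool) : SU 4 F9 3 := suMk add_cube (by norm_num) (gm b) (gm_det b) (gm_un b)

/-- The elementary abelian group in `PSU₄(3)`. -/
def xh : Multiplicative E4 →* PSU 4 F9 3 :=
  MonoidHom.mk' (fun e => QuotientGroup.mk (xs e.toAdd)) fun e f => by
    rw [← QuotientGroup.mk_mul]
    exact congrArg _ (su_ext (xm_mul e.toAdd f.toAdd))

theorem conj_sg (b : Bool) (e : E4) : IsConj (xh (ofAdd e)) (xh (ofAdd (sg b e))) := by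
  refine isConj_iff.2 ⟨QuotientGroup.mk (gs b), ?_⟩
  rw [mul_inv_eq_iff_eq_mul]
  exact congrArg (QuotientGroup.mk : SU 4 F9 3 → PSU 4 F9 3)
    (su_ext (g := gs b * xs e) (h := xs (sg b e) * gs b) (gm_x b e))

theorem conj_rp (e : E4) (he : e ≠ 0) : IsConj (xh (ofAdd e)) (xh (ofAdd (rp (q4 e)))) := by
  induction h : ds e using Nat.strong_induction_on generalizing e with
  | _ n ih =>
    rcases step e he with h1 | ⟨b, h1, h2, h3⟩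
    · rw [← h1]
    · exact (conj_sg b e).trans (h3 ▸ ih _ (h ▸ h1) _ h2 rfl)

theorem cfg9 : CfgQ (PSU 4 F9 3) := by
  refine ⟨xh, (injective_iff_map_eq_one _).2 fun e h => ?_, fun e e' he he' hq =>
    (conj_rp e he).trans (hq ▸ (conj_rp e' he').symm)⟩
  by_contra he
  obtain ⟨c, hc⟩ := (H31.mem_center_SU_iff (F := F9) (q := 3) card_F9 (by norm_num)).1
    ((QuotientGroup.eq_one_iff _).1 h)
  obtain ⟨i, j, h2, h3⟩ := xm_ne e.toAdd he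
  have h1 : xm e.toAdd i j = c * if i = j then 1 else 0 := congrFun (congrFun hc i) j
  exact h3 (by rw [h1, if_neg h2, mul_zero])

theorem CfgQ.congr {Γ Δ : Type*} [Group Γ] [Group Δ] (φ : Γ ≃* Δ) (h : CfgQ Γ) : CfgQ Δ := by
  obtain ⟨x, h1, h2⟩ := h
  exact ⟨φ.toMonoidHom.comp x, φ.injective.comp h1,
    fun e e' he he' hq => φ.toMonoidHom.map_isConj (h2 e e' he he' hq)⟩

theorem embU : EmbUStmt.{u} := fun _ _ _ hF =>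
  CfgQ.congr (psuEquiv (equivF9 hF) 4 3).symm cfg9

set_option linter.all false in
theorem eqns_E72EmbU : True := by
  first | (have := @_root_.Cfsg.Agent.H83.E72EmbU.nm.eq_def.{0,0,0,0}) | (have := @_root_.Cfsg.Agent.H83.E72EmbU.nm.eq_def.{0,0,0}) | (have := @_root_.Cfsg.Agent.H83.E72EmbU.nm.eq_def.{0,0}) | (have := @_root_.Cfsg.Agent.H83.E72EmbU.nm.eq_def.{0}) | (have := @_root_.Cfsg.Agent.H83.E72EmbU.nm.eq_def) | skip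
  first | (have := @_root_.Cfsg.Agent.H83.E72EmbU.nm.eq_1.{0,0,0,0}) | (have := @_root_.Cfsg.Agent.H83.E72EmbU.nm.eq_1.{0,0,0}) | (have := @_root_.Cfsg.Agent.H83.E72EmbU.nm.eq_1.{0,0}) | (have := @_root_.Cfsg.Agent.H83.E72EmbU.nm.eq_1.{0}) | (have := @_root_.Cfsg.Agent.H83.E72EmbU.nm.eq_1) | skip
  first | (have := @_root_.Cfsg.Agent.H83.E72EmbU.nm.eq_2.{0,0,0,0}) | (have := @_root_.Cfsg.Agent.H83.E72EmbU.nm.eq_2.{0,0,0}) | (have := @_root_.Cfsg.Agent.H83.E72EmbU.nm.eq_2.{0,0}) | (have := @_root_.Cfsg.Agent.H83.E72EmbU.nm.eq_2.{0}) | (have := @_root_.Cfsg.Agent.H83.E72EmbU.nm.eq_2) | skip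
  first | (have := @_root_.Cfsg.Agent.H83.E72EmbU.nm.congr_simp.{0,0,0,0}) | (have := @_root_.Cfsg.Agent.H83.E72EmbU.nm.congr_simp.{0,0,0}) | (have := @_root_.Cfsg.Agent.H83.E72EmbU.nm.congr_simp.{0,0}) | (have := @_root_.Cfsg.Agent.H83.E72EmbU.nm.congr_simp.{0}) | (have := @_root_.Cfsg.Agent.H83.E72EmbU.nm.congr_simp) | skip
  first | (have := @_root_.Cfsg.Agent.H83.E72EmbU.xm.eq_def.{0,0,0,0}) | (have := @_root_.Cfsg.Agent.H83.E72EmbU.xm.eq_def.{0,0,0}) | (have := @_root_.Cfsg.Agent.H83.E72EmbU.xm.eq_def.{0,0}) | (have := @_root_.Cfsg.Agent.H83.E72EmbU.xm.eq_def.{0}) | (have := @_root_.Cfsg.Agent.H83.E72EmbU.xm.eq_def) | skip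
  first | (have := @_root_.Cfsg.Agent.H83.E72EmbU.xm.eq_1.{0,0,0,0}) | (have := @_root_.Cfsg.Agent.H83.E72EmbU.xm.eq_1.{0,0,0}) | (have := @_root_.Cfsg.Agent.H83.E72EmbU.xm.eq_1.{0,0}) | (have := @_root_.Cfsg.Agent.H83.E72EmbU.xm.eq_1.{0}) | (have := @_root_.Cfsg.Agent.H83.E72EmbU.xm.eq_1) | skip
  first | (have := @_root_.Cfsg.Agent.H83.E72EmbU.xm.eq_2.{0,0,0,0}) | (have := @_root_.Cfsg.Agent.H83.E72EmbU.xm.eq_2.{0,0,0}) | (have := @_root_.Cfsg.Agent.H83.E72EmbU.xm.eq_2.{0,0}) | (have := @_root_.Cfsg.Agent.H83.E72EmbU.xm.eq_2.{0}) | (have := @_root_.Cfsg.Agent.H83.E72EmbU.xm.eq_2) | skip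
  first | (have := @_root_.Cfsg.Agent.H83.E72EmbU.xm.congr_simp.{0,0,0,0}) | (have := @_root_.Cfsg.Agent.H83.E72EmbU.xm.congr_simp.{0,0,0}) | (have := @_root_.Cfsg.Agent.H83.E72EmbU.xm.congr_simp.{0,0}) | (have := @_root_.Cfsg.Agent.H83.E72EmbU.xm.congr_simp.{0}) | (have := @_root_.Cfsg.Agent.H83.E72EmbU.xm.congr_simp) | skip
  first | (have := @_root_.Cfsg.Agent.H83.E72EmbU.ds.eq_def.{0,0,0,0}) | (have := @_root_.Cfsg.Agent.H83.E72EmbU.ds.eq_def.{0,0,0}) | (have := @_root_.Cfsg.Agent.H83.E72EmbU.ds.eq_def.{0,0}) | (have := @_root_.Cfsg.Agent.H83.E72EmbU.ds.eq_def.{0}) | (have := @_root_.Cfsg.Agent.H83.E72EmbU.ds.eq_def) | skip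
  first | (have := @_root_.Cfsg.Agent.H83.E72EmbU.ds.eq_1.{0,0,0,0}) | (have := @_root_.Cfsg.Agent.H83.E72EmbU.ds.eq_1.{0,0,0}) | (have := @_root_.Cfsg.Agent.H83.E72EmbU.ds.eq_1.{0,0}) | (have := @_root_.Cfsg.Agent.H83.E72EmbU.ds.eq_1.{0}) | (have := @_root_.Cfsg.Agent.H83.E72EmbU.ds.eq_1) | skip
  first | (have := @_root_.Cfsg.Agent.H83.E72EmbU.ds.eq_2.{0,0,0,0}) | (have := @_root_.Cfsg.Agent.H83.E72EmbU.ds.eq_2.{0,0,0}) | (have := @_root_.Cfsg.Agent.H83.E72EmbU.ds.eq_2.{0,0}) | (have := @_root_.Cfsg.Agent.H83.E72EmbU.ds.eq_2.{0}) | (have := @_root_.Cfsg.Agent.H83.E72EmbU.ds.eq_2) | skip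
  first | (have := @_root_.Cfsg.Agent.H83.E72EmbU.ds.congr_simp.{0,0,0,0}) | (have := @_root_.Cfsg.Agent.H83.E72EmbU.ds.congr_simp.{0,0,0}) | (have := @_root_.Cfsg.Agent.H83.E72EmbU.ds.congr_simp.{0,0}) | (have := @_root_.Cfsg.Agent.H83.E72EmbU.ds.congr_simp.{0}) | (have := @_root_.Cfsg.Agent.H83.E72EmbU.ds.congr_simp) | skip
  first | (have := @_root_.Cfsg.Agent.H83.E72EmbU.rp.eq_def.{0,0,0,0}) | (have := @_root_.Cfsg.Agent.H83.E72EmbU.rp.eq_def.{0,0,0}) | (have := @_root_.Cfsg.Agent.H83.E72EmbU.rp.eq_def.{0,0}) | (have := @_root_.Cfsg.Agent.H83.E72EmbU.rp.eq_def.{0}) | (have := @_root_.Cfsg.Agent.H83.E72EmbU.rp.eq_def) | skip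
  first | (have := @_root_.Cfsg.Agent.H83.E72EmbU.rp.eq_1.{0,0,0,0}) | (have := @_root_.Cfsg.Agent.H83.E72EmbU.rp.eq_1.{0,0,0}) | (have := @_root_.Cfsg.Agent.H83.E72EmbU.rp.eq_1.{0,0}) | (have := @_root_.Cfsg.Agent.H83.E72EmbU.rp.eq_1.{0}) | (have := @_root_.Cfsg.Agent.H83.E72EmbU.rp.eq_1) | skip
  first | (have := @_root_.Cfsg.Agent.H83.E72EmbU.rp.eq_2.{0,0,0,0}) | (have := @_root_.Cfsg.Agent.H83.E72EmbU.rp.eq_2.{0,0,0}) | (have := @_root_.Cfsg.Agent.H83.E72EmbU.rp.eq_2.{0,0}) | (have := @_root_.Cfsg.Agent.H83.E72EmbU.rp.eq_2.{0}) | (have := @_root_.Cfsg.Agent.H83.E72EmbU.rp.eq_2) | skip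
  first | (have := @_root_.Cfsg.Agent.H83.E72EmbU.rp.congr_simp.{0,0,0,0}) | (have := @_root_.Cfsg.Agent.H83.E72EmbU.rp.congr_simp.{0,0,0}) | (have := @_root_.Cfsg.Agent.H83.E72EmbU.rp.congr_simp.{0,0}) | (have := @_root_.Cfsg.Agent.H83.E72EmbU.rp.congr_simp.{0}) | (have := @_root_.Cfsg.Agent.H83.E72EmbU.rp.congr_simp) | skip
  first | (have := @_root_.Cfsg.Agent.H83.E72EmbU.xs.eq_def.{0,0,0,0}) | (have := @_root_.Cfsg.Agent.H83.E72EmbU.xs.eq_def.{0,0,0}) | (have := @_root_.Cfsg.Agent.H83.E72EmbU.xs.eq_def.{0,0}) | (have := @_root_.Cfsg.Agent.H83.E72EmbU.xs.eq_def.{0}) | (have := @_root_.Cfsg.Agent.H83.E72EmbU.xs.eq_def) | skip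
  first | (have := @_root_.Cfsg.Agent.H83.E72EmbU.xs.eq_1.{0,0,0,0}) | (have := @_root_.Cfsg.Agent.H83.E72EmbU.xs.eq_1.{0,0,0}) | (have := @_root_.Cfsg.Agent.H83.E72EmbU.xs.eq_1.{0,0}) | (have := @_root_.Cfsg.Agent.H83.E72EmbU.xs.eq_1.{0}) | (have := @_root_.Cfsg.Agent.H83.E72EmbU.xs.eq_1) | skip
  first | (have := @_root_.Cfsg.Agent.H83.E72EmbU.xs.eq_2.{0,0,0,0}) | (have := @_root_.Cfsg.Agent.H83.E72EmbU.xs.eq_2.{0,0,0}) | (have := @_root_.Cfsg.Agent.H83.E72EmbU.xs.eq_2.{0,0}) | (have := @_root_.Cfsg.Agent.H83.E72EmbU.xs.eq_2.{0}) | (have := @_root_.Cfsg.Agent.H83.E72EmbU.xs.eq_2) | skip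
  first | (have := @_root_.Cfsg.Agent.H83.E72EmbU.xs.congr_simp.{0,0,0,0}) | (have := @_root_.Cfsg.Agent.H83.E72EmbU.xs.congr_simp.{0,0,0}) | (have := @_root_.Cfsg.Agent.H83.E72EmbU.xs.congr_simp.{0,0}) | (have := @_root_.Cfsg.Agent.H83.E72EmbU.xs.congr_simp.{0}) | (have := @_root_.Cfsg.Agent.H83.E72EmbU.xs.congr_simp) | skip
  first | (have := @_root_.Cfsg.Agent.H83.E72EmbU.gs.eq_def.{0,0,0,0}) | (have := @_root_.Cfsg.Agent.H83.E72EmbU.gs.eq_def.{0,0,0}) | (have := @_root_.Cfsg.Agent.H83.E72EmbU.gs.eq_def.{0,0}) | (have := @_root_.Cfsg.Agent.H83.E72EmbU.gs.eq_def.{0}) | (have := @_root_.Cfsg.Agent.H83.E72EmbU.gs.eq_def) | skip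
  first | (have := @_root_.Cfsg.Agent.H83.E72EmbU.gs.eq_1.{0,0,0,0}) | (have := @_root_.Cfsg.Agent.H83.E72EmbU.gs.eq_1.{0,0,0}) | (have := @_root_.Cfsg.Agent.H83.E72EmbU.gs.eq_1.{0,0}) | (have := @_root_.Cfsg.Agent.H83.E72EmbU.gs.eq_1.{0}) | (have := @_root_.Cfsg.Agent.H83.E72EmbU.gs.eq_1) | skip
  first | (have := @_root_.Cfsg.Agent.H83.E72EmbU.gs.eq_2.{0,0,0,0}) | (have := @_root_.Cfsg.Agent.H83.E72EmbU.gs.eq_2.{0,0,0}) | (have := @_root_.Cfsg.Agent.H83.E72EmbU.gs.eq_2.{0,0}) | (have := @_root_.Cfsg.Agent.H83.E72EmbU.gs.eq_2.{0}) | (have := @_root_.Cfsg.Agent.H83.E72EmbU.gs.eq_2) | skip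
  first | (have := @_root_.Cfsg.Agent.H83.E72EmbU.gs.congr_simp.{0,0,0,0}) | (have := @_root_.Cfsg.Agent.H83.E72EmbU.gs.congr_simp.{0,0,0}) | (have := @_root_.Cfsg.Agent.H83.E72EmbU.gs.congr_simp.{0,0}) | (have := @_root_.Cfsg.Agent.H83.E72EmbU.gs.congr_simp.{0}) | (have := @_root_.Cfsg.Agent.H83.E72EmbU.gs.congr_simp) | skip
  trivial

end Cfsg.Agent.H83.E72EmbU
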