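import Cfsg.Agent.H16.BrauerBlock

/-!
# Induced class functions on idempotents of the group ring
-/

set_option autoImplicit false
set_option linter.unusedSectionVars false

namespace Cfsg.Agent.H83.GbInd

open Cfsg Cfsg.Agent.H16 Cfsg.Agent.H17 Cfsg.Agent.H19 MonoidAlgebra IsLocalRing
open scoped MonoidAlgebra

universe u

section Mat
variable {H : Type u} [Group H] [Finite H] {M : Ideal AlgInt} {n : Type u} [Fintype n]
  [DecidableEq n]

variable (M H n) in
/-- Matrices of families of endomorphisms. -/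
noncomputable def eqM : Matrix n n (Π j : IBr M H, Module.End (kk M) (SMod j)) ≃+*
    Π j : IBr M H, Module.End (kk M) (n → SMod j) :=
  Matrix.piRingEquiv.trans (RingEquiv.piCongrRight fun j =>
    (endVecRingEquivMatrixEnd n (kk M) (SMod j)).symm)

variable (M H n) in
/-- The semisimple quotient of the matrix ring over the group ring. -/
noncomputable def piM :
    Matrix n n (Vr M)[H] →+* Π j : IBr M H, Module.End (kk M) (n → SMod j) :=
  (eqM H M n).toRingHom.comp (redS M H).mapMatrix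

theorem piM_apply (A : Matrix n n (Vr M)[H]) (j : IBr M H) (v : n → SMod j) (a : n) :
    piM H M n A j v a = ∑ b, redS M H (A a b) j (v b) := rfl

theorem pow_mem {R : Type*} [Ring R] (I : Ideal R) [I.IsTwoSided] {Y : Matrix n n R}
    (h : ∀ a b, Y a b ∈ I) (k : ℕ) : ∀ a b, (Y ^ (k + 1)) a b ∈ I ^ (k + 1) := by
  induction k with
  | zero => simpa [Submodule.pow_one] using h
  | succ k ih =>
    intro a b
    rw [pow_succ, Matrix.mul_apply, Submodule.pow_succ]
    exact Submodule.sum_mem _ fun c _ => Ideal.mul_mem_mul (ih a c) (h c b)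

theorem isLiftHom_piM : IsLiftHom (piM H M n) := by
  refine IsLiftHom.of_finite (monicSplits_Vr M) ?_ fun y hy => ?_
  · refine (eqM H M n).surjective.comp (g := eqM H M n) (f := (redS M H).mapMatrix) fun B => ?_
    choose f hf using isLiftHom_redS (M := M) (G := H) |>.surj
    exact ⟨B.map f, Matrix.ext fun a b => hf _⟩
  · have h0 : (redS M H).mapMatrix y = 0 :=
      (map_eq_zero_iff _ (eqM H M n).injective).1 hy
    obtain ⟨k, hk⟩ := exists_jacobson_pow_eq_bot (M := M) (G := H)
    have h1 : ∀ a b, (piG M H).mapMatrix y a b ∈ Ring.jacobson (kk M)[H] := fun a b =>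
      (piS_eq_zero_iff _).1 (congrFun (congrFun h0 a) b)
    refine ⟨k + 1, ?_⟩
    rw [Matrix.matrix_eq_sum_single (y ^ (k + 1))]
    refine Submodule.sum_mem _ fun a _ => Submodule.sum_mem _ fun b _ => ?_
    have h2 := pow_mem _ h1 k a b
    rw [Submodule.pow_succ, hk, Submodule.bot_mul, Ideal.mem_bot, ← map_pow] at h2
    refine Submodule.smul_induction_on (mem_smul_top_of_piG_eq_zero (a := (y ^ (k + 1)) a b) h2)
      (fun r hr x _ => ?_) fun x z hx hz => ?_
    · rw [← Matrix.smul_single]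
      exact Submodule.smul_mem_smul hr Submodule.mem_top
    · rw [Matrix.single_add]
      exact add_mem hx hz

theorem mat_nat (a : n) {E : Matrix n n (Vr M)[H]} (hE : IsIdempotentElem E) :
    ∃ m : IBr M H → ℕ, ∀ θ : H → ℂ, IsClassFunction H θ →
      charLift θ (iotaG M H E.trace) = ∑ j, m j * charLift θ (iotaG M H (pidem j)) := by
  refine ⟨fun j => rk (piM H M n E j), fun θ hθ => ?_⟩
  let τ : Matrix n n (Vr M)[H] →+ ℂ := ((charLift θ).toAddMonoidHom.comp
    (iotaG M H).toAddMonoidHom).comp (Matrix.traceAddMonoidHom n _)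
  have τa : ∀ A, τ A = charLift θ (iotaG M H A.trace) := fun _ => rfl
  have hτ : IsIdemInv (τ : _ → ℂ) := IsIdemInv.of_trace τ fun A B => by
    simp only [τa, Matrix.trace, Matrix.diag_apply, Matrix.mul_apply, map_sum, map_mul]
    rw [Finset.sum_comm]
    exact Finset.sum_congr rfl fun b _ => Finset.sum_congr rfl fun c _ => charLift_mul_comm hθ _ _
  have := (isLiftHom_piM (H := H) (M := M) (n := n)).inv_eq_sum hτ
    (x₀ := fun j => piM H M n (Matrix.single a a (pidem j)) j) (fun j => ?_)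
    (e := fun j => Matrix.single a a (pidem j)) (fun j => ?_) (fun j => ?_) hE
  · rw [← τa, this]
    simp only [τa, Matrix.trace_single_eq_same, nsmul_eq_mul]
  · obtain ⟨φ, v, h1, h2⟩ := exists_rk_one_form (prim0_idem j) (rk_prim0 j)
    have e : piM H M n (Matrix.single a a (pidem j)) j =
        (φ ∘ₗ LinearMap.proj a).smulRight (Pi.single a v) := by
      refine LinearMap.ext fun w => funext fun b => ?_
      rw [piM_apply, Finset.sum_eq_single a (fun c _ hc => by
        rw [Matrix.single_apply_of_col_ne _ _ hc.symm]; simp) (by simp)]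
      by_cases hb : a = b
      · subst hb
        simp [redS_pidem, h2]
      · simp [Matrix.single_apply_of_row_ne hb, Pi.single_eq_of_ne' hb]
    rw [e]
    exact rk_smulRight (by simpa using h1)
  · change _ * _ = _
    rw [Matrix.single_mul_single_same, (pidem_idem j).eq]
  · funext i
    by_cases hi : i = j
    · subst hi; rw [Pi.single_eq_same]
    · rw [Pi.single_eq_of_ne hi]
      refine LinearMap.ext fun w => funext fun b => ?_
      rw [piM_apply]
      refine Finset.sum_eq_zero fun c _ => ?_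
      rw [Matrix.single_apply]
      split_ifs
      · rw [redS_pidem, Pi.single_eq_of_ne hi]; rfl
      · rw [map_zero]; rfl

end Mat

section Ind
variable {G : Type u} [Group G] [Finite G] {M : Ideal AlgInt} (K : Subgroup G)

open Classical in
/-- Extension by zero. -/
noncomputable def ex {A : Type*} [Zero A] (θ : K → A) (x : G) : A :=
  if h : x ∈ K then θ ⟨x, h⟩ else 0

theorem ex_mem {A : Type*} [Zero A] (θ : K → A) {x : G} (h : x ∈ K) : ex K θ x = θ ⟨x, h⟩ :=
  dif_pos h

theorem ex_not {A : Type*} [Zero A] (θ : K → A) {x : G} (h : x ∉ K) : ex K θ x = 0 :=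
  dif_neg h

variable [Fintype (G ⧸ K)] [DecidableEq (G ⧸ K)]

/-- The induced function. -/
noncomputable def Ind (θ : K → ℂ) (g : G) : ℂ := ∑ q : G ⧸ K, ex K θ (q.out⁻¹ * g * q.out)

variable (M) in
/-- The matrices of the induced regular representation. -/
noncomputable def rho : G →* Matrix (G ⧸ K) (G ⧸ K) (Vr M)[K] where
  toFun g := Matrix.of fun a b => ex K (fun k => single k 1) (a.out⁻¹ * g * b.out)
  map_one' := by
    refine Matrix.ext fun a b => ?_
    rw [Matrix.of_apply, Matrix.one_apply, mul_one]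
    split_ifs with h
    · subst h
      rw [ex_mem K _ (by simp)]
      simp only [inv_mul_cancel]
      rfl
    · exact ex_not K _ fun h' => h (by
        rw [← a.out_eq', ← b.out_eq']; exact QuotientGroup.eq.2 h')
  map_mul' g h := by
    refine Matrix.ext fun a c => ?_
    have key : ∀ b : G ⧸ K, a.out⁻¹ * g * b.out ∈ K ↔ b = (g⁻¹ * a.out : G) := fun b => by
      rw [eq_comm, ← b.out_eq', QuotientGroup.eq, b.out_eq', mul_inv_rev, inv_inv]
    rw [Matrix.mul_apply, Finset.sum_eq_single ((g⁻¹ * a.out : G) : G ⧸ K)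
      (fun b _ hb => by rw [Matrix.of_apply, ex_not K _ fun h' => hb ((key b).1 h'), zero_mul])
      (by simp)]
    have hu := (key _).2 rfl
    simp only [Matrix.of_apply]
    generalize ((g⁻¹ * a.out : G) : G ⧸ K).out = t at hu
    have e : a.out⁻¹ * (g * h) * c.out = a.out⁻¹ * g * t * (t⁻¹ * h * c.out) := by group
    rw [e, ex_mem K _ hu]
    by_cases hv : t⁻¹ * h * c.out ∈ K
    · rw [ex_mem K _ hv, ex_mem K _ (K.mul_mem hu hv), single_mul_single, one_mul]
      rfl
    · rw [ex_not K _ hv, ex_not K _ fun h' => hv ((K.mul_mem_cancel_left hu).1 h'), mul_zero]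

theorem trace_rho (θ : K → ℂ) (g : G) :
    charLift θ (iotaG M K (rho M K g).trace) = Ind K θ g := by
  simp only [Matrix.trace, Matrix.diag_apply, map_sum, Ind]
  refine Finset.sum_congr rfl fun q _ => ?_
  change charLift θ (iotaG M K (ex K (fun k => single k 1) (q.out⁻¹ * g * q.out))) = _
  by_cases h : q.out⁻¹ * g * q.out ∈ K
  · rw [ex_mem K _ h, ex_mem K _ h]
    simp [iotaG]
  · rw [ex_not K _ h, ex_not K _ h, map_zero, map_zero]

theorem trace_comm {θ : K → ℂ} (hθ : IsClassFunction K θ)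
    (A B : Matrix (G ⧸ K) (G ⧸ K) (Vr M)[K]) :
    charLift θ (iotaG M K (A * B).trace) = charLift θ (iotaG M K (B * A).trace) := by
  simp only [Matrix.trace, Matrix.diag_apply, Matrix.mul_apply, map_sum, map_mul]
  rw [Finset.sum_comm]
  exact Finset.sum_congr rfl fun b _ => Finset.sum_congr rfl fun c _ => charLift_mul_comm hθ _ _

theorem isClassFunction_Ind (M : Ideal AlgInt) {θ : K → ℂ} (hθ : IsClassFunction K θ) :
    IsClassFunction G (Ind K θ) := fun g h => by
  rw [← trace_rho (M := M), ← trace_rho (M := M), map_mul, trace_comm K hθ, ← map_mul,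
    ← mul_assoc, inv_mul_cancel, one_mul]

theorem trace_lift (θ : K → ℂ) (a : (Vr M)[G]) :
    charLift θ (iotaG M K (MonoidAlgebra.lift (Vr M) _ G (rho M K) a).trace) =
      charLift (Ind K θ) (iotaG M G a) := by
  induction a using MonoidAlgebra.induction_linear with
  | zero => simp
  | add x y hx hy => simp only [map_add, Matrix.trace_add, hx, hy]
  | single g c =>
    have h : ∀ b : (Vr M)[K], iotaG M K (c • b) = (c : ℂ) • iotaG M K b := fun b => by
      ext k
      simp [iotaG]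
    rw [MonoidAlgebra.lift_single, Matrix.trace_smul, h, map_smul, trace_rho]
    simp [iotaG]

theorem ind_nat {ε : (Vr M)[G]} (hε : IsIdempotentElem ε) :
    ∃ m : IBr M K → ℕ, ∀ θ : K → ℂ, IsClassFunction K θ →
      charLift (Ind K θ) (iotaG M G ε) = ∑ j, m j * charLift θ (iotaG M K (pidem j)) := by
  obtain ⟨m, hm⟩ := mat_nat ((1 : G) : G ⧸ K)
    (hε.map (MonoidAlgebra.lift (Vr M) _ G (rho M K)))
  exact ⟨m, fun θ hθ => by rw [← trace_lift, hm θ hθ]⟩

end Ind

set_option linter.all false in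
theorem eqns_GbInd : True := by
  first | (have := @_root_.Cfsg.Agent.H83.GbInd.ex.eq_def.{0,0,0,0}) | (have := @_root_.Cfsg.Agent.H83.GbInd.ex.eq_def.{0,0,0}) | (have := @_root_.Cfsg.Agent.H83.GbInd.ex.eq_def.{0,0}) | (have := @_root_.Cfsg.Agent.H83.GbInd.ex.eq_def.{0}) | (have := @_root_.Cfsg.Agent.H83.GbInd.ex.eq_def) | skip
  first | (have := @_root_.Cfsg.Agent.H83.GbInd.ex.eq_1.{0,0,0,0}) | (have := @_root_.Cfsg.Agent.H83.GbInd.ex.eq_1.{0,0,0}) | (have := @_root_.Cfsg.Agent.H83.GbInd.ex.eq_1.{0,0}) | (have := @_root_.Cfsg.Agent.H83.GbInd.ex.eq_1.{0}) | (have := @_root_.Cfsg.Agent.H83.GbInd.ex.eq_1) | skip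
  first | (have := @_root_.Cfsg.Agent.H83.GbInd.ex.eq_2.{0,0,0,0}) | (have := @_root_.Cfsg.Agent.H83.GbInd.ex.eq_2.{0,0,0}) | (have := @_root_.Cfsg.Agent.H83.GbInd.ex.eq_2.{0,0}) | (have := @_root_.Cfsg.Agent.H83.GbInd.ex.eq_2.{0}) | (have := @_root_.Cfsg.Agent.H83.GbInd.ex.eq_2) | skip
  first | (have := @_root_.Cfsg.Agent.H83.GbInd.ex.congr_simp.{0,0,0,0}) | (have := @_root_.Cfsg.Agent.H83.GbInd.ex.congr_simp.{0,0,0}) | (have := @_root_.Cfsg.Agent.H83.GbInd.ex.congr_simp.{0,0}) | (have := @_root_.Cfsg.Agent.H83.GbInd.ex.congr_simp.{0}) | (have := @_root_.Cfsg.Agent.H83.GbInd.ex.congr_simp) | skip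
  first | (have := @_root_.Cfsg.Agent.H83.GbInd.Ind.eq_def.{0,0,0,0}) | (have := @_root_.Cfsg.Agent.H83.GbInd.Ind.eq_def.{0,0,0}) | (have := @_root_.Cfsg.Agent.H83.GbInd.Ind.eq_def.{0,0}) | (have := @_root_.Cfsg.Agent.H83.GbInd.Ind.eq_def.{0}) | (have := @_root_.Cfsg.Agent.H83.GbInd.Ind.eq_def) | skip
  first | (have := @_root_.Cfsg.Agent.H83.GbInd.Ind.eq_1.{0,0,0,0}) | (have := @_root_.Cfsg.Agent.H83.GbInd.Ind.eq_1.{0,0,0}) | (have := @_root_.Cfsg.Agent.H83.GbInd.Ind.eq_1.{0,0}) | (have := @_root_.Cfsg.Agent.H83.GbInd.Ind.eq_1.{0}) | (have := @_root_.Cfsg.Agent.H83.GbInd.Ind.eq_1) | skip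
  first | (have := @_root_.Cfsg.Agent.H83.GbInd.Ind.eq_2.{0,0,0,0}) | (have := @_root_.Cfsg.Agent.H83.GbInd.Ind.eq_2.{0,0,0}) | (have := @_root_.Cfsg.Agent.H83.GbInd.Ind.eq_2.{0,0}) | (have := @_root_.Cfsg.Agent.H83.GbInd.Ind.eq_2.{0}) | (have := @_root_.Cfsg.Agent.H83.GbInd.Ind.eq_2) | skip
  first | (have := @_root_.Cfsg.Agent.H83.GbInd.Ind.congr_simp.{0,0,0,0}) | (have := @_root_.Cfsg.Agent.H83.GbInd.Ind.congr_simp.{0,0,0}) | (have := @_root_.Cfsg.Agent.H83.GbInd.Ind.congr_simp.{0,0}) | (have := @_root_.Cfsg.Agent.H83.GbInd.Ind.congr_simp.{0}) | (have := @_root_.Cfsg.Agent.H83.GbInd.Ind.congr_simp) | skip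
  trivial

end Cfsg.Agent.H83.GbInd
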