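import Cfsg.Agent.H98.GbG
import Cfsg.Agent.H83.GbInd

/-!
# Project GB, piece CL1a: twisted class functions and Brauer characters induced from the kernel
-/

set_option autoImplicit false
set_option linter.unusedSectionVars false

namespace Cfsg.Agent.H83.GbCl1a

open Cfsg Cfsg.Agent.H16 Cfsg.Agent.H17 Cfsg.Agent.H19 Cfsg.Agent.H98.GB Cfsg.Agent.H83.GbInd
  MonoidAlgebra
open scoped MonoidAlgebra

universe u

theorem uniq {ι : Type*} [Fintype ι] {m r : ι → ℕ} (h : ∑ i, m i * r i = 1)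
    (h' : ∀ i, m i ≠ 0 → r i ≠ 0) : ∃ i₀, m i₀ = 1 ∧ ∀ i, i ≠ i₀ → m i = 0 := by
  classical
  obtain ⟨i₀, -, h0⟩ := Finset.exists_ne_zero_of_sum_ne_zero (h ▸ one_ne_zero)
  rw [← Finset.add_sum_erase _ _ (Finset.mem_univ i₀)] at h
  have h1 : m i₀ * r i₀ = 1 := by omega
  have h2 : ∑ i ∈ Finset.univ.erase i₀, m i * r i = 0 := by omega
  refine ⟨i₀, Nat.eq_one_of_mul_eq_one_right h1, fun i hi => ?_⟩
  by_contra hm
  exact mul_ne_zero hm (h' i hm) (Finset.sum_eq_zero_iff.1 h2 i (by simp [hi]))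

theorem sum_single {ι V : Type*} [Fintype ι] [AddCommGroup V] [Module ℂ V] {m : ι → ℕ} {i₀ : ι}
    (h1 : m i₀ = 1) (h0 : ∀ i, i ≠ i₀ → m i = 0) (v : ι → V) : ∑ i, (m i : ℂ) • v i = v i₀ := by
  rw [Finset.sum_eq_single i₀ (fun i _ hi => by simp [h0 i hi]) (by simp), h1]
  simp

section
variable {H : Type u} [Group H] [Finite H] {M : Ideal AlgInt} {p : ℕ}

/-- The coefficient of a Brauer character. -/
noncomputable def co (j : IBr M H) (θ : H → ℂ) : ℂ := charLift θ (iotaG M H (pidem j))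

theorem co_sum {ι : Type*} (s : Finset ι) (c : ι → ℂ) (θ : ι → H → ℂ) (j : IBr M H) :
    co j (∑ i ∈ s, c i • θ i) = ∑ i ∈ s, c i * co j (θ i) := by
  simp only [co, charLift_sum_fun, charLift_smul_fun]

theorem co_ibr (hM : IsPModular p M) (i j : IBr M H) :
    co j (ibr p i) = if j = i then 1 else 0 := charLift_ibr_pidem hM i j

theorem eq_sum_co (hM : IsPModular p M) {θ : H → ℂ} (hθ : IsClassFunction H θ)
    (h0 : ∀ g, p ∣ orderOf g → θ g = 0) : θ = ∑ j : IBr M H, co j θ • ibr p j :=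
  (pRegularPart_eq_self h0).symm.trans (pRegularPart_eq_sum_ibr hM hθ)

theorem ibr_one_ne (hM : IsPModular p M) (i : IBr M H) : ibr p i 1 ≠ 0 := by
  rw [ibr_one hM]; exact Nat.cast_ne_zero.2 (bdim_pos i).ne'

theorem comp_nat (hM : IsPModular p M) (α : H ≃* H) (j : IBr M H) :
    ∃ n : IBr M H → ℕ, (fun h => ibr p j (α h)) = ∑ i, (n i : ℂ) • ibr p i := by
  refine ⟨fun i => rk (((srep j).comp (mapDomainAlgHom (kk M) (kk M) (α : H →* H)))
    (piG M H (pidem i))), funext fun h => ?_⟩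
  change _ = brChar p _ h
  by_cases hh : p ∣ orderOf h
  · rw [brChar_of_dvd _ hh, ibr_of_dvd _ (by rwa [α.orderOf_eq])]
  · rw [brChar_comp hM _ _ hh, brChar_srep]; rfl

theorem comp_ibr (hM : IsPModular p M) (α : H ≃* H) (j : IBr M H) :
    ∃ j' : IBr M H, (fun h => ibr p j (α h)) = ibr p j' := by
  obtain ⟨n, hn⟩ := comp_nat hM α j
  choose n' hn' using comp_nat hM α.symm
  have e : ibr p j = ∑ i, (n i : ℂ) • ∑ k, (n' i k : ℂ) • ibr p k := by
    funext h
    have := congrFun hn (α.symm h)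
    simp only [MulEquiv.apply_symm_apply, Finset.sum_apply, Pi.smul_apply] at this
    rw [this, Finset.sum_apply]
    exact Finset.sum_congr rfl fun i _ => by rw [Pi.smul_apply, ← hn' i]
  have c : ∀ k, ((∑ i, n i * n' i k : ℕ) : ℂ) = if k = j then 1 else 0 := fun k => by
    rw [← co_ibr hM j k, e, co_sum]
    push_cast
    exact Finset.sum_congr rfl fun i _ => by
      rw [co, charLift_sum_smul_ibr_pidem hM fun k => (n' i k : ℂ)]
  have cj : ∑ i, n i * n' i j = 1 := by exact_mod_cast (c j).trans (if_pos rfl)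
  obtain ⟨i₀, h1, h0⟩ := uniq (m := n) (r := fun i => n' i j) cj fun i hi h => by
      refine ibr_one_ne hM i ?_
      have h2 := congrFun (hn' i) 1
      simp only [map_one, Finset.sum_apply, Pi.smul_apply] at h2
      rw [h2]
      refine Finset.sum_eq_zero fun k _ => ?_
      by_cases hk : k = j
      · rw [hk, h]; simp
      · have h3 : ∑ i, n i * n' i k = 0 := by exact_mod_cast (c k).trans (if_neg hk)
        rw [(mul_eq_zero.1 (Finset.sum_eq_zero_iff.1 h3 i (Finset.mem_univ i))).resolve_left hi]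
        simp
  exact ⟨i₀, hn.trans (sum_single h1 h0 _)⟩

theorem co_comp (hM : IsPModular p M) (α : H ≃* H) {σ : IBr M H → IBr M H}
    (hσ : ∀ j, (fun h => ibr p j (α h)) = ibr p (σ j)) {θ : H → ℂ} (hθ : IsClassFunction H θ)
    (h0 : ∀ g, p ∣ orderOf g → θ g = 0) (j : IBr M H) :
    co (σ j) (fun h => θ (α h)) = co j θ := by
  have inj : ∀ i, σ j = σ i ↔ j = i := fun i => ⟨fun h => ibr_injective hM (funext fun x => by
    have := congrFun ((hσ j).trans ((congrArg (ibr p) h).trans (hσ i).symm)) (α.symm x)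
    simpa using this), fun h => by rw [h]⟩
  have e : (fun h => θ (α h)) = ∑ i : IBr M H, co i θ • ibr p (σ i) := by
    funext h
    rw [congrFun (eq_sum_co hM hθ h0) (α h), Finset.sum_apply, Finset.sum_apply]
    exact Finset.sum_congr rfl fun i _ => by rw [Pi.smul_apply, Pi.smul_apply, ← hσ i]
  rw [e, co_sum]
  simp [co_ibr hM, inj]

theorem coeff_pidem_ne (hM : IsPModular p M) (i : IBr M H) :
    (iotaG M H (pidem i)).coeff 1 ≠ 0 := fun h => by
  have h1 := pim_one hM i
  rw [pim, idemChar_one_apply, h, mul_zero] at h1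
  have h2 : ∑ j, cartan i j * bdim j = 0 := by exact_mod_cast h1.symm
  exact mul_ne_zero (cartan_self_pos i).ne' (bdim_pos i).ne'
    (Finset.sum_eq_zero_iff.1 h2 i (Finset.mem_univ i))

end

section
variable {G : Type u} [Group G] [Fintype G] {M : Ideal AlgInt} {p : ℕ}

theorem charLift_eq_zero {S : Set (IrrCharacter G)} (hS : LamClosed M S) {f : G → ℂ}
    (hf : InE S f) {ε : (Vr M)[G]} (hε : IsIdempotentElem ε)
    (h : ∀ i ∈ ibrOf M S, rk (srep i (piG M G ε)) = 0) : charLift f (iotaG M G ε) = 0 := by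
  classical
  have := irr_finite G
  have := Fintype.ofFinite (IrrCharacter G)
  have h1 : (fR M S).1 * ε = 0 := isLiftHom_redS.eq_zero_of_idem (idem_fR_mul hS hε) (by
    funext i
    rw [redS_apply, map_mul, map_mul, piG_fR]
    by_cases hi : i ∈ ibrOf M S
    · rw [rk_eq_zero_iff.1 (h i hi), mul_zero]; rfl
    · rw [srep_eB_of_notMem hS hi, zero_mul]; rfl)
  have h2 : iotaG M G ε = (fC Sᶜ).1 * iotaG M G ε := by
    have := congrArg (iotaG M G) h1
    rw [map_mul, iotaG_fR hS, map_zero] at this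
    rw [fC_compl, Subalgebra.coe_sub, Subalgebra.coe_one, sub_mul, one_mul, this, sub_zero]
  rw [h2]
  generalize iotaG M G ε = a
  induction a using MonoidAlgebra.induction_linear with
  | zero => simp
  | add x y hx hy => rw [mul_add, map_add, hx, hy, add_zero]
  | single g c =>
    have : (single g c : ℂ[G]) = c • single g 1 := by simp
    rw [this, mul_smul_comm, map_smul, charLift_mul_single]
    simp only [coeff_fC, blockCoeff_eq_sum, mul_assoc, Finset.sum_mul, ← Finset.mul_sum]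
    rw [Finset.sum_comm, Finset.sum_eq_zero, mul_zero, smul_zero]
    intro χ hχ
    rw [← Finset.mul_sum, ← Equiv.sum_comp (Equiv.inv G)]
    simp only [Equiv.inv_apply, inv_inv]
    rw [hf χ (by simpa using hχ) g, mul_zero]

variable (K : Subgroup G) [K.Normal]

/-- Conjugation on the normal subgroup. -/
def al (x : G) : K ≃* K := MulAut.conjNormal x⁻¹

theorem coe_al (x : G) (k : K) : (al K x k : G) = x⁻¹ * k * x := by simp [al]

/-- The multiplicities in restrictions. -/
noncomputable def rr (i : IBr M G) (j : IBr M K) : ℕ := rk (srep i (piG M G (incl K (pidem j))))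

theorem co_res (θ : G → ℂ) (j : IBr M K) :
    co j (fun k : K => θ k) = charLift θ (iotaG M G (incl K (pidem j))) := by
  rw [co, ← charLift_incl]
  exact congrArg _ (iotaG_mapDomain K.subtype _).symm

theorem co_res_ibr (hM : IsPModular p M) (i : IBr M G) (j : IBr M K) :
    co j (fun k : K => ibr p i k) = rr K i j := by
  rw [co_res, charLift_ibr_idem hM _ ((pidem_idem j).map _), rr]

theorem res_class {θ : G → ℂ} (h : IsClassFunction G θ) : IsClassFunction K fun k : K => θ k :=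
  fun a b => h a b

theorem exists_rr (hM : IsPModular p M) (i : IBr M G) : ∃ j : IBr M K, rr K i j ≠ 0 := by
  by_contra h
  push Not at h
  have := eq_zero_of_charLift_pidem hM (res_class K (isClassFunction_ibr (p := p) i))
    (fun k hk => ibr_of_dvd i (by rwa [Subgroup.orderOf_coe]))
    fun j => (co_res_ibr K hM i j).trans (by rw [h j, Nat.cast_zero])
  exact ibr_one_ne hM i (congrFun this 1)

variable [Fintype (G ⧸ K)] [DecidableEq (G ⧸ K)]

theorem ind_of_not (θ : K → ℂ) {g : G} (hg : g ∉ K) : Ind K θ g = 0 :=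
  Finset.sum_eq_zero fun q _ => ex_not K _ fun h => hg (by
    simpa [mul_assoc] using ‹K.Normal›.conj_mem _ h q.out)

theorem ind_coe (θ : K → ℂ) (k : K) : Ind K θ k = ∑ q : G ⧸ K, θ (al K q.out k) :=
  Finset.sum_congr rfl fun q _ => by
    rw [← coe_al, ex_mem K _ (al K q.out k).2]

theorem ind_ibr (hM : IsPModular p M) (j : IBr M K) :
    Ind K (ibr p j) = ∑ i : IBr M G, co i (Ind K (ibr p j)) • ibr p i := by
  refine eq_sum_co hM (isClassFunction_Ind K M (isClassFunction_ibr j)) fun g hg => ?_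
  by_cases h : g ∈ K
  · refine (ind_coe K _ ⟨g, h⟩).trans (Finset.sum_eq_zero fun q _ => ibr_of_dvd _ ?_)
    rwa [MulEquiv.orderOf_eq, ← Subgroup.orderOf_coe]
  · exact ind_of_not K _ h

theorem exists_mult (hM : IsPModular p M) : ∃ m : IBr M K → IBr M G → ℕ,
    (∀ j, Ind K (ibr p j) = ∑ i, (m j i : ℂ) • ibr p i) ∧ ∀ i, ∃ j, m j i ≠ 0 := by
  classical
  choose m hm using fun i : IBr M G => ind_nat K (pidem_idem i)
  refine ⟨fun j i => m i j, fun j => (ind_ibr K hM j).trans (Finset.sum_congr rfl fun i _ => ?_),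
    fun i => ?_⟩
  · rw [co, hm i _ (isClassFunction_ibr j)]
    simp [charLift_ibr_pidem hM]
  · by_contra h
    push Not at h
    have h1 := hm i (fun k => if k = 1 then 1 else 0) fun a b => by simp
    have h2 : ∀ g : G, g ≠ 1 → Ind K (fun k => if k = 1 then 1 else 0) g = 0 := fun g hg => by
      by_cases hk : g ∈ K
      · refine (ind_coe K _ ⟨g, hk⟩).trans (Finset.sum_eq_zero fun q _ => if_neg ?_)
        rw [map_eq_one_iff _ (al K q.out).injective]
        exact fun e => hg (congrArg Subtype.val e)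
      · exact ind_of_not K _ hk
    have h3 : Ind K (fun k => if k = 1 then 1 else 0) 1 = Fintype.card (G ⧸ K) :=
      (ind_coe K _ 1).trans (by simp)
    rw [charLift_apply, Finset.sum_eq_single 1 (fun g _ hg => by rw [h2 g hg, mul_zero])
      (by simp), h3] at h1
    simp only [h, Nat.cast_zero, zero_mul, Finset.sum_const_zero] at h1
    exact mul_ne_zero (coeff_pidem_ne hM i) (Nat.cast_ne_zero.2 Fintype.card_ne_zero) h1

theorem star (hM : IsPModular p M) {m : IBr M K → IBr M G → ℕ}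
    (hm : ∀ j, Ind K (ibr p j) = ∑ i, (m j i : ℂ) • ibr p i) {σ : G → IBr M K → IBr M K}
    (hσ : ∀ x j, (fun h => ibr p j (al K x h)) = ibr p (σ x j)) (j j' : IBr M K) :
    ∑ i, m j i * rr K i j' = (Finset.univ.filter fun q : G ⧸ K => j' = σ q.out j).card := by
  have e : ∑ i, (m j i : ℂ) • (fun k : K => ibr p i k) =
      ∑ q : G ⧸ K, (1 : ℂ) • ibr p (σ q.out j) := by
    funext k
    have := congrFun (hm j) k
    rw [ind_coe] at this
    simp only [Finset.sum_apply, Pi.smul_apply, one_smul, ← hσ] at this ⊢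
    exact this.symm
  have := congrArg (co j') e
  rw [co_sum, co_sum] at this
  simp only [co_res_ibr K hM, co_ibr hM, one_mul, Finset.sum_boole] at this
  exact_mod_cast this

end

theorem cl1a : CL1aStmt.{u} := by
  intro G _ _ p _ M hM l S hS
  classical
  set K := l.ker with hK
  haveI := Fintype.ofFinite (G ⧸ K)
  obtain ⟨m, hm, hm'⟩ := exists_mult K hM
  choose σ hσ using fun x => comp_ibr hM (al K x)
  choose J hJ using exists_rr K hM
  set T := {i | i ∈ ibrOf M S ∧ ∀ g, g ∉ K → ibr p i g = 0}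
  have cls : ∀ h : G → ℂ, Tw l h → IsClassFunction K fun k : K => h k := fun h hh a b => by
    have := hh b a
    rw [show l b = 1 from b.2, Units.val_one, one_mul] at this
    exact this
  have hW : ∀ h ∈ Submodule.span ℂ (pRegularPart p '' VS l S), Tw l h ∧
      (∀ g, p ∣ orderOf g → h g = 0) ∧
      ∀ j, (∀ i ∈ ibrOf M S, rr K i j = 0) → co j (fun k : K => h k) = 0 := by
    intro h hh
    induction hh using Submodule.span_induction with
    | mem h hh =>
      obtain ⟨f, ⟨h1, h2⟩, rfl⟩ := hh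
      refine ⟨fun x g => ?_, fun g hg => pRegularPart_of_dvd _ hg, fun j hj => ?_⟩
      · by_cases hg : p ∣ orderOf g
        · rw [pRegularPart_of_dvd _ hg, pRegularPart_of_dvd _ (by rwa [orderOf_conj_eq]), mul_zero]
        · rw [pRegularPart_of_not_dvd _ hg, pRegularPart_of_not_dvd _ (by rwa [orderOf_conj_eq]),
            h1]
      · have e : (fun k : K => pRegularPart p f k) = pRegularPart p fun k : K => f k := by
          funext k
          by_cases hg : p ∣ orderOf k
          · rw [pRegularPart_of_dvd _ hg, pRegularPart_of_dvd _ (by rwa [Subgroup.orderOf_coe])]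
          · rw [pRegularPart_of_not_dvd _ hg,
              pRegularPart_of_not_dvd _ (by rwa [Subgroup.orderOf_coe])]
        rw [e, co, charLift_pRegularPart_idem hM (cls f h1) (pidem_idem j)]
        exact (co_res K f j).trans (charLift_eq_zero hS h2 ((pidem_idem j).map _) hj)
    | zero => exact ⟨fun _ _ => by simp, fun _ _ => rfl, fun j _ => charLift_zero_fun _⟩
    | add a b _ _ ha hb =>
      refine ⟨fun x g => by rw [Pi.add_apply, ha.1, hb.1, Pi.add_apply, mul_add],
        fun g hg => by rw [Pi.add_apply, ha.2.1 g hg, hb.2.1 g hg, add_zero], fun j hj => ?_⟩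
      exact (charLift_add_fun (fun k : K => a k) (fun k : K => b k) _).trans
        (by rw [← co, ← co, ha.2.2 j hj, hb.2.2 j hj, add_zero])
    | smul c a _ ha =>
      refine ⟨fun x g => by rw [Pi.smul_apply, ha.1, Pi.smul_apply, smul_eq_mul, smul_eq_mul,
        mul_left_comm], fun g hg => by rw [Pi.smul_apply, ha.2.1 g hg, smul_zero], fun j hj => ?_⟩
      exact (charLift_smul_fun c (fun k : K => a k) _).trans (by rw [← co, ha.2.2 j hj, mul_zero])
  let Ψ : Submodule.span ℂ (pRegularPart p '' VS l S) →ₗ[ℂ] (T → ℂ) :=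
    { toFun := fun h i => co (J i.1) fun k : K => h.1 k
      map_add' := fun a b => funext fun i =>
        charLift_add_fun (fun k : K => a.1 k) (fun k : K => b.1 k) _
      map_smul' := fun c a => funext fun i => charLift_smul_fun c (fun k : K => a.1 k) _ }
  have inj : Function.Injective Ψ := (injective_iff_map_eq_zero Ψ).2 fun h h0 => by
    obtain ⟨h1, h2, h3⟩ := hW h.1 h.2
    have h2' : ∀ k : K, p ∣ orderOf k → h.1 k = 0 := fun k hk =>
      h2 k (by rwa [Subgroup.orderOf_coe])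
    have E : ∀ x j, (l x⁻¹ : ℂ) * co (σ x j) (fun k : K => h.1 k) = co j fun k : K => h.1 k :=
      fun x j => by
        rw [← co_comp hM _ (hσ x) (cls _ h1) h2' j, co, co, ← charLift_smul_fun]
        congr 2
        funext k
        rw [coe_al, Pi.smul_apply, smul_eq_mul, ← h1, inv_inv]
    have orb : ∀ j i j', m j i ≠ 0 → rr K i j' ≠ 0 → ∃ x, j' = σ x j := fun j i j' a b => by
      have c := star K hM hm hσ j j'
      obtain ⟨q, hq⟩ := Finset.card_pos.1 (c ▸ Finset.sum_pos' (fun _ _ => Nat.zero_le _)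
        ⟨i, Finset.mem_univ i, Nat.pos_of_ne_zero (mul_ne_zero a b)⟩)
      exact ⟨q.out, (Finset.mem_filter.1 hq).2⟩
    have hz : (fun k : K => h.1 k) = 0 := by
      refine eq_zero_of_charLift_pidem hM (cls _ h1) h2' fun j₁ => ?_
      by_contra a1
      obtain ⟨i, hi, b⟩ : ∃ i ∈ ibrOf M S, rr K i j₁ ≠ 0 := by
        by_contra c
        push Not at c
        exact a1 (h3 j₁ c)
      obtain ⟨j, c⟩ := hm' i
      obtain ⟨x, rfl⟩ := orb j i j₁ c b
      have a : co j (fun k : K => h.1 k) ≠ 0 := E x j ▸ mul_ne_zero (Units.ne_zero _) a1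
      have d : ∑ i, m j i * rr K i j = 1 := by
        rw [star K hM hm hσ, Finset.card_eq_one]
        refine ⟨((1 : G) : G ⧸ K), Finset.ext fun q => ?_⟩
        rw [Finset.mem_filter, Finset.mem_singleton, ← q.out_eq', QuotientGroup.eq, mul_one,
          q.out_eq']
        refine ⟨fun e => ?_, fun e => ⟨Finset.mem_univ _, ibr_injective hM ?_⟩⟩
        · have := E q.out j
          rw [← e.2] at this
          exact Units.ext ((mul_eq_right₀ a).1 this)
        · refine Eq.trans (funext fun k => ?_) (hσ q.out j)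
          refine (isClassFunction_ibr j k ⟨_, e⟩).symm.trans (congrArg _ (Subtype.ext ?_))
          simp [coe_al]
      obtain ⟨i₀, e1, e0⟩ := uniq d fun i' hi' => by
        obtain ⟨y, hy⟩ := orb j i' (J i') hi' (hJ i')
        have := co_comp hM _ (hσ y) (res_class K (isClassFunction_ibr (p := p) i'))
          (fun k hk => ibr_of_dvd i' (by rwa [Subgroup.orderOf_coe])) j
        have e : (fun k : K => ibr p i' (al K y k)) = fun k : K => ibr p i' k := funext fun k => by
          simpa [coe_al] using isClassFunction_ibr (p := p) i' k y⁻¹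
        rw [e, ← hy, co_res_ibr K hM, co_res_ibr K hM, Nat.cast_inj] at this
        exact this ▸ hJ i'
      obtain rfl : i = i₀ := by_contra fun e => c (e0 i e)
      have hT : i ∈ T := ⟨hi, fun g hg => by
        rw [← sum_single e1 e0 (fun i => ibr p i), ← hm]; exact ind_of_not K _ hg⟩
      obtain ⟨y, hy⟩ := orb j i (J i) c (hJ i)
      have f : co (J i) (fun k : K => h.1 k) = 0 := congrFun h0 ⟨i, hT⟩
      exact a (by rw [← E y j, ← hy, f, mul_zero])
    refine Subtype.ext (funext fun g => ?_)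
    by_cases hg : g ∈ K
    · exact congrFun hz ⟨g, hg⟩
    · have := h1 g g
      rw [mul_inv_cancel_right] at this
      by_contra e
      exact hg (Units.ext ((mul_eq_right₀ e).1 this.symm))
  have := LinearMap.finrank_le_finrank_of_injective inj
  rwa [Module.finrank_fintype_fun_eq_card, ← Nat.card_eq_fintype_card, Nat.card_coe_set_eq] at this

set_option linter.all false in
theorem eqns_GbCl1a : True := by
  first | (have := @_root_.Cfsg.Agent.H83.GbCl1a.co.eq_def.{0,0,0,0}) | (have := @_root_.Cfsg.Agent.H83.GbCl1a.co.eq_def.{0,0,0}) | (have := @_root_.Cfsg.Agent.H83.GbCl1a.co.eq_def.{0,0}) | (have := @_root_.Cfsg.Agent.H83.GbCl1a.co.eq_def.{0}) | (have := @_root_.Cfsg.Agent.H83.GbCl1a.co.eq_def) | skip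
  first | (have := @_root_.Cfsg.Agent.H83.GbCl1a.co.eq_1.{0,0,0,0}) | (have := @_root_.Cfsg.Agent.H83.GbCl1a.co.eq_1.{0,0,0}) | (have := @_root_.Cfsg.Agent.H83.GbCl1a.co.eq_1.{0,0}) | (have := @_root_.Cfsg.Agent.H83.GbCl1a.co.eq_1.{0}) | (have := @_root_.Cfsg.Agent.H83.GbCl1a.co.eq_1) | skip
  first | (have := @_root_.Cfsg.Agent.H83.GbCl1a.co.eq_2.{0,0,0,0}) | (have := @_root_.Cfsg.Agent.H83.GbCl1a.co.eq_2.{0,0,0}) | (have := @_root_.Cfsg.Agent.H83.GbCl1a.co.eq_2.{0,0}) | (have := @_root_.Cfsg.Agent.H83.GbCl1a.co.eq_2.{0}) | (have := @_root_.Cfsg.Agent.H83.GbCl1a.co.eq_2) | skip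
  first | (have := @_root_.Cfsg.Agent.H83.GbCl1a.co.congr_simp.{0,0,0,0}) | (have := @_root_.Cfsg.Agent.H83.GbCl1a.co.congr_simp.{0,0,0}) | (have := @_root_.Cfsg.Agent.H83.GbCl1a.co.congr_simp.{0,0}) | (have := @_root_.Cfsg.Agent.H83.GbCl1a.co.congr_simp.{0}) | (have := @_root_.Cfsg.Agent.H83.GbCl1a.co.congr_simp) | skip
  first | (have := @_root_.Cfsg.Agent.H83.GbCl1a.al.eq_def.{0,0,0,0}) | (have := @_root_.Cfsg.Agent.H83.GbCl1a.al.eq_def.{0,0,0}) | (have := @_root_.Cfsg.Agent.H83.GbCl1a.al.eq_def.{0,0}) | (have := @_root_.Cfsg.Agent.H83.GbCl1a.al.eq_def.{0}) | (have := @_root_.Cfsg.Agent.H83.GbCl1a.al.eq_def) | skip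
  first | (have := @_root_.Cfsg.Agent.H83.GbCl1a.al.eq_1.{0,0,0,0}) | (have := @_root_.Cfsg.Agent.H83.GbCl1a.al.eq_1.{0,0,0}) | (have := @_root_.Cfsg.Agent.H83.GbCl1a.al.eq_1.{0,0}) | (have := @_root_.Cfsg.Agent.H83.GbCl1a.al.eq_1.{0}) | (have := @_root_.Cfsg.Agent.H83.GbCl1a.al.eq_1) | skip
  first | (have := @_root_.Cfsg.Agent.H83.GbCl1a.al.eq_2.{0,0,0,0}) | (have := @_root_.Cfsg.Agent.H83.GbCl1a.al.eq_2.{0,0,0}) | (have := @_root_.Cfsg.Agent.H83.GbCl1a.al.eq_2.{0,0}) | (have := @_root_.Cfsg.Agent.H83.GbCl1a.al.eq_2.{0}) | (have := @_root_.Cfsg.Agent.H83.GbCl1a.al.eq_2) | skip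
  first | (have := @_root_.Cfsg.Agent.H83.GbCl1a.al.congr_simp.{0,0,0,0}) | (have := @_root_.Cfsg.Agent.H83.GbCl1a.al.congr_simp.{0,0,0}) | (have := @_root_.Cfsg.Agent.H83.GbCl1a.al.congr_simp.{0,0}) | (have := @_root_.Cfsg.Agent.H83.GbCl1a.al.congr_simp.{0}) | (have := @_root_.Cfsg.Agent.H83.GbCl1a.al.congr_simp) | skip
  first | (have := @_root_.Cfsg.Agent.H83.GbCl1a.rr.eq_def.{0,0,0,0}) | (have := @_root_.Cfsg.Agent.H83.GbCl1a.rr.eq_def.{0,0,0}) | (have := @_root_.Cfsg.Agent.H83.GbCl1a.rr.eq_def.{0,0}) | (have := @_root_.Cfsg.Agent.H83.GbCl1a.rr.eq_def.{0}) | (have := @_root_.Cfsg.Agent.H83.GbCl1a.rr.eq_def) | skip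
  first | (have := @_root_.Cfsg.Agent.H83.GbCl1a.rr.eq_1.{0,0,0,0}) | (have := @_root_.Cfsg.Agent.H83.GbCl1a.rr.eq_1.{0,0,0}) | (have := @_root_.Cfsg.Agent.H83.GbCl1a.rr.eq_1.{0,0}) | (have := @_root_.Cfsg.Agent.H83.GbCl1a.rr.eq_1.{0}) | (have := @_root_.Cfsg.Agent.H83.GbCl1a.rr.eq_1) | skip
  first | (have := @_root_.Cfsg.Agent.H83.GbCl1a.rr.eq_2.{0,0,0,0}) | (have := @_root_.Cfsg.Agent.H83.GbCl1a.rr.eq_2.{0,0,0}) | (have := @_root_.Cfsg.Agent.H83.GbCl1a.rr.eq_2.{0,0}) | (have := @_root_.Cfsg.Agent.H83.GbCl1a.rr.eq_2.{0}) | (have := @_root_.Cfsg.Agent.H83.GbCl1a.rr.eq_2) | skip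
  first | (have := @_root_.Cfsg.Agent.H83.GbCl1a.rr.congr_simp.{0,0,0,0}) | (have := @_root_.Cfsg.Agent.H83.GbCl1a.rr.congr_simp.{0,0,0}) | (have := @_root_.Cfsg.Agent.H83.GbCl1a.rr.congr_simp.{0,0}) | (have := @_root_.Cfsg.Agent.H83.GbCl1a.rr.congr_simp.{0}) | (have := @_root_.Cfsg.Agent.H83.GbCl1a.rr.congr_simp) | skip
  trivial

end Cfsg.Agent.H83.GbCl1a
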