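import Cfsg.Agent.H98.GbL
import Cfsg.Agent.H19.GaloisNum
import Mathlib.Analysis.Fourier.FiniteAbelian.PontryaginDuality

/-! Project GB, piece SETUP: a context exists. -/

set_option autoImplicit false

namespace Cfsg.Agent.H83.GbSetup

open Cfsg Cfsg.Agent.H98.GB Cfsg.Agent.H19 Cfsg.Agent.H22.Cusp

universe u

theorem setup (hA : ALGStmt.{u}) : SETUPStmt.{u} := by
  intro F _ _ _ p M n0 hp hpF hM
  obtain ⟨p0, hp0⟩ := CharP.exists F
  have hpp : p0.Prime := CharP.char_is_prime F p0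
  have : Fact p0.Prime := ⟨hpp⟩
  obtain ⟨M0, hM0⟩ := H19.exists_isPModular hpp
  have := charP_kk hM0
  let _ : Algebra (ZMod p0) F := ZMod.algebra _ p0
  let _ : Algebra (ZMod p0) (kk M0) := ZMod.algebra _ p0
  let alg : Algebra F (kk M0) := (IsAlgClosed.lift : F →ₐ[ZMod p0] kk M0).toRingHom.toAlgebra
  have hq : 1 < Fintype.card F := Fintype.one_lt_card
  have hpN : ¬ p0 ∣ Fintype.card F - 1 := by
    intro h
    obtain ⟨r, -, hr⟩ := FiniteField.card F p0
    have h1 : p0 ∣ Fintype.card F := hr ▸ dvd_pow_self p0 r.ne_zero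
    have h2 : p0 ∣ Fintype.card F - (Fintype.card F - 1) := Nat.dvd_sub h1 h
    rw [show Fintype.card F - (Fintype.card F - 1) = 1 by omega] at h2
    exact hpp.one_lt.ne' (Nat.dvd_one.1 h2)
  have hx : ∀ x : Fˣ, algebraMap F (kk M0) x ^ (Fintype.card F - 1) = 1 := fun x => by
    rw [← map_pow, FiniteField.pow_card_sub_one_eq_one _ x.ne_zero, map_one]
  have ht1 : teich p0 M0 1 = 1 := by
    have := teich_red hM0 (z := 1) hpN (one_pow _)
    rwa [red_one] at this
  let θ : Fˣ →* ℂ :=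
    { toFun := fun x => teich p0 M0 (algebraMap F (kk M0) x)
      map_one' := by simp [ht1]
      map_mul' := fun x y => by
        rw [Units.val_mul, map_mul, teich_mul hM0 hpN (hx x) (hx y)] }
  obtain ⟨H⟩ := hA F 1
  obtain ⟨ψ, hψ⟩ := (AddChar.exists_apply_ne_zero (α := F) (a := 1)).2 one_ne_zero
  refine ⟨⟨p0, M0, hM0, hp0, alg, θ.toHomUnits, fun x => rfl, p, hp, hpF, M, hM, n0, H, ψ, ?_⟩,
    rfl, rfl, rfl⟩
  rintro rfl
  exact hψ rfl

set_option linter.all false in
theorem eqns_GbSetup : True := by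
  trivial

end Cfsg.Agent.H83.GbSetup
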