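import Cfsg.Agent.H50.L81Defs
import Cfsg.Agent.H28.FvReg
import Cfsg.Agent.H80.FvEnt
import Cfsg.Agent.S1054

/-! Project L81, piece NRM: centraliser of the socle and pointwise stabiliser of its fixed space. -/

set_option autoImplicit false

namespace Cfsg.Agent.H83.L81Nrm

open Cfsg.Lie Cfsg.Agent.H50.L81 Cfsg.Agent.H50.E83 Cfsg.Agent.H50.SL2S H82 H37 H40 H34 H29

theorem act_mul (g h : G0) (v : V) : act (ι (g * h)) v = act (ι g) (act (ι h) v) := by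
  rw [map_mul, map_mul, Module.End.mul_apply]

/-- The pointwise stabiliser. -/
def stab (A : Set V) : Subgroup G0 where
  carrier := {g | ∀ v ∈ A, act (ι g) v = v}
  mul_mem' ha hb v hv := by rw [act_mul, hb v hv, ha v hv]
  one_mem' v _ := by rw [map_one, map_one, Module.End.one_apply]
  inv_mem' {g} hg v hv := by
    conv_lhs => rw [← hg v hv]
    rw [← act_mul, inv_mul_cancel, map_one, map_one, Module.End.one_apply]

theorem mem_stab {A : Set V} {g : G0} : g ∈ stab A ↔ ∀ v ∈ A, act (ι g) v = v := Iff.rfl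

theorem conj_mem {A : Set V} {h g : G0} (hA : ∀ v ∈ A, act (ι h⁻¹) v ∈ A) (hg : g ∈ stab A) :
    h * g * h⁻¹ ∈ stab A := fun v hv => by
  rw [act_mul, act_mul, hg _ (hA v hv), ← act_mul, mul_inv_cancel, map_one, map_one,
    Module.End.one_apply]

theorem norm_of {G : Type} [Group G] {N : Subgroup G} {h : G} (h1 : ∀ k ∈ N, h * k * h⁻¹ ∈ N)
    (h2 : ∀ k ∈ N, h⁻¹ * k * h⁻¹⁻¹ ∈ N) : h ∈ Subgroup.normalizer (N : Set G) :=
  Subgroup.mem_normalizer_iff.2 fun k => ⟨h1 k, fun hk => by simpa [mul_assoc] using h2 _ hk⟩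

theorem uu_ne : uu (1 : F) ≠ 1 ∧ uu (1 : F) ≠ -1 := by
  constructor <;> intro h
  · have := congrArg (fun s : SL => s.1 0 1) h
    simp [uu] at this
  · have := congrArg (fun s : SL => s.1 0 1) h
    simp [uu] at this

/-- **NRM** -/
theorem nrm : NrmStmt := by
  intro H ψ hH hE
  have hS : IsSimpleGroup G0 := (S1054.result (F := ZMod 3) chevE8 (by simp)).1
  have h0 : ψ (uu 1) ≠ 1 := fun e => ((hE.1 _).1 e).elim uu_ne.1 uu_ne.2
  have key : ∀ N : Subgroup G0, ψ (uu 1) ∈ N → N ≠ ⊤ → H ≤ Subgroup.normalizer (N : Set G0) →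
      Subgroup.normalizer (N : Set G0) ≤ H := fun N h1 h2 h3 => by
    by_contra h4
    have h5 : N.Normal := Subgroup.normalizer_eq_top_iff.1 (hH.2 _ (lt_of_le_not_ge h3 h4))
    rcases h5.eq_bot_or_eq_top with e | e
    · exact h0 (Subgroup.mem_bot.1 (e ▸ h1))
    · exact h2 e
  refine ⟨fun g hg => hE.2.2.2 g (key ψ.range ⟨_, rfl⟩ (fun e => hH.1 (eq_top_iff.2 ?_))
    (fun h hh => norm_of ?_ ?_) (norm_of ?_ ?_)) hg, fun hne g hg => ?_⟩
  · rw [← e]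
    rintro _ ⟨s, rfl⟩
    exact hE.2.1 s
  · rintro _ ⟨s, rfl⟩
    obtain ⟨s', e⟩ := hE.2.2.1 h hh s
    exact ⟨s', e.symm⟩
  · rintro _ ⟨s, rfl⟩
    obtain ⟨s', e⟩ := hE.2.2.1 h⁻¹ (inv_mem hh) s
    exact ⟨s', e.symm⟩
  · rintro _ ⟨s, rfl⟩
    exact ⟨s, by rw [(hg s).eq, mul_inv_cancel_right]⟩
  · rintro _ ⟨s, rfl⟩
    have e : g⁻¹ * ψ s = ψ s * g⁻¹ := Commute.inv_left (hg s)
    exact ⟨s, by rw [e, mul_inv_cancel_right]⟩
  · have k0 : ∀ h ∈ H, ∀ v ∈ (Fx (rho ψ) Set.univ : Set V),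
        act (ι h) v ∈ (Fx (rho ψ) Set.univ : Set V) := fun h hh v hv s _ => by
      obtain ⟨s', e⟩ := hE.2.2.1 h⁻¹ (inv_mem hh) s
      have e1 : ψ s * h = h * ψ s' := by rw [← e]; group
      have e2 : act (ι (ψ s')) v = v := hv s' trivial
      change act (ι (ψ s)) (act (ι h) v) = act (ι h) v
      rw [← act_mul, e1, act_mul, e2]
    refine key (stab (Fx (rho ψ) Set.univ)) (fun v hv => hv _ trivial) (fun e => ?_)
      (fun h hh => norm_of (fun k => conj_mem (k0 _ (inv_mem hh)))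
        fun k => conj_mem (k0 _ (inv_mem (inv_mem hh)))) (Subgroup.le_normalizer (mem_stab.2 hg))
    obtain ⟨v, hv, v0⟩ := (Submodule.ne_bot_iff _).1 hne
    obtain ⟨m, hm⟩ := H28.FvR.line H80.FvEnt.entS v v0
    exact hm 1 ((mem_stab.1 (e ▸ Subgroup.mem_top m) v hv).trans (one_smul _ _).symm)

set_option linter.all false in
theorem eqns_L81Nrm : True := by
  first | (have := @_root_.Cfsg.Agent.H83.L81Nrm.stab.eq_def.{0,0,0,0}) | (have := @_root_.Cfsg.Agent.H83.L81Nrm.stab.eq_def.{0,0,0}) | (have := @_root_.Cfsg.Agent.H83.L81Nrm.stab.eq_def.{0,0}) | (have := @_root_.Cfsg.Agent.H83.L81Nrm.stab.eq_def.{0}) | (have := @_root_.Cfsg.Agent.H83.L81Nrm.stab.eq_def) | skip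
  first | (have := @_root_.Cfsg.Agent.H83.L81Nrm.stab.eq_1.{0,0,0,0}) | (have := @_root_.Cfsg.Agent.H83.L81Nrm.stab.eq_1.{0,0,0}) | (have := @_root_.Cfsg.Agent.H83.L81Nrm.stab.eq_1.{0,0}) | (have := @_root_.Cfsg.Agent.H83.L81Nrm.stab.eq_1.{0}) | (have := @_root_.Cfsg.Agent.H83.L81Nrm.stab.eq_1) | skip
  first | (have := @_root_.Cfsg.Agent.H83.L81Nrm.stab.eq_2.{0,0,0,0}) | (have := @_root_.Cfsg.Agent.H83.L81Nrm.stab.eq_2.{0,0,0}) | (have := @_root_.Cfsg.Agent.H83.L81Nrm.stab.eq_2.{0,0}) | (have := @_root_.Cfsg.Agent.H83.L81Nrm.stab.eq_2.{0}) | (have := @_root_.Cfsg.Agent.H83.L81Nrm.stab.eq_2) | skip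
  first | (have := @_root_.Cfsg.Agent.H83.L81Nrm.stab.congr_simp.{0,0,0,0}) | (have := @_root_.Cfsg.Agent.H83.L81Nrm.stab.congr_simp.{0,0,0}) | (have := @_root_.Cfsg.Agent.H83.L81Nrm.stab.congr_simp.{0,0}) | (have := @_root_.Cfsg.Agent.H83.L81Nrm.stab.congr_simp.{0}) | (have := @_root_.Cfsg.Agent.H83.L81Nrm.stab.congr_simp) | skip
  trivial

end Cfsg.Agent.H83.L81Nrm
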