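import Cfsg.Agent.H73.LPDefs

/-!
`PCount`: counting Sylow subgroups of order `p²` which do not form a TI-set.
-/

set_option autoImplicit false

namespace Cfsg.Agent.H83.LPC

open Cfsg.Agent.H73.LP

universe u

variable {G : Type u} [Group G] [Finite G] {p : ℕ} [hp : Fact p.Prime]

omit [Finite G] hp in
theorem mem_smul_iff (g x : G) (S : Sylow p G) :
    x ∈ ((g • S : Sylow p G) : Subgroup G) ↔ g⁻¹ * x * g ∈ (S : Subgroup G) := by
  rw [Sylow.coe_subgroup_smul, Subgroup.mem_pointwise_smul_iff_inv_smul_mem]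
  simp [MulAut.smul_def]

omit [Finite G] hp in
theorem conj_mem_smul (g x : G) (S : Sylow p G) (h : x ∈ (S : Subgroup G)) :
    g * x * g⁻¹ ∈ ((g • S : Sylow p G) : Subgroup G) := by
  rw [mem_smul_iff]; simpa [mul_assoc] using h

omit [Finite G] hp in
theorem n0_conj (g x : G) : n0 p (g * x * g⁻¹) = n0 p x := by
  unfold n0
  refine Nat.card_congr ⟨fun S => ⟨g⁻¹ • S.1, ?_⟩, fun S => ⟨g • S.1, conj_mem_smul g x _ S.2⟩,
    fun S => ?_, fun S => ?_⟩
  · have := conj_mem_smul g⁻¹ _ _ S.2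
    simpa [mul_assoc] using this
  · ext1; simp
  · ext1; simp

theorem card_syl (P S : Sylow p G) (hP : Nat.card (P : Subgroup G) = p ^ 2) :
    Nat.card (S : Subgroup G) = p ^ 2 := by
  rw [S.card_eq_multiplicity, ← P.card_eq_multiplicity, hP]

/-- two distinct Sylow subgroups meeting nontrivially meet in a group of order `p`. -/
theorem inf_card {S T : Sylow p G} (hS : Nat.card (S : Subgroup G) = p ^ 2) (hne : S ≠ T)
    {H : Subgroup G} (h1 : H ≤ (S : Subgroup G)) (h2 : H ≤ (T : Subgroup G)) (hH : H ≠ ⊥) :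
    Nat.card H = p := by
  have hd : Nat.card H ∣ p ^ 2 := hS ▸ Subgroup.card_dvd_of_le h1
  obtain ⟨k, hk, hkk⟩ := (Nat.dvd_prime_pow hp.out).1 hd
  interval_cases k
  · exact absurd (Subgroup.card_eq_one.1 (by simpa using hkk)) hH
  · simpa using hkk
  · exfalso
    have : H = (S : Subgroup G) := Subgroup.eq_of_le_of_card_ge h1 (by rw [hS, hkk])
    apply hne
    apply Sylow.ext
    exact (S.3 T.2 (this ▸ h2)).symm

theorem mem_zp {S T : Sylow p G} (hS : Nat.card (S : Subgroup G) = p ^ 2) (hne : S ≠ T)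
    {x a : G} (hx1 : x ≠ 1) (hxS : x ∈ (S : Subgroup G)) (hxT : x ∈ (T : Subgroup G))
    (haS : a ∈ (S : Subgroup G)) (haT : a ∈ (T : Subgroup G)) : a ∈ Subgroup.zpowers x := by
  have hz : Subgroup.zpowers x ≠ ⊥ := by simpa using hx1
  have hle : Subgroup.zpowers x ≤ (S : Subgroup G) ⊓ (T : Subgroup G) := by
    rw [Subgroup.zpowers_le]; exact ⟨hxS, hxT⟩
  have c1 := inf_card hS hne (hle.trans inf_le_left) (hle.trans inf_le_right) hz
  have c2 := inf_card (H := (S : Subgroup G) ⊓ (T : Subgroup G)) hS hne inf_le_left inf_le_right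
    (fun h => hz (le_bot_iff.1 (h ▸ hle)))
  have : Subgroup.zpowers x = (S : Subgroup G) ⊓ (T : Subgroup G) :=
    Subgroup.eq_of_le_of_card_ge hle (by rw [c1, c2])
  rw [this]; exact ⟨haS, haT⟩

omit hp in
theorem two_le_iff (x : G) : 2 ≤ n0 p x ↔
    ∃ S T : Sylow p G, S ≠ T ∧ x ∈ (S : Subgroup G) ∧ x ∈ (T : Subgroup G) := by
  unfold n0
  rw [show (2 ≤ Nat.card {S : Sylow p G // x ∈ (S : Subgroup G)}) ↔
      1 < Nat.card {S : Sylow p G // x ∈ (S : Subgroup G)} from Iff.rfl,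
    Finite.one_lt_card_iff_nontrivial]
  constructor
  · rintro ⟨⟨S, T, h⟩⟩
    exact ⟨S.1, T.1, fun e => h (Subtype.ext e), S.2, T.2⟩
  · rintro ⟨S, T, h, h1, h2⟩
    exact ⟨⟨⟨S, h1⟩, ⟨T, h2⟩, fun e => h (congrArg Subtype.val e)⟩⟩

/-- nontrivial elements in at least two Sylow subgroups. -/
def XX (p : ℕ) (x : G) : Prop := x ≠ 1 ∧ 2 ≤ n0 p x

omit [Finite G] hp in
theorem XX.conj {x : G} (h : XX p x) (g : G) : XX p (g * x * g⁻¹) :=
  ⟨fun e => h.1 (by simpa [mul_assoc] using congrArg (fun y => g⁻¹ * y * g) e),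
    by rw [n0_conj]; exact h.2⟩

theorem XX.card_zp {P : Sylow p G} (hP : Nat.card (P : Subgroup G) = p ^ 2) {x : G}
    (h : XX p x) : Nat.card (Subgroup.zpowers x) = p := by
  obtain ⟨S, T, hne, h1, h2⟩ := (two_le_iff x).1 h.2
  exact inf_card (card_syl P S hP) hne (by rwa [Subgroup.zpowers_le])
    (by rwa [Subgroup.zpowers_le]) (by simpa using h.1)

omit hp in
theorem XX.zp {x y : G} (h : XX p x) (hy : y ∈ Subgroup.zpowers x) (h1 : y ≠ 1) : XX p y := by
  obtain ⟨S, T, hne, h1', h2⟩ := (two_le_iff x).1 h.2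
  exact ⟨h1, (two_le_iff y).2 ⟨S, T, hne, (Subgroup.zpowers_le.2 h1') hy,
    (Subgroup.zpowers_le.2 h2) hy⟩⟩

theorem part1 (P : Sylow p G) (hP : Nat.card (P : Subgroup G) = p ^ 2) (S0 S1 : Sylow p G)
    (h0 : (P : Subgroup G) ⊓ (S0 : Subgroup G) = ⊥) (h1 : S1 ≠ P)
    (h2 : (P : Subgroup G) ⊓ (S1 : Subgroup G) ≠ ⊥) : p ^ 2 + 2 ≤ Nat.card (Sylow p G) := by
  have hu : ∀ u : (P : Subgroup G), (P : Subgroup G) ⊓ ((u.1 • S0 : Sylow p G) : Subgroup G) = ⊥ := by
    intro u
    rw [eq_bot_iff]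
    rintro y ⟨hy1, hy2⟩
    have hy3 := (mem_smul_iff u.1 y S0).1 hy2
    have : (u.1)⁻¹ * y * u.1 ∈ (P : Subgroup G) ⊓ (S0 : Subgroup G) :=
      Subgroup.mem_inf.2 ⟨mul_mem (mul_mem (inv_mem u.2) hy1) u.2, hy3⟩
    rw [h0, Subgroup.mem_bot] at this
    rw [Subgroup.mem_bot]
    simpa [mul_assoc] using congrArg (fun y => u.1 * y * (u.1)⁻¹) this
  have hPb : (P : Subgroup G) ≠ ⊥ := fun h => h2 (by rw [h]; simp)
  let f : (P : Subgroup G) ⊕ Bool → Sylow p G := fun z =>
    match z with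
    | Sum.inl u => u.1 • S0
    | Sum.inr true => P
    | Sum.inr false => S1
  have hf : Function.Injective f := by
    rintro (u | b) (v | c) h
    · simp only [f] at h
      have h3 : (v.1⁻¹ * u.1) • S0 = S0 := by rw [mul_smul, h, inv_smul_smul]
      rw [Sylow.smul_eq_iff_mem_normalizer] at h3
      have h4 : v.1⁻¹ * u.1 ∈ (P : Subgroup G) ⊓ Subgroup.normalizer (S0 : Set G) :=
        Subgroup.mem_inf.2 ⟨mul_mem (inv_mem v.2) u.2, h3⟩
      rw [IsPGroup.inf_normalizer_sylow P.2, h0, Subgroup.mem_bot, inv_mul_eq_one] at h4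
      rw [Subtype.ext h4.symm]
    · exfalso
      have := hu u
      cases c <;> simp only [f] at h <;> rw [h] at this
      · exact h2 this
      · exact hPb (by simpa using this)
    · exfalso
      have := hu v
      cases b <;> simp only [f] at h <;> rw [← h] at this
      · exact h2 this
      · exact hPb (by simpa using this)
    · cases b <;> cases c <;> simp only [f] at h
      · rfl
      · exact absurd h h1
      · exact absurd h.symm h1
      · rfl
  have := Nat.card_le_card_of_injective f hf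
  rw [Nat.card_sum, hP] at this
  simpa using this

theorem caseD2 (P : Sylow p G) (S0 : Sylow p G)
    (h0 : (P : Subgroup G) ⊓ (S0 : Subgroup G) = ⊥)
    (hD : ∀ (S : Sylow p G) (a b : G), XX p a → XX p b → a ∈ (S : Subgroup G) →
      b ∈ (S : Subgroup G) → b ∈ Subgroup.zpowers a)
    (x : G) (hx : XX p x) (hxS : x ∈ (S0 : Subgroup G)) :
    Nat.card (P : Subgroup G) * n0 p x ≤ Nat.card (Sylow p G) := by
  have hxP : x ∉ (P : Subgroup G) := fun h => hx.1 (by
    have : x ∈ (P : Subgroup G) ⊓ (S0 : Subgroup G) := ⟨h, hxS⟩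
    rwa [h0, Subgroup.mem_bot] at this)
  let f : ↥(P : Subgroup G) × {S : Sylow p G // x ∈ (S : Subgroup G)} → Sylow p G :=
    fun z => z.1.1 • z.2.1
  have hf : Function.Injective f := by
    rintro ⟨u, S1⟩ ⟨w, S2⟩ h
    simp only [f] at h
    set v : G := u.1⁻¹ * w.1 with hv
    have hvP : v ∈ (P : Subgroup G) := mul_mem (inv_mem u.2) w.2
    have h1 : S1.1 = v • S2.1 := by rw [hv, mul_smul, ← h, inv_smul_smul]
    have h2 : v * x * v⁻¹ ∈ (S1.1 : Subgroup G) := h1 ▸ conj_mem_smul v x _ S2.2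
    have h3 := hD S1.1 x _ hx (hx.conj v) S1.2 h2
    have hn : v ∈ Subgroup.normalizer ((Subgroup.zpowers x : Subgroup G) : Set G) := by
      apply Subgroup.mem_normalizer_fintype
      rintro n ⟨k, rfl⟩
      have : v * x ^ k * v⁻¹ = (v * x * v⁻¹) ^ k := by simp [conj_zpow]
      simp only [SetLike.mem_coe]
      rw [this]; exact zpow_mem h3 k
    have hp1 : IsPGroup p (Subgroup.zpowers v) := P.2.to_le (by rwa [Subgroup.zpowers_le])
    have hp2 : IsPGroup p (Subgroup.zpowers x) := S0.2.to_le (by rwa [Subgroup.zpowers_le])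
    obtain ⟨S3, hS3⟩ := (IsPGroup.to_sup_of_normal_right' hp1 hp2
      (by rwa [Subgroup.zpowers_le])).exists_le_sylow
    have hv3 : v ∈ (S3 : Subgroup G) := hS3 (Subgroup.mem_sup_left (Subgroup.mem_zpowers v))
    have hx3 : x ∈ (S3 : Subgroup G) := hS3 (Subgroup.mem_sup_right (Subgroup.mem_zpowers x))
    have hv1 : v = 1 := by
      by_contra hv1
      have hvX : XX p v := ⟨hv1, (two_le_iff v).2 ⟨P, S3, fun e => hxP (e ▸ hx3), hvP, hv3⟩⟩
      exact hxP ((Subgroup.zpowers_le.2 hvP) (hD S3 v x hvX hx hv3 hx3))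
    have huw : u = w := Subtype.ext (inv_mul_eq_one.1 hv1)
    rw [hv1, one_smul] at h1
    rw [huw, Subtype.ext h1]
  have := Nat.card_le_card_of_injective f hf
  rwa [Nat.card_prod] at this

theorem caseD1 (P : Sylow p G) (hP : Nat.card (P : Subgroup G) = p ^ 2)
    (S : Sylow p G) (a b : G) (ha : XX p a) (hb : XX p b) (haS : a ∈ (S : Subgroup G))
    (hbS : b ∈ (S : Subgroup G)) (hab : b ∉ Subgroup.zpowers a)
    (x : G) (hx : XX p x) (hmin : ∀ y : G, XX p y → n0 p x ≤ n0 p y) :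
    n0 p x ^ 2 ≤ 2 * Nat.card (Sylow p G) := by
  classical
  haveI := Fintype.ofFinite G
  haveI := Fintype.ofFinite (Sylow p G)
  let X : Finset G := Finset.univ.filter (XX p)
  let A : Sylow p G → Finset G := fun T => X.filter (· ∈ (T : Subgroup G))
  have hA : ∀ T y, y ∈ A T ↔ XX p y ∧ y ∈ (T : Subgroup G) := by
    intro T y; simp [A, X]
  -- all `A T` have the same size
  have hτ : ∀ T, (A T).card = (A S).card := by
    intro T
    obtain ⟨g, rfl⟩ := MulAction.exists_smul_eq G S T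
    symm
    refine Finset.card_bij (fun y _ => g * y * g⁻¹) ?_ ?_ ?_
    · intro y hy
      rw [hA] at hy ⊢
      exact ⟨hy.1.conj g, conj_mem_smul g y S hy.2⟩
    · intro y _ z _ h
      simpa using h
    · intro y hy
      rw [hA] at hy
      refine ⟨g⁻¹ * y * g, ?_, by simp [mul_assoc]⟩
      rw [hA]
      exact ⟨by simpa using hy.1.conj g⁻¹, (mem_smul_iff g y S).1 hy.2⟩
  have hn0 : ∀ y : G, n0 p y = (Finset.univ.filter (fun T : Sylow p G => y ∈ (T : Subgroup G))).card := by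
    intro y
    unfold n0
    rw [Nat.card_eq_fintype_card, Fintype.card_subtype]
  -- double count
  have hdc : ∑ T : Sylow p G, (A T).card = ∑ y ∈ X, n0 p y := by
    simp only [hn0, A, Finset.card_filter]
    exact Finset.sum_comm
  have h1 : X.card * n0 p x ≤ Nat.card (Sylow p G) * (A S).card := by
    calc X.card * n0 p x = ∑ _y ∈ X, n0 p x := by simp
      _ ≤ ∑ y ∈ X, n0 p y := Finset.sum_le_sum fun y hy => hmin y (by simpa [X] using hy)
      _ = ∑ T : Sylow p G, (A T).card := hdc.symm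
      _ = Nat.card (Sylow p G) * (A S).card := by simp [hτ]
  -- nontrivial powers
  let Z : G → Finset G := fun c => (Finset.univ.filter (· ∈ Subgroup.zpowers c)).erase 1
  have hZ : ∀ c y, y ∈ Z c ↔ y ≠ 1 ∧ y ∈ Subgroup.zpowers c := by
    intro c y; simp [Z]
  have hZc : ∀ c, XX p c → (Z c).card + 1 = p := by
    intro c hc
    have := hc.card_zp hP
    rw [Nat.card_eq_fintype_card, Fintype.card_subtype] at this
    simp only [Z]
    rw [Finset.card_erase_add_one (by simp), this]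
  have hτ2 : 2 * p ≤ (A S).card + 2 := by
    have hdis : Disjoint (Z a) (Z b) := by
      rw [Finset.disjoint_left]
      intro y hya hyb
      rw [hZ] at hya hyb
      apply hab
      have hy : XX p y := ha.zp hya.2 hya.1
      have e1 : Subgroup.zpowers y = Subgroup.zpowers b :=
        Subgroup.eq_of_le_of_card_ge (Subgroup.zpowers_le.2 hyb.2)
          (by rw [hy.card_zp hP, hb.card_zp hP])
      exact (Subgroup.zpowers_le.2 hya.2) (e1 ▸ Subgroup.mem_zpowers b)
    have hsub : Z a ∪ Z b ⊆ A S := by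
      intro y hy
      rw [hA]
      rcases Finset.mem_union.1 hy with h | h <;> rw [hZ] at h
      · exact ⟨ha.zp h.2 h.1, (Subgroup.zpowers_le.2 haS) h.2⟩
      · exact ⟨hb.zp h.2 h.1, (Subgroup.zpowers_le.2 hbS) h.2⟩
    have := Finset.card_le_card hsub
    rw [Finset.card_union_of_disjoint hdis] at this
    have e1 := hZc a ha
    have e2 := hZc b hb
    omega
  -- the disjoint pieces
  let I : Finset (Sylow p G) := Finset.univ.filter (fun T : Sylow p G => x ∈ (T : Subgroup G))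
  let B : Sylow p G → Finset G := fun T => A T \ Z x
  have hB : ∀ T, (A S).card ≤ 2 * (B T).card := by
    intro T
    have := Finset.le_card_sdiff (Z x) (A T)
    have e1 := hZc x hx
    rw [hτ T] at this
    simp only [B]
    omega
  have hdis : (I : Set (Sylow p G)).PairwiseDisjoint B := by
    intro T hT T' hT' hne
    rw [Function.onFun, Finset.disjoint_left]
    intro y hy hy'
    simp only [B, Finset.mem_sdiff, hA, hZ] at hy hy'
    simp only [I, Finset.coe_filter, Finset.mem_univ, true_and, Set.mem_ofPred_eq] at hT hT'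
    exact hy.2 ⟨hy.1.1.1, mem_zp (card_syl P T hP) hne hx.1 hT hT' hy.1.2 hy'.1.2⟩
  have h2 : n0 p x * (A S).card ≤ 2 * X.card := by
    have hsub : I.biUnion B ⊆ X := by
      intro y hy
      obtain ⟨T, -, hT⟩ := Finset.mem_biUnion.1 hy
      exact (Finset.mem_filter.1 (Finset.mem_sdiff.1 hT).1).1
    have h3 := Finset.card_le_card hsub
    rw [Finset.card_biUnion hdis] at h3
    calc n0 p x * (A S).card = ∑ _T ∈ I, (A S).card := by simp [hn0, I]
      _ ≤ ∑ T ∈ I, 2 * (B T).card := Finset.sum_le_sum fun T _ => hB T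
      _ = 2 * ∑ T ∈ I, (B T).card := by rw [Finset.mul_sum]
      _ ≤ 2 * X.card := by omega
  have hpos : 0 < (A S).card := Finset.card_pos.2 ⟨a, (hA S a).2 ⟨ha, haS⟩⟩
  have h4 : n0 p x ^ 2 * (A S).card ≤ 2 * Nat.card (Sylow p G) * (A S).card := by
    calc n0 p x ^ 2 * (A S).card = n0 p x * (n0 p x * (A S).card) := by ring
      _ ≤ n0 p x * (2 * X.card) := Nat.mul_le_mul_left _ h2
      _ = 2 * (X.card * n0 p x) := by ring
      _ ≤ 2 * (Nat.card (Sylow p G) * (A S).card) := Nat.mul_le_mul_left _ h1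
      _ = _ := by ring
  exact Nat.le_of_mul_le_mul_right h4 hpos

theorem pCount : PCount.{u} := by
  intro G _ _ p _ P hP ⟨S0, h0⟩ ⟨S1, h1, h2⟩
  refine ⟨part1 P hP S0 S1 h0 h1 h2, ?_⟩
  have hne : ∃ y : G, XX p y := by
    obtain ⟨⟨y, hy1, hy2⟩, hy⟩ := Subgroup.ne_bot_iff_exists_ne_one.1 h2
    exact ⟨y, fun e => hy (Subtype.ext e), (two_le_iff y).2 ⟨P, S1, h1.symm, hy1, hy2⟩⟩
  obtain ⟨x, hx, hmin⟩ := Set.exists_min_image {y : G | XX p y} (n0 p) (Set.toFinite _) hne
  obtain ⟨T, -, -, hT, -⟩ := (two_le_iff x).1 hx.2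
  obtain ⟨g, hg⟩ := MulAction.exists_smul_eq G T P
  obtain ⟨g', hg'⟩ := MulAction.exists_smul_eq G T S0
  have hx' : XX p x := hx
  refine ⟨g * x * g⁻¹, hg ▸ conj_mem_smul g x T hT, (hx'.conj g).1, (hx'.conj g).2, ?_⟩
  rw [n0_conj]
  by_cases hD : ∀ (S : Sylow p G) (a b : G), XX p a → XX p b → a ∈ (S : Subgroup G) →
      b ∈ (S : Subgroup G) → b ∈ Subgroup.zpowers a
  · right
    have := caseD2 P S0 h0 hD _ (hx'.conj g') (hg' ▸ conj_mem_smul g' x T hT)
    rwa [hP, n0_conj] at this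
  · left
    push Not at hD
    obtain ⟨S, a, b, ha, hb, haS, hbS, hab⟩ := hD
    exact caseD1 P hP S a b ha hb haS hbS hab x hx' hmin

set_option linter.all false in
theorem eqns_LPCount : True := by
  first | (have := @_root_.Cfsg.Agent.H83.LPC.XX.eq_def.{0,0}) | (have := @_root_.Cfsg.Agent.H83.LPC.XX.eq_def.{0}) | (have := @_root_.Cfsg.Agent.H83.LPC.XX.eq_def) | skip
  first | (have := @_root_.Cfsg.Agent.H83.LPC.XX.eq_1.{0,0}) | (have := @_root_.Cfsg.Agent.H83.LPC.XX.eq_1.{0}) | (have := @_root_.Cfsg.Agent.H83.LPC.XX.eq_1) | skip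
  first | (have := @_root_.Cfsg.Agent.H83.LPC.XX.eq_2.{0,0}) | (have := @_root_.Cfsg.Agent.H83.LPC.XX.eq_2.{0}) | (have := @_root_.Cfsg.Agent.H83.LPC.XX.eq_2) | skip
  first | (have := @_root_.Cfsg.Agent.H83.LPC.XX.congr_simp.{0,0}) | (have := @_root_.Cfsg.Agent.H83.LPC.XX.congr_simp.{0}) | (have := @_root_.Cfsg.Agent.H83.LPC.XX.congr_simp) | skip
  trivial

end Cfsg.Agent.H83.LPC
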