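import Cfsg.Agent.H42.N7Defs
import Cfsg.Agent.H42.LT3B

/-! A standard subgroup of type `A₇`: the facts about `A₇` (pieces E, N1, N2, N3). -/

set_option autoImplicit false
set_option linter.unusedSectionVars false
set_option linter.style.haveILetI false

namespace Cfsg.Agent.H83.N7F

open Subgroup Cfsg.Agent.H85 Cfsg.Agent.H42.N7 Equiv
open Cfsg.Agent.H42.LT (z7 e7 o7 mem_l7 mem_e7 conj_z7 s7_facts five7 order_inv)
open Cfsg.Agent.H3.LTB (cn_comm comm_of_cn cn_mul' cn_mem)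

universe u

/-- the `3`-cycle `(4 5 6)` -/
def y7 : Perm (Fin 7) := swap 4 5 * swap 5 6

theorem eqns_y7 : True := by
  have := @y7.eq_1
  trivial

theorem three_aux : ∀ a4 : Fin 7, z7 a4 = a4 → ∀ a5 : Fin 7, z7 a5 = a5 → ∀ a6 : Fin 7, z7 a6 = a6 →
    ∀ a0 a2 : Fin 7, ∀ f : Fin 7 → Fin 7, f = ![a0, z7 a0, a2, z7 a2, a4, a5, a6] →
      (∀ i, f (f (f i)) = i) → (∀ i, f i = i) ∨ (∀ i, f i = y7 i) ∨ ∀ i, y7 (f i) = i := by
  simp only [forall_eq]
  decide +kernel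

theorem three7 (w : Perm (Fin 7)) (c : w * z7 = z7 * w) (h : w * w * w = 1) :
    w = 1 ∨ w = y7 ∨ y7 * w = 1 := by
  have k : ∀ i, z7 (w i) = w (z7 i) := fun i => (congrArg (· i) c).symm
  exact (three_aux (w 4) (k 4) (w 5) (k 5) (w 6) (k 6) (w 0) (w 2) w (by
    funext i; fin_cases i
    exacts [rfl, (k 0).symm, rfl, (k 2).symm, rfl, rfl, rfl]) fun i => congrArg (· i) h).imp
    Equiv.ext (Or.imp Equiv.ext Equiv.ext)

theorem five_aux : ∀ s : Perm (Fin 7), s = swap 4 5 * z7 → ∀ a6 : Fin 7, s a6 = a6 →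
    ∀ a0 a2 a4 : Fin 7, ∀ f : Fin 7 → Fin 7, f = ![a0, s a0, a2, s a2, a4, s a4, a6] →
      (∀ i, f (f (f (f (f i)))) = i) → ∀ i, f i = i := by
  simp only [forall_eq]
  decide +kernel

theorem five0 (w s : Perm (Fin 7)) (e : s = swap 4 5 * z7) (c : w * s = s * w)
    (h : w * w * w * w * w = 1) : w = 1 := by
  have k : ∀ i, s (w i) = w (s i) := fun i => (congrArg (· i) c).symm
  subst e
  exact Equiv.ext (five_aux _ rfl (w 6) (k 6) (w 0) (w 2) (w 4) w (by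
    funext i; fin_cases i
    exacts [rfl, (k 0).symm, rfl, (k 2).symm, rfl, (k 4).symm, rfl]) fun i => congrArg (· i) h)

theorem cj5 : ∀ p ∈ [((4 : Fin 7), (5 : Fin 7)), (4, 6), (5, 6)], ∃ τ ∈ [1, swap 5 6, swap 4 6],
    τ * (swap p.1 p.2 * z7) * τ⁻¹ = swap 4 5 * z7 := by decide +kernel

theorem y7_facts : Perm.sign y7 = 1 ∧ y7 ^ 3 = 1 ∧ y7 ≠ 1 ∧ y7 * z7 = z7 * y7 := by decide +kernel

set_option synthInstance.maxSize 4000 in
theorem pair7 : ∀ a ∈ e7, ∀ b ∈ e7, a * b = b * (a * z7) →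
    ((y7 * a = a * y7 ∧ y7 * b ≠ b * y7) ∨ (y7 * b = b * y7 ∧ y7 * a ≠ a * y7)) ∧
    ∀ s ∈ e7 ++ o7, s * a = a * s → s * b = b * s → s ≠ 1 → s * z7 ≠ 1 → y7 * s ≠ s * y7 ∧
      ∃ p ∈ [((4 : Fin 7), (5 : Fin 7)), (4, 6), (5, 6)],
        s = swap p.1 p.2 ∨ s * z7 = swap p.1 p.2 := by
  have : (e7.all fun a => e7.all fun b => decide (a * b = b * (a * z7) →
      ((y7 * a = a * y7 ∧ y7 * b ≠ b * y7) ∨ (y7 * b = b * y7 ∧ y7 * a ≠ a * y7)) ∧
      ((e7 ++ o7).all fun s => decide (s * a = a * s → s * b = b * s → s ≠ 1 → s * z7 ≠ 1 →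
        y7 * s ≠ s * y7 ∧ ∃ p ∈ [((4 : Fin 7), (5 : Fin 7)), (4, 6), (5, 6)],
          s = swap p.1 p.2 ∨ s * z7 = swap p.1 p.2)) = true)) = true := by decide +kernel
  simpa only [List.all_eq_true, decide_eq_true_eq] using this

theorem no3 {w s : Perm (Fin 7)} (o : orderOf w = 3) (c : Commute z7 w) (c' : Commute s w) :
    y7 * s = s * y7 := by
  rcases three7 w c.symm.eq (by rw [← pow_three', ← o, pow_orderOf_eq_one]) with rfl | rfl | e
  · simp at o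
  · exact c'.symm
  · rw [eq_inv_of_mul_eq_one_left e]; exact c'.inv_right.symm

theorem no5 {w : Perm (Fin 7)} (o : orderOf w = 5) {p : Fin 7 × Fin 7}
    (hp : p ∈ [((4 : Fin 7), (5 : Fin 7)), (4, 6), (5, 6)]) : ¬ Commute (swap p.1 p.2 * z7) w := by
  intro c
  obtain ⟨τ, -, e⟩ := cj5 p hp
  have h : w * w * w * w * w = 1 := by
    rw [← pow_orderOf_eq_one w, o]; simp only [pow_succ, pow_zero, one_mul]
  have := five0 (τ * w * τ⁻¹) _ e (c.conj τ).symm.eq (by simp only [conj_mul, h]; simp)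
  obtain rfl : w = 1 := by simpa using this
  simp at o

variable {G : Type u} [Group G] [Finite G]

theorem card_D {a b z : G} (aa : a * a = 1) (bb : b * b = 1) (zz : z * z = 1)
    (ab : cn a b = a * z) : Nat.card (closure ({a, b} : Set G)) ≤ 8 := by
  have ai := inv_eq_of_mul_eq_one_right aa
  have bi := inv_eq_of_mul_eq_one_right bb
  have h1 : (a * b) ^ 4 = 1 := by
    have : a * b * (a * b) = z := by
      rw [cn, bi] at ab
      rw [mul_assoc, ← mul_assoc b, ab, ← mul_assoc, aa, one_mul]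
    rw [show 4 = 2 * 2 by rfl, pow_mul, pow_two (a * b), this, pow_two, zz]
  have h2 := H3.card_sup_mul_card_inf_of_le_normalizer (H := zpowers a) (N := zpowers (a * b))
    (zpowers_le.2 (mem_normalizer_of_cj_le (by
      rw [cj_zpowers, zpowers_le, show a * (a * b) * a⁻¹ = (a * b)⁻¹ by
        rw [← mul_assoc, aa, one_mul, mul_inv_rev, bi]]
      exact inv_mem (mem_zpowers _))))
  rw [Nat.card_zpowers, Nat.card_zpowers] at h2
  have h3 := orderOf_le_of_pow_eq_one two_pos (by rw [pow_two, aa] : a ^ 2 = 1)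
  have h4 := orderOf_le_of_pow_eq_one four_pos h1
  have h5 : closure ({a, b} : Set G) ≤ zpowers a ⊔ zpowers (a * b) := by
    rw [closure_le, Set.insert_subset_iff, Set.singleton_subset_iff]
    refine ⟨mem_sup_left (mem_zpowers a), ?_⟩
    simpa [← mul_assoc, aa] using mul_mem_sup (mem_zpowers a) (mem_zpowers (a * b))
  have h6 := Nat.card_pos (α := ↥(zpowers a ⊓ zpowers (a * b)))
  refine (card_le_of_le h5).trans ?_
  calc _ ≤ _ := Nat.le_mul_of_pos_right _ h6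
    _ ≤ 2 * 4 := by rw [h2]; exact Nat.mul_le_mul h3 h4

theorem perf_le {A H L T : Subgroup G} (hA : ⁅A, A⁆ = A) (AH : A ≤ H)
    (Ln : H ≤ normalizer (L : Set G)) (hT : IsPGroup 2 T) (TH : T ≤ H)
    (CL : ∀ c ∈ H, ∃ l ∈ L, ∃ u ∈ T, c = l * u) : A ≤ L := by
  haveI : (L.subgroupOf H).Normal := normal_subgroupOf_of_le_normalizer Ln
  have h1 : IsPGroup 2 (H ⧸ L.subgroupOf H) :=
    hT.of_surjective ((QuotientGroup.mk' _).comp (inclusion TH)) fun q => by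
      obtain ⟨⟨c, hc⟩, rfl⟩ := QuotientGroup.mk_surjective q
      obtain ⟨l, hl, u, hu, rfl⟩ := CL c hc
      refine ⟨⟨u, hu⟩, QuotientGroup.eq.2 ?_⟩
      simpa [mem_subgroupOf, mul_assoc] using cn_mem (Ln (TH hu)) hl
  intro a ha
  let f := (QuotientGroup.mk' (L.subgroupOf H)).comp (inclusion AH)
  haveI := isPerfect_iff.2 hA
  haveI := Group.IsPerfect.range f
  haveI : Fact (Nat.Prime 2) := ⟨Nat.prime_two⟩
  by_contra e
  haveI : Nontrivial f.range := ⟨⟨_, ⟨a, ha⟩, rfl⟩, 1, fun k =>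
    e ((QuotientGroup.eq_one_iff (N := L.subgroupOf H) (inclusion AH ⟨a, ha⟩)).1
      (congrArg Subtype.val k))⟩
  haveI := (h1.to_subgroup f.range).isNilpotent
  exact Group.IsPerfect.not_isSolvable f.range inferInstance

/-- a coset of an odd order group fixed by an involution contains a fixed point -/
theorem lift_fix {O : Subgroup G} (ho : Odd (Nat.card O)) {c x : G}
    (hc : c ∈ normalizer (O : Set G)) (cc : c * c = 1) (hx : x⁻¹ * cn x c ∈ O) :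
    ∃ o ∈ O, Commute (x * o) c := by
  have hf : Function.Involutive fun o : O =>
      (⟨x⁻¹ * cn x c * cn (o : G) c, mul_mem hx (cn_mem hc o.2)⟩ : O) := fun o => Subtype.ext (by
    have : c⁻¹ = c := inv_eq_of_mul_eq_one_right cc
    simp only [cn, this, mul_assoc, mul_inv_cancel_left, ← mul_assoc c c, cc, one_mul, mul_one,
      inv_mul_cancel_left])
  have := Fintype.ofFinite O
  haveI : Fact (Nat.Prime 2) := ⟨Nat.prime_two⟩
  obtain ⟨o, e⟩ := Perm.exists_fixed_point_of_prime (p := 2) (n := 1) (σ := hf.toPerm _)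
    (by rw [← Nat.card_eq_fintype_card]; exact ho.not_two_dvd_nat) (Equiv.ext fun o => hf o)
  refine ⟨o, o.2, comm_of_cn ?_⟩
  have e' : x⁻¹ * cn x c * cn (o : G) c = o := congrArg Subtype.val e
  rw [mul_assoc, inv_mul_eq_iff_eq_mul] at e'
  rw [cn_mul', e']

section Rho

variable {A N : Subgroup G} {ρ : G → Perm (Fin 7)} (h : Rho A N ρ)
include h

/-- `ρ` as a homomorphism on a subgroup of `N` -/
def hom {V : Subgroup G} (hV : V ≤ N) : V →* Perm (Fin 7) :=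
  MonoidHom.mk' (fun v => ρ v) fun a b => h.mul _ (hV a.2) _ (hV b.2)

omit h in
theorem eqns_hom : True := by
  have := @hom.eq_1.{0}
  trivial

theorem conj (τ : Perm (Fin 7)) : Rho A N fun g => cn (ρ g) τ where
  AN := h.AN
  nrm := h.nrm
  perf := h.perf
  mul c hc d hd := by rw [h.mul c hc d hd, cn_mul']
  ker c hc := by rw [← h.ker c hc]; simp [cn, inv_mul_eq_iff_eq_mul, mul_assoc]
  sgn a ha := by simp [cn, h.sgn a ha]
  srj σ hσ := by
    obtain ⟨a, ha, e⟩ := h.srj (τ * σ * τ⁻¹) (by simp [hσ])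
    exact ⟨a, ha, by rw [e, cn]; group⟩
  odd a ha e := h.odd a ha (by simpa [cn, inv_mul_eq_iff_eq_mul, mul_assoc] using e)

theorem ρ_one : ρ 1 = 1 := (h.ker 1 (one_mem _)).2 (one_mem _)

theorem ρ_inv {c : G} (hc : c ∈ N) : ρ c⁻¹ = (ρ c)⁻¹ := map_inv (hom h le_rfl) ⟨c, hc⟩

theorem ρ_cn {c d : G} (hc : c ∈ N) (hd : d ∈ N) : ρ (cn c d) = cn (ρ c) (ρ d) := by
  rw [cn, h.mul _ (mul_mem (inv_mem hd) hc) _ hd, h.mul _ (inv_mem hd) _ hc, ρ_inv h hd]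

theorem ρ_comm {c d : G} (hc : c ∈ N) (hd : d ∈ N) (e : Commute c d) : Commute (ρ c) (ρ d) := by
  rw [Commute, SemiconjBy, ← h.mul c hc d hd, e.eq, h.mul d hd c hc]

theorem ρ_sq {c : G} (hc : c ∈ N) (e : c * c = 1) : ρ c * ρ c = 1 := by
  rw [← h.mul c hc c hc, e, ρ_one h]

theorem ρ_ne {z : G} (hz : z ∈ A) (zz : z * z = 1) (z1 : z ≠ 1) : ρ z ≠ 1 := fun e =>
  absurd (order_inv zz z1 ▸ h.odd z hz e) (by decide)

/-- an element of `N` commutes with an involution of `A` if the images commute -/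
theorem comm_of {x v : G} (hx : x ∈ N) (hv : v ∈ A) (vv : v * v = 1)
    (e : Commute (ρ x) (ρ v)) : Commute x v := by
  have h1 : cn v x ∈ A := cn_mem (h.nrm hx) hv
  have h2 : v⁻¹ * cn v x ∈ A := mul_mem (inv_mem hv) h1
  have h3 : ρ (v⁻¹ * cn v x) = 1 := by
    rw [h.mul _ (h.AN (inv_mem hv)) _ (h.AN h1), ρ_inv h (h.AN hv), ρ_cn h (h.AN hv) hx,
      cn_comm e.symm, inv_mul_cancel]
  have h4 : Commute v (v⁻¹ * cn v x) := (h.ker _ (h.AN h2)).1 h3 v hv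
  have h5 : (v⁻¹ * cn v x) ^ 2 = 1 := by
    have := h4.mul_pow 2
    rw [mul_inv_cancel_left, pow_two, ← cn_mul', vv, pow_two v, vv, one_mul] at this
    rw [← this, cn]; group
  have h6 := (h.odd _ h2 h3).coprime_two_right.eq_one_of_dvd (orderOf_dvd_of_pow_eq_one h5)
  exact Commute.symm (comm_of_cn (inv_mul_eq_one.1 (orderOf_eq_one_iff.1 h6)).symm)

theorem odd_Z : Odd (Nat.card ↥(A ⊓ centralizer (A : Set G))) := by
  by_contra e
  haveI : Fact (Nat.Prime 2) := ⟨Nat.prime_two⟩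
  obtain ⟨⟨k, hk⟩, h1⟩ :=
    exists_prime_orderOf_dvd_card' 2 (even_iff_two_dvd.1 (Nat.not_odd_iff_even.1 e))
  rw [orderOf_mk] at h1
  exact absurd (h1 ▸ h.odd k hk.1 ((h.ker k (h.AN hk.1)).2 hk.2)) (by decide)

theorem lift {f : G} (hf : f ∈ N) (ff : f * f = 1) {σ : Perm (Fin 7)} (s : Perm.sign σ = 1)
    (c : Commute σ (ρ f)) : ∃ x ∈ A, ρ x = σ ∧ Commute x f := by
  obtain ⟨x, hx, rfl⟩ := h.srj σ s
  have h1 : cn x f ∈ A := cn_mem (h.nrm hf) hx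
  have h2 : x⁻¹ * cn x f ∈ A := mul_mem (inv_mem hx) h1
  obtain ⟨o, ho, e⟩ := lift_fix (odd_Z h) (le_normalizer_inf h.nrm
    (h.nrm.trans (normalizer_le_normalizer_centralizer A)) hf) ff ⟨h2, (h.ker _ (h.AN h2)).1 (by
      rw [h.mul _ (h.AN (inv_mem hx)) _ (h.AN h1), ρ_inv h (h.AN hx), ρ_cn h (h.AN hx) hf,
        cn_comm c, inv_mul_cancel])⟩
  exact ⟨_, mul_mem hx ho.1, by
    rw [h.mul _ (h.AN hx) _ (h.AN ho.1), (h.ker _ (h.AN ho.1)).2 ho.2, mul_one], e⟩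

theorem eight : 8 ∣ Nat.card A := by
  have h1 : (hom h h.AN).range = alternatingGroup (Fin 7) := by
    ext σ
    exact ⟨by rintro ⟨a, rfl⟩; exact h.sgn a a.2, fun e => by
      obtain ⟨a, ha, e⟩ := h.srj σ e
      exact ⟨⟨a, ha⟩, e⟩⟩
  refine Dvd.dvd.trans ?_ (card_range_dvd (hom h h.AN))
  rw [h1, nat_card_alternatingGroup]
  simp [Nat.factorial]

theorem card_eq {V : Subgroup G} (hV : V ≤ N) :
    Nat.card ↥(centralizer (A : Set G) ⊓ V) * Nat.card (hom h hV).range = Nat.card V := by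
  rw [← H3.card_inf_mul_relIndex (centralizer (A : Set G)) V, ← index_ker, relIndex]
  congr 2
  ext v
  exact h.ker v (hV v.2)

/-- the counting lemma -/
theorem count {V V' : Subgroup G} (hV : V ≤ N) (hV' : V' ≤ N)
    (hK : centralizer (A : Set G) ⊓ V' ≤ V) {p : ℕ} (hp : p.Prime) {c : G} (hc : c ∈ V)
    (o : orderOf (ρ c) = p) (no : ∀ d ∈ V', orderOf (ρ d) ≠ p) : Nat.card V ≠ Nat.card V' := by
  intro e
  haveI := Fact.mk hp
  obtain ⟨m, hm⟩ := card_dvd_of_le (le_inf inf_le_left hK)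
  rw [← card_eq h hV, ← card_eq h hV', hm, mul_assoc] at e
  have h1 : p ∣ Nat.card (hom h hV').range := by
    rw [← Nat.eq_of_mul_eq_mul_left Nat.card_pos e, ← o]
    exact Dvd.dvd.mul_left (orderOf_dvd_natCard _ (⟨⟨c, hc⟩, rfl⟩ : ρ c ∈ (hom h hV).range)) m
  obtain ⟨⟨w, hw⟩, h2⟩ := exists_prime_orderOf_dvd_card' p h1
  rw [orderOf_mk] at h2
  obtain ⟨d, rfl⟩ := hw
  exact no d d.2 h2

theorem mem_A {L T : Subgroup G} {a b z : G} (aa : a * a = 1) (bb : b * b = 1) (zz : z * z = 1)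
    (ab : cn a b = a * z) (syl : IsSyl 2 T N) (Ln : N ≤ normalizer (L : Set G))
    (LiT : L ⊓ T = closure {a, b}) (CL : ∀ c ∈ N, ∃ l ∈ L, ∃ u ∈ T, c = l * u) :
    a ∈ A ∧ b ∈ A ∧ z ∈ A := by
  haveI : Fact (Nat.Prime 2) := ⟨Nat.prime_two⟩
  have h1 := (syl.inf_of_le_normalizer h.AN h.nrm).not_dvd_relIndex
  have h2 := eight h
  rw [← H3.card_inf_mul_relIndex (T ⊓ A) A, inf_assoc, inf_idem] at h2
  have h3 : 8 ∣ Nat.card ↥(T ⊓ A) := Nat.Coprime.dvd_of_dvd_mul_right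
    (((Nat.Prime.coprime_iff_not_dvd Nat.prime_two).2 h1).pow_left 3) h2
  have h4 : T ⊓ A = closure {a, b} := eq_of_le_of_card_ge
    (LiT ▸ le_inf (inf_le_right.trans (perf_le h.perf h.AN Ln syl.isPGroup syl.le CL)) inf_le_left)
    ((card_D aa bb zz ab).trans (Nat.le_of_dvd Nat.card_pos h3))
  have ha : a ∈ A := (h4.ge (subset_closure (by simp))).2
  have hb : b ∈ A := (h4.ge (subset_closure (by simp))).2
  exact ⟨ha, hb, by simpa [ab] using mul_mem (inv_mem ha) (cn_mem (le_normalizer hb) ha)⟩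

end Rho

theorem memC {t c : G} : c ∈ centralizer ({t} : Set G) ↔ Commute t c := by
  rw [mem_centralizer_singleton_iff]; exact eq_comm

theorem C_le {t : G} {U : Set G} : centralizer (insert t U) ≤ centralizer ({t} : Set G) :=
  centralizer_le (by simp)

theorem mem3 {t z a c : G} :
    c ∈ centralizer ({t, z, a} : Set G) ↔ Commute t c ∧ Commute z c ∧ Commute a c := by
  simp only [mem_centralizer_iff, Set.mem_insert_iff, Set.mem_singleton_iff, forall_eq_or_imp,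
    forall_eq]
  rfl

theorem mem2 {t a c : G} : c ∈ centralizer ({t, a} : Set G) ↔ Commute t c ∧ Commute a c := by
  simp only [mem_centralizer_iff, Set.mem_insert_iff, Set.mem_singleton_iff, forall_eq_or_imp,
    forall_eq]
  rfl

/-- the count with the prime three -/
theorem count3 {A : Subgroup G} {t z a v : G} {ρ : G → Perm (Fin 7)}
    (h : Rho A (centralizer {t}) ρ) (hz : z ∈ A) (zz : z * z = 1) (e : ρ z = z7) (ha : a ∈ A)
    (aa : a * a = 1) (hv : Commute t v) (c1 : y7 * ρ a = ρ a * y7) (c2 : y7 * ρ v ≠ ρ v * y7) :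
    cc {t, z, a} ≠ cc {t, z, v} := by
  obtain ⟨y, hy, ey⟩ := h.srj y7 y7_facts.1
  haveI : Fact (Nat.Prime 3) := ⟨Nat.prime_three⟩
  refine count h C_le C_le (fun k hk => mem3.2 ⟨(mem3.1 hk.2).1, hk.1 z hz, hk.1 a ha⟩)
    Nat.prime_three (c := y) (mem3.2 ⟨memC.1 (h.AN hy),
      (comm_of h (h.AN hy) hz zz (by rw [ey, e]; exact y7_facts.2.2.2)).symm,
      (comm_of h (h.AN hy) ha aa (by rw [ey]; exact c1)).symm⟩)
    (ey ▸ orderOf_eq_prime y7_facts.2.1 y7_facts.2.2.1) fun d hd o => c2 ?_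
  obtain ⟨d1, d2, d3⟩ := mem3.1 hd
  exact no3 o (e ▸ ρ_comm h (h.AN hz) (memC.2 d1) d2) (ρ_comm h (memC.2 hv) (memC.2 d1) d3)

/-- the normal form of the frame -/
theorem nf (h : Base G) {a b z : G} (ha : a ∈ h.A) (hb : b ∈ h.A) (hz : z ∈ h.A) (aa : a * a = 1)
    (bb : b * b = 1) (zz : z * z = 1) (z1 : z ≠ 1) (ab : cn a b = a * z) (za : Commute z a)
    (zb : Commute z b) : ∃ ρ, Rho h.A (centralizer {h.t}) ρ ∧ (∀ c, ρ c = 1 → h.ρ c = 1) ∧
      ρ z = z7 ∧ ρ a ∈ e7 ∧ ρ b ∈ e7 ∧ ρ a * ρ b = ρ b * (ρ a * z7) := by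
  obtain ⟨τ, e⟩ := conj_z7 (h.rho.sgn z hz) (ρ_sq h.rho (h.rho.AN hz) zz) (ρ_ne h.rho hz zz z1)
  have r := conj h.rho τ
  refine ⟨_, r, fun c hc => by simpa [cn, inv_mul_eq_iff_eq_mul, mul_assoc] using hc, e,
    mem_e7 (e ▸ (ρ_comm r (r.AN hz) (r.AN ha) za).symm.eq) (ρ_sq r (r.AN ha) aa) (r.sgn a ha),
    mem_e7 (e ▸ (ρ_comm r (r.AN hz) (r.AN hb) zb).symm.eq) (ρ_sq r (r.AN hb) bb) (r.sgn b hb), ?_⟩
  have := ρ_cn r (r.AN ha) (r.AN hb)
  rw [ab, r.mul _ (r.AN ha) _ (r.AN hz)] at this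
  rw [← e, this]
  simp only [cn]
  group

theorem pre_A (p : Pre G) : p.a ∈ p.A ∧ p.b ∈ p.A ∧ p.z ∈ p.A :=
  mem_A p.rho p.aa p.bb p.zz p.ab p.syl p.Ln p.LiT p.CL

theorem c1_A (p : C1 G) : p.a ∈ p.A ∧ p.b ∈ p.A ∧ p.z ∈ p.A :=
  mem_A p.rho p.aa p.bb p.zz p.ab p.syl p.Ln p.LiT p.CL

/-- the image of `f` -/
theorem nf_f (k : Hyp G) : ∃ ρ, Rho k.A (centralizer {k.t}) ρ ∧ ρ k.z = z7 ∧
    ((y7 * ρ k.a = ρ k.a * y7 ∧ y7 * ρ k.b ≠ ρ k.b * y7) ∨
      (y7 * ρ k.b = ρ k.b * y7 ∧ y7 * ρ k.a ≠ ρ k.a * y7)) ∧ Commute k.f k.z ∧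
    y7 * ρ k.f ≠ ρ k.f * y7 ∧ ∃ p ∈ [((4 : Fin 7), (5 : Fin 7)), (4, 6), (5, 6)],
      ρ k.f = swap p.1 p.2 ∨ ρ k.f * z7 = swap p.1 p.2 := by
  obtain ⟨ha, hb, hz⟩ := pre_A k.toPre
  obtain ⟨ρ, r, r1, e, m1, m2, m3⟩ := nf k.toBase ha hb hz k.aa k.bb k.zz k.z1 k.ab k.za k.zb
  have ez : k.z = k.a⁻¹ * cn k.a k.b := by rw [k.ab, inv_mul_cancel_left]
  have fz : Commute k.f k.z :=
    ez ▸ k.fa.inv_right.mul_right ((k.fb.inv_right.mul_right k.fa).mul_right k.fb)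
  have hf := memC.2 k.tf
  have two : ∀ c, Commute k.t c → c * c = 1 → ρ c = 1 → c = 1 ∨ c = k.t := fun c c1 c2 c3 =>
    k.two (zpowers c) (by
      haveI : Fact (Nat.Prime 2) := ⟨Nat.prime_two⟩
      exact IsPGroup.of_card_dvd_pow (n := 1)
        (by rw [Nat.card_zpowers]; exact orderOf_dvd_of_pow_eq_one (by rw [pow_one, pow_two, c2])))
      (zpowers_le.2 (memC.2 c1)) c (mem_zpowers c) (r1 c c3)
  have zL : k.z ∈ k.L := by
    have h1 : k.a ∈ k.L := (k.LiT.ge (subset_closure (by simp))).1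
    have h2 : k.b ∈ k.L := (k.LiT.ge (subset_closure (by simp))).1
    exact ez ▸ mul_mem (inv_mem h1) (cn_mem (le_normalizer h2) h1)
  have cz := (e ▸ ρ_comm r hf (r.AN hz) fz).eq
  obtain ⟨p1, p2⟩ := pair7 _ m1 _ m2 m3
  refine ⟨ρ, r, e, p1, fz, p2 _ (List.mem_append.2 (mem_l7 _ cz (ρ_sq r hf k.ff)))
    (ρ_comm r hf (r.AN ha) k.fa) (ρ_comm r hf (r.AN hb) k.fb) (fun l => ?_) fun l => ?_⟩
  · rcases two _ k.tf k.ff l with l | l
    · exact k.fL (l ▸ one_mem _)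
    · exact k.tfL (by rw [l, k.tt]; exact one_mem _)
  · rcases two (k.f * k.z) (k.tf.mul_right (memC.1 (r.AN hz)))
      (by rw [fz.symm.mul_mul_mul_comm, k.ff, k.zz, one_mul])
      (by rw [r.mul _ hf _ (r.AN hz), e, l]) with l | l
    · exact k.fL (eq_inv_of_mul_eq_one_left l ▸ inv_mem zL)
    · refine k.tfL ?_
      rw [← l, mul_assoc, ← fz.eq, ← mul_assoc, k.ff, one_mul]
      exact zL

/-- **E** -/
theorem eS : EStmt.{u} := by
  intro G _ _ p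
  obtain ⟨ha, hb, hz⟩ := pre_A p
  have r := p.rho
  refine p.he'.resolve_right fun ⟨e1, e2, _⟩ => ?_
  have he := memC.2 p.te
  have ez : p.z = p.a⁻¹ * cn p.a p.b := by rw [p.ab, inv_mul_cancel_left]
  have e3 : cn p.z p.e = p.z := by
    calc cn p.z p.e = (cn p.a p.e)⁻¹ * cn (cn p.a p.e) (cn p.b p.e) := by
          rw [ez]; simp only [cn]; group
      _ = p.z⁻¹ := by
        rw [e1, e2, ez]
        simp only [cn, mul_inv_rev, inv_inv, inv_eq_of_mul_eq_one_right p.aa,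
          inv_eq_of_mul_eq_one_right p.bb, mul_assoc]
      _ = p.z := inv_eq_of_mul_eq_one_right p.zz
  refine (s7_facts (r.sgn _ ha) (r.sgn _ hb) (r.sgn _ hz) (ρ_sq r (r.AN ha) p.aa)
    (ρ_sq r (r.AN hb) p.bb) (ρ_sq r (r.AN hz) p.zz) (ρ_ne r hz p.zz p.z1) ?_
    (ρ_comm r (r.AN hz) (r.AN ha) p.za) (ρ_comm r (r.AN hz) (r.AN hb) p.zb)).1 (p.ρ p.e) ?_ ?_ ?_
  · rw [← ρ_cn r (r.AN ha) (r.AN hb), p.ab, r.mul _ (r.AN ha) _ (r.AN hz)]
  · rw [← ρ_cn r (r.AN ha) he, e1]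
  · rw [← ρ_cn r (r.AN hb) he, e2]
  · rw [← ρ_cn r (r.AN hz) he, e3]

/-- **N1** -/
theorem n1 : N1Stmt.{u} := by
  intro G _ _ k
  obtain ⟨ha, hb, hz⟩ := c1_A k
  obtain ⟨ρ, r, -, e, m1, m2, m3⟩ := nf k.toBase ha hb hz k.aa k.bb k.zz k.z1 k.ab k.za k.zb
  rcases (pair7 _ m1 _ m2 m3).1 with ⟨c1, c2⟩ | ⟨c1, c2⟩
  · exact count3 r hz k.zz e ha k.aa k.tb c1 c2
  · exact (count3 r hz k.zz e hb k.bb k.ta c1 c2).symm

/-- **N3** -/
theorem n3 : N3Stmt.{u} := by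
  intro G _ _ k
  obtain ⟨ha, hb, hz⟩ := pre_A k.toPre
  obtain ⟨ρ, r, e, p1, -, p2, -⟩ := nf_f k
  have hf := memC.2 k.tf
  rcases p1 with ⟨c1, -⟩ | ⟨c1, -⟩
  · refine .inl (count3 r hz k.zz e ha k.aa (k.ta.mul_right k.tf) c1 fun l => p2 ?_)
    rw [r.mul _ (r.AN ha) _ hf] at l
    simpa [commute_iff_eq] using (Commute.inv_right c1).mul_right l
  · refine .inr (count3 r hz k.zz e hb k.bb ((k.tb.mul_right k.tf).mul_right (memC.1 (r.AN hz))) c1
      fun l => p2 ?_)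
    rw [r.mul _ (mul_mem (r.AN hb) hf) _ (r.AN hz), r.mul _ (r.AN hb) _ hf, e] at l
    simpa [commute_iff_eq] using (Commute.inv_right c1).mul_right
      (Commute.mul_right l (Commute.inv_right y7_facts.2.2.2))

/-- the count with the prime five -/
theorem count5 {A : Subgroup G} {t z f : G} {ρ : G → Perm (Fin 7)}
    (h : Rho A (centralizer {t}) ρ) (hz : z ∈ A) (e : ρ z = z7) (tf : Commute t f)
    (ff : f * f = 1) {p : Fin 7 × Fin 7} (hp : p ∈ [((4 : Fin 7), (5 : Fin 7)), (4, 6), (5, 6)])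
    (ef : ρ f = swap p.1 p.2) : cc {t, f} ≠ cc {t, f * z} := by
  obtain ⟨σ, o, c⟩ := five7 (i := p.1) (j := p.2) (by clear ef; revert p; decide)
  have hf := memC.2 tf
  obtain ⟨x, hx, ex, cx⟩ := lift h hf ff (σ := σ) (by
    have : σ ^ 5 = 1 := by rw [← o, pow_orderOf_eq_one]
    have := congrArg Perm.sign this
    rcases Int.units_eq_one_or (Perm.sign σ) with l | l
    · exact l
    · rw [map_pow, l, map_one] at this
      exact absurd this (by decide)) (ef ▸ c)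
  refine count h C_le C_le (fun k hk => mem2.2 ⟨(mem2.1 hk.2).1, ?_⟩) Nat.prime_five (c := x)
    (mem2.2 ⟨memC.1 (h.AN hx), cx.symm⟩) (ex ▸ o) fun d hd o => no5 o hp ?_
  · simpa using (mem2.1 hk.2).2.mul_left (Commute.inv_left (hk.1 z hz))
  · rw [← ef, ← e, ← h.mul _ hf _ (h.AN hz)]
    exact ρ_comm h (mul_mem hf (h.AN hz)) (memC.2 (mem2.1 hd).1) (mem2.1 hd).2

/-- **N2** -/
theorem n2 : N2Stmt.{u} := by
  intro G _ _ k
  obtain ⟨-, -, hz⟩ := pre_A k.toPre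
  obtain ⟨ρ, r, e, -, fz, -, p, hp, l | l⟩ := nf_f k
  · exact count5 r hz e k.tf k.ff hp l
  · have := count5 (f := k.f * k.z) r hz e (k.tf.mul_right (memC.1 (r.AN hz)))
      (by rw [fz.symm.mul_mul_mul_comm, k.ff, k.zz, one_mul]) hp
      (by rw [r.mul _ (memC.2 k.tf) _ (r.AN hz), e, l])
    rw [mul_assoc, k.zz, mul_one] at this
    exact this.symm

set_option linter.all false in
theorem eqns_N7F : True := by
  first | (have := @_root_.Cfsg.Agent.H83.N7F.hom.eq_def.{0,0,0,0}) | (have := @_root_.Cfsg.Agent.H83.N7F.hom.eq_def.{0,0,0}) | (have := @_root_.Cfsg.Agent.H83.N7F.hom.eq_def.{0,0}) | (have := @_root_.Cfsg.Agent.H83.N7F.hom.eq_def.{0}) | (have := @_root_.Cfsg.Agent.H83.N7F.hom.eq_def) | skip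
  first | (have := @_root_.Cfsg.Agent.H83.N7F.hom.eq_1.{0,0,0,0}) | (have := @_root_.Cfsg.Agent.H83.N7F.hom.eq_1.{0,0,0}) | (have := @_root_.Cfsg.Agent.H83.N7F.hom.eq_1.{0,0}) | (have := @_root_.Cfsg.Agent.H83.N7F.hom.eq_1.{0}) | (have := @_root_.Cfsg.Agent.H83.N7F.hom.eq_1) | skip
  first | (have := @_root_.Cfsg.Agent.H83.N7F.hom.eq_2.{0,0,0,0}) | (have := @_root_.Cfsg.Agent.H83.N7F.hom.eq_2.{0,0,0}) | (have := @_root_.Cfsg.Agent.H83.N7F.hom.eq_2.{0,0}) | (have := @_root_.Cfsg.Agent.H83.N7F.hom.eq_2.{0}) | (have := @_root_.Cfsg.Agent.H83.N7F.hom.eq_2) | skip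
  first | (have := @_root_.Cfsg.Agent.H83.N7F.hom.congr_simp.{0,0,0,0}) | (have := @_root_.Cfsg.Agent.H83.N7F.hom.congr_simp.{0,0,0}) | (have := @_root_.Cfsg.Agent.H83.N7F.hom.congr_simp.{0,0}) | (have := @_root_.Cfsg.Agent.H83.N7F.hom.congr_simp.{0}) | (have := @_root_.Cfsg.Agent.H83.N7F.hom.congr_simp) | skip
  trivial

end Cfsg.Agent.H83.N7F
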