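import Cfsg.Agent.H42.PcDefs

/-! Project PC, piece W: a chief factor at the top of a normal `2`-subgroup. -/

set_option autoImplicit false

namespace Cfsg.Agent.H83.PcW

open Subgroup Cfsg.Agent.H42.Pc

universe u

theorem cen {Q : Type u} [Group Q] [Finite Q] (U Z : Subgroup Q) [Z.Normal] (hU : IsPGroup 2 U)
    (hle : Z ≤ U) (hne : Z ≠ ⊥) : ∃ x ∈ Z, x ≠ 1 ∧ x * x = 1 ∧ ∀ a ∈ U, a * x = x * a := by
  haveI : Fact (Nat.Prime 2) := ⟨Nat.prime_two⟩
  have dv : ∀ C : Subgroup Q, C ≤ U → C ≠ ⊥ → 2 ∣ Nat.card C := by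
    intro C hC hb
    obtain ⟨n, hn⟩ := IsPGroup.iff_card.1 (hU.to_le hC)
    rcases n with _ | n
    · exact absurd (eq_bot_of_card_eq C (by simpa using hn)) hb
    · rw [hn]; exact dvd_pow_self 2 (Nat.succ_ne_zero n)
  letI : MulAction U Z := MulAction.compHom Z ((MulAut.conjNormal (H := Z)).comp U.subtype)
  have h1 : (1 : Z) ∈ MulAction.fixedPoints U Z := fun g =>
    map_one (MulAut.conjNormal (H := Z) (g : Q))
  obtain ⟨y, hy, hy1⟩ := hU.exists_fixed_point_of_prime_dvd_card_of_fixed_point Z (dv Z hle hne) h1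
  have hyc : (y : Q) ∈ Z ⊓ centralizer (U : Set Q) := by
    refine ⟨y.2, mem_centralizer_iff.2 fun a ha => ?_⟩
    have : a * y * a⁻¹ = y := congrArg Subtype.val (hy ⟨a, ha⟩)
    exact mul_inv_eq_iff_eq_mul.1 this
  have hC : Z ⊓ centralizer (U : Set Q) ≠ ⊥ := by
    intro e
    rw [e, mem_bot] at hyc
    exact hy1 (Subtype.ext hyc.symm)
  obtain ⟨x, hx⟩ := exists_prime_orderOf_dvd_card' 2 (dv _ (inf_le_left.trans hle) hC)
  refine ⟨x, x.2.1, fun e => ?_, ?_, fun a ha => mem_centralizer_iff.1 x.2.2 a ha⟩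
  · have : x = 1 := Subtype.ext e
    rw [this, orderOf_one] at hx
    exact absurd hx (by decide)
  · have := pow_orderOf_eq_one x
    rw [hx, pow_two] at this
    exact congrArg Subtype.val this

theorem ww : WStmt.{u} := by
  intro G _ _ U Z nU nZ hU hle hne
  obtain ⟨W, ⟨nW, hWZ, hZW⟩, hmax⟩ :=
    (Set.toFinite {W : Subgroup G | W.Normal ∧ W ≤ Z ∧ ¬ Z ≤ W}).exists_maximal
      ⟨⊥, inferInstance, bot_le, fun h => hne (le_bot_iff.1 h)⟩
  refine ⟨W, nW, hWZ, hZW, ?_⟩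
  let π := QuotientGroup.mk' W
  have hπ : ∀ g : G, π g = 1 ↔ g ∈ W := fun g => QuotientGroup.eq_one_iff g
  have cm : ∀ x a : G, x⁻¹ * (a * x * a⁻¹) ∈ W ↔ π a * π x = π x * π a := by
    intro x a
    rw [← hπ, map_mul, map_mul, map_mul, map_inv, map_inv, inv_mul_eq_one, eq_comm,
      mul_inv_eq_iff_eq_mul]
  let D : Subgroup G :=
    { carrier := {x | x ∈ Z ∧ π x * π x = 1 ∧ ∀ a ∈ U, π a * π x = π x * π a}
      one_mem' := ⟨one_mem _, by simp, by simp⟩
      mul_mem' := by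
        rintro x y ⟨x1, x2, x3⟩ ⟨y1, y2, y3⟩
        refine ⟨mul_mem x1 y1, ?_, fun a ha => ?_⟩
        · rw [map_mul, mul_assoc, ← mul_assoc (π y), x3 y (hle y1), mul_assoc, y2, mul_one, x2]
        · rw [map_mul, ← mul_assoc, x3 a ha, mul_assoc, y3 a ha, mul_assoc]
      inv_mem' := by
        rintro x ⟨x1, x2, x3⟩
        refine ⟨inv_mem x1, ?_, fun a ha => ?_⟩
        · rw [map_inv, ← mul_inv_rev, x2, inv_one]
        · rw [map_inv]; exact (Commute.inv_right (x3 a ha)).eq }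
  have nD : D.Normal := by
    constructor
    rintro x ⟨x1, x2, x3⟩ g
    refine ⟨nZ.conj_mem x x1 g, ?_, fun a ha => ?_⟩
    · rw [map_mul, map_mul, map_inv, conj_mul, x2]; simp
    · have := x3 _ (nU.conj_mem a ha g⁻¹)
      simp only [map_mul, map_inv, inv_inv] at this ⊢
      calc π a * (π g * π x * (π g)⁻¹) = π g * ((π g)⁻¹ * π a * π g * π x) * (π g)⁻¹ := by group
        _ = _ := by rw [this]; group
  have hWD : W ≤ D := fun x hx => by
    have := (hπ x).2 hx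
    exact ⟨hWZ hx, by rw [this, mul_one], fun a _ => by rw [this, mul_one, one_mul]⟩
  have hZD : Z ≤ D := by
    by_contra hc
    have hDW : D ≤ W := hmax ⟨nD, fun x hx => hx.1, hc⟩ hWD
    haveI : (Z.map π).Normal := nZ.map π (QuotientGroup.mk'_surjective W)
    obtain ⟨_, ⟨x, hx, rfl⟩, x1, x2, x3⟩ := cen (U.map π) (Z.map π) (hU.map π) (map_mono hle) (by
      intro e
      apply hZW
      intro x hx
      rw [← hπ, ← mem_bot, ← e]
      exact mem_map_of_mem π hx)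
    exact x1 ((hπ x).2 (hDW ⟨hx, x2, fun a ha => x3 _ (mem_map_of_mem π ha)⟩))
  intro x hx
  obtain ⟨-, x2, x3⟩ := hZD hx
  exact ⟨by rw [← hπ, map_mul, x2], fun a ha => (cm x a).2 (x3 a ha)⟩

set_option linter.all false in
theorem eqns_PcW : True := by
  trivial

end Cfsg.Agent.H83.PcW
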