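import Cfsg.Agent.H79.RbDefs

/-! Project RB (S4578), pieces `Ix1Stmt`, `Ix2Stmt`: characters and subgroups of index two. -/

set_option autoImplicit false

open Cfsg Finset Cfsg.Agent.H11 Cfsg.Agent.H79.RB
open scoped ComplexConjugate

namespace Cfsg.Agent.H83.RbI

variable {G : Type*} [Group G] {N : Subgroup G}

open Classical in
/-- The sign function of a subgroup. -/
noncomputable def sg (N : Subgroup G) (g : G) : ℂ := if g ∈ N then 1 else -1

theorem eqns_sg : True := by
  have := @sg.eq_1.{0}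
  trivial

theorem sg_mem {g : G} (h : g ∈ N) : sg N g = 1 := if_pos h

theorem sg_not {g : G} (h : g ∉ N) : sg N g = -1 := if_neg h

theorem sg_irr (h : N.index = 2) : IsIrrCharacter G (sg N) := by
  refine isIrrCharacter_of_map_mul (sg_mem N.one_mem) fun a b => ?_
  have hm := Subgroup.mul_mem_iff_of_index_two h (a := a) (b := b)
  by_cases ha : a ∈ N <;> by_cases hb : b ∈ N
  · rw [sg_mem ha, sg_mem hb, sg_mem (N.mul_mem ha hb), mul_one]
  · rw [sg_mem ha, sg_not hb, sg_not (by rw [hm]; tauto), one_mul]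
  · rw [sg_not ha, sg_mem hb, sg_not (by rw [hm]; tauto), mul_one]
  · rw [sg_not ha, sg_not hb, sg_mem (by rw [hm]; tauto)]
    ring

theorem conj_sg (g : G) : conj (sg N g) = sg N g := by
  by_cases h : g ∈ N
  · rw [sg_mem h, map_one]
  · rw [sg_not h, map_neg, map_one]

theorem inner_res [Fintype G] [Fintype N] (h : N.index = 2) (φ ψ : G → ℂ) :
    classInner (fun n : N => φ n) (fun n : N => ψ n) =
      classInner φ ψ + classInner (φ * sg N) ψ := by
  classical
  have h1 : (Nat.card G : ℂ) = 2 * Nat.card N := by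
    rw [← N.index_mul_card, h]
    push_cast
    rfl
  have h2 : (Nat.card N : ℂ) ≠ 0 := by exact_mod_cast Nat.card_pos.ne'
  have h3 : ∑ n : N, φ n * conj (ψ n) = ∑ g ∈ univ.filter (· ∈ N), φ g * conj (ψ g) :=
    (Finset.sum_subtype (p := (· ∈ N)) _ (by simp) fun g => φ g * conj (ψ g)).symm
  have h4 : ∑ g : G, (φ g * conj (ψ g) + (φ * sg N) g * conj (ψ g)) =
      2 * ∑ g ∈ univ.filter (· ∈ N), φ g * conj (ψ g) := by
    rw [sum_filter, mul_sum]
    refine sum_congr rfl fun g _ => ?_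
    by_cases hg : g ∈ N
    · rw [if_pos hg, Pi.mul_apply, sg_mem hg]
      ring
    · rw [if_neg hg, Pi.mul_apply, sg_not hg]
      ring
  simp only [classInner]
  rw [← mul_add, ← sum_add_distrib, h4, h3, h1]
  field_simp

theorem mul_sg_irr [Finite G] (h : N.index = 2) (θ : IrrCharacter G) :
    IsIrrCharacter G (θ.1 * sg N) :=
  isIrrCharacter_mul_linear θ.2 (isCharacter_of_irr (sg_irr h)) (sg_mem N.one_mem)

/-- Restriction of an irreducible character to a subgroup of index two. -/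
theorem dich [Finite G] (h : N.index = 2) {θ : IrrCharacter G} {η : IrrCharacter N}
    (ho : H22.Over N θ.1 η.1) {s : G} (hs : s ∉ N) :
    (θ.1 * sg N ≠ θ.1 ∧ ∀ y : N, θ.1 y = η.1 y) ∨
      (θ.1 * sg N = θ.1 ∧ ∀ y y' : N, (y' : G) = s * y * s⁻¹ → θ.1 y = η.1 y + η.1 y') := by
  have := Fintype.ofFinite G
  have := Fintype.ofFinite N
  have hN : N.Normal := Subgroup.normal_of_index_eq_two h
  have hc : IsCharacter N fun n : N => θ.1 n := isCharacter_restrict (irr_isCharacter θ) N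
  have h2 := inner_res h θ.1 θ.1
  rw [classInner_irr_self θ.2] at h2
  by_cases e : θ.1 * sg N = θ.1
  · refine Or.inr ⟨e, ?_⟩
    rw [e, classInner_irr_self θ.2] at h2
    have ho' := ho
    rw [H22.over_iff] at ho'
    have h1 := isCharacter_sub_irr hc η.2 ho'
    obtain ⟨m, hm⟩ := exists_nat_classInner hc (isCharacter_of_irr η.2)
    have hm' : classInner η.1 (fun n : N => θ.1 n) = m := by
      rw [← conj_classInner, hm]; simp
    obtain ⟨k, hk⟩ := exists_nat_classInner h1 h1
    have h3 := hk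
    rw [classInner_sub_left, classInner_sub_right, classInner_sub_right, h2, hm, hm',
      classInner_irr_self η.2] at h3
    have h4 : k + 2 * m = 3 := by
      have : (k : ℂ) + 2 * m = 3 := by rw [← h3]; ring
      exact_mod_cast this
    have hm0 : m ≠ 0 := by
      rintro rfl
      exact ho' (by simpa using hm)
    have hk1 : k = 1 := by omega
    have hm1 : m = 1 := by omega
    have h5 := isIrrCharacter_of_classInner_self h1 (by rw [hk, hk1]; simp)
    have h6 : H22.Over N θ.1 (⟨_, h5⟩ : IrrCharacter N).1 := by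
      rw [H22.over_iff, classInner_sub_right, h2, hm, hm1]
      norm_num
    obtain ⟨g, hg⟩ := H22.exists_cjIrr_of_over N ho h6
    have hgN : g ∉ N := by
      intro hgN
      rw [H22.cjIrr_of_mem N hgN] at hg
      have h7 : classInner η.1 η.1 = classInner ((fun n : N => θ.1 n) - η.1) η.1 :=
        congrArg (fun f : IrrCharacter N => classInner f.1 η.1) hg
      rw [classInner_sub_left, hm, hm1, classInner_irr_self η.2] at h7
      norm_num at h7
    have hsg : s * g ∈ N := by
      rw [Subgroup.mul_mem_iff_of_index_two h]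
      tauto
    have h8 : H22.cjIrr N s⁻¹ η = ⟨_, h5⟩ := by
      rw [← hg, ← H22.cjIrr_of_mem N hsg η, ← H22.cjIrr_mul, H22.cjIrr_of_mem N hsg η,
        inv_mul_cancel_left]
    intro y y' hy
    have h9 := congrFun (congrArg Subtype.val h8) y
    rw [H22.cjIrr_inv_apply] at h9
    have h10 : y' = ⟨s * y * s⁻¹, hN.conj_mem y y.2 s⟩ := Subtype.ext hy
    rw [h10, h9]
    simp
  · refine Or.inl ⟨e, ?_⟩
    rw [classInner_irr_of_ne (mul_sg_irr h θ) θ.2 e, add_zero] at h2
    have h5 := isIrrCharacter_of_classInner_self hc h2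
    have h6 := H22.eq_of_over_of_res_eq (θ := ⟨_, h5⟩) (fun _ => rfl) ho
    intro y
    rw [h6]

theorem ix1Stmt : Ix1Stmt := by
  intro G _ _ N h χ x s hs hc hx
  obtain ⟨θ, ho⟩ := H22.exists_over N χ
  refine ⟨θ, ?_⟩
  rcases dich h ho hs with ⟨-, e⟩ | ⟨-, e⟩
  · refine ⟨by rw [e]; exact hx, Or.inl ?_⟩
    have : (charDegree θ.1 : ℂ) = charDegree χ.1 := by
      rw [H21.cast_deg, H21.cast_deg, ← e 1, OneMemClass.coe_one]
    exact_mod_cast this
  · refine ⟨?_, Or.inr ?_⟩
    · rw [e x x (by rw [hc, mul_inv_cancel_right]), ← two_mul]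
      exact mul_ne_zero two_ne_zero hx
    · have : (charDegree θ.1 : ℂ) = 2 * charDegree χ.1 := by
        rw [H21.cast_deg, H21.cast_deg, two_mul, ← e 1 1 (by simp), OneMemClass.coe_one]
      exact_mod_cast this

theorem ix2_aux [Finite G] (h : N.index = 2) {s : G} (hs : s ∉ N) (n : ℕ) :
    ∀ ψ : G → ℂ, IsCharacter G ψ → ψ 1 = n → (∀ g, g ∉ N → ψ g = 0) →
      ∃ ψ₁ : N → ℂ, IsCharacter N ψ₁ ∧
        ∀ y y' : N, (y' : G) = s * y * s⁻¹ → ψ y = ψ₁ y + ψ₁ y' := by
  have := Fintype.ofFinite G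
  induction n using Nat.strong_induction_on with
  | _ n ih =>
  intro ψ hψ h1 h0
  by_cases hz : ψ = 0
  · exact ⟨0, isCharacter_zero, fun y y' _ => by simp [hz]⟩
  obtain ⟨θ, hθ, hi⟩ := exists_irr_constituent hψ hz
  obtain ⟨d, hd0, hd⟩ := exists_pos_degree hθ
  obtain ⟨η, ho⟩ := H22.exists_under N ⟨θ, hθ⟩
  have hc := isCharacter_sub_irr hψ hθ hi
  rcases dich h ho hs with ⟨e1, -⟩ | ⟨e1, e⟩
  · have hθ' : IsIrrCharacter G (θ * sg N) := mul_sg_irr h ⟨θ, hθ⟩
    have e2 : ψ * sg N = ψ := by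
      funext g
      by_cases hg : g ∈ N
      · rw [Pi.mul_apply, sg_mem hg, mul_one]
      · rw [Pi.mul_apply, h0 g hg, zero_mul]
    have e3 : classInner (ψ - θ) (θ * sg N) ≠ 0 := by
      rw [classInner_sub_left, classInner_irr_of_ne hθ hθ' (Ne.symm e1), sub_zero]
      rwa [← e2, classInner_mul_left, funext (conj_sg (N := N))] at hi
    have hc' := isCharacter_sub_irr hc hθ' e3
    obtain ⟨m, hm⟩ := exists_nat_degree hc'
    have hlt : m < n := by
      have : (m : ℂ) + 2 * d = n := by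
        rw [← hm, ← hd, ← h1]
        simp only [Pi.sub_apply, Pi.mul_apply, sg_mem N.one_mem]
        ring
      have : m + 2 * d = n := by exact_mod_cast this
      omega
    obtain ⟨ψ₁, h2, h3⟩ := ih m hlt _ hc' hm fun g hg => by
      simp only [Pi.sub_apply, Pi.mul_apply, sg_not hg, h0 g hg]
      ring
    refine ⟨ψ₁ + fun y : N => θ y, isCharacter_add h2
      (isCharacter_restrict (isCharacter_of_irr hθ) N), fun y y' hy => ?_⟩
    have h4 := h3 y y' hy
    simp only [Pi.sub_apply, Pi.mul_apply, sg_mem y.2] at h4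
    simp only [Pi.add_apply]
    rw [hy, isClassFunction_of_irr hθ y s]
    linear_combination h4
  · obtain ⟨m, hm⟩ := exists_nat_degree hc
    have hlt : m < n := by
      have : (m : ℂ) + d = n := by
        rw [← hm, ← hd, ← h1]
        simp only [Pi.sub_apply]
        ring
      have : m + d = n := by exact_mod_cast this
      omega
    obtain ⟨ψ₁, h2, h3⟩ := ih m hlt _ hc hm fun g hg => by
      have h5 : θ g * sg N g = θ g := congrFun e1 g
      rw [sg_not hg] at h5
      rw [Pi.sub_apply, h0 g hg]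
      linear_combination (1 / 2 : ℂ) * h5
    refine ⟨ψ₁ + η.1, isCharacter_add h2 (irr_isCharacter η), fun y y' hy => ?_⟩
    have h4 := h3 y y' hy
    have h5 : θ y = η.1 y + η.1 y' := e y y' hy
    simp only [Pi.sub_apply] at h4
    simp only [Pi.add_apply]
    linear_combination h4 + h5

theorem ix2Stmt : Ix2Stmt := by
  intro G _ _ N h ψ hψ h0 s hs
  obtain ⟨n, hn⟩ := exists_nat_degree hψ
  exact ix2_aux h hs n ψ hψ hn h0

set_option linter.all false in
theorem eqns_RbIx : True := by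
  first | (have := @_root_.Cfsg.Agent.H83.RbI.sg.eq_def.{0,0,0,0}) | (have := @_root_.Cfsg.Agent.H83.RbI.sg.eq_def.{0,0,0}) | (have := @_root_.Cfsg.Agent.H83.RbI.sg.eq_def.{0,0}) | (have := @_root_.Cfsg.Agent.H83.RbI.sg.eq_def.{0}) | (have := @_root_.Cfsg.Agent.H83.RbI.sg.eq_def) | skip
  first | (have := @_root_.Cfsg.Agent.H83.RbI.sg.eq_1.{0,0,0,0}) | (have := @_root_.Cfsg.Agent.H83.RbI.sg.eq_1.{0,0,0}) | (have := @_root_.Cfsg.Agent.H83.RbI.sg.eq_1.{0,0}) | (have := @_root_.Cfsg.Agent.H83.RbI.sg.eq_1.{0}) | (have := @_root_.Cfsg.Agent.H83.RbI.sg.eq_1) | skip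
  first | (have := @_root_.Cfsg.Agent.H83.RbI.sg.eq_2.{0,0,0,0}) | (have := @_root_.Cfsg.Agent.H83.RbI.sg.eq_2.{0,0,0}) | (have := @_root_.Cfsg.Agent.H83.RbI.sg.eq_2.{0,0}) | (have := @_root_.Cfsg.Agent.H83.RbI.sg.eq_2.{0}) | (have := @_root_.Cfsg.Agent.H83.RbI.sg.eq_2) | skip
  first | (have := @_root_.Cfsg.Agent.H83.RbI.sg.congr_simp.{0,0,0,0}) | (have := @_root_.Cfsg.Agent.H83.RbI.sg.congr_simp.{0,0,0}) | (have := @_root_.Cfsg.Agent.H83.RbI.sg.congr_simp.{0,0}) | (have := @_root_.Cfsg.Agent.H83.RbI.sg.congr_simp.{0}) | (have := @_root_.Cfsg.Agent.H83.RbI.sg.congr_simp) | skip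
  trivial

end Cfsg.Agent.H83.RbI
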