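import Cfsg.Agent.H83.Syl
import Cfsg.Agent.H14.RkDefs
import Cfsg.Agent.H3.Fitting
import Cfsg.Agent.H4.Coprime
import Cfsg.Agent.S0058

/-!
# A solvable group lemma for the conjugate type rank theorems
-/

set_option autoImplicit false

namespace Cfsg.Agent.H83.Rk

open Cfsg Subgroup Cfsg.Agent.H92

universe u

theorem comm_cyc {G : Type*} [Group G] {c x y : G} (hx : x * c * x⁻¹ ∈ zpowers c) (hy : y * c * y⁻¹ ∈ zpowers c) :
    Commute (x⁻¹ * (y⁻¹ * x * y)) c := by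
  obtain ⟨i, hi⟩ := mem_zpowers_iff.mp hx
  obtain ⟨j, hj⟩ := mem_zpowers_iff.mp hy
  have : x * (y * c * y⁻¹) * x⁻¹ = y * (x * c * x⁻¹) * y⁻¹ := by
    rw [← hi, ← hj, ← conj_zpow, ← conj_zpow, ← hi, ← hj, ← zpow_mul, ← zpow_mul, mul_comm]
  calc x⁻¹ * (y⁻¹ * x * y) * c = x⁻¹ * y⁻¹ * (x * (y * c * y⁻¹) * x⁻¹) * (x * y) := by group
    _ = c * (x⁻¹ * (y⁻¹ * x * y)) := by rw [this]; group

theorem mb : H14.Rk.MBStmt.{u} := by
  intro M _ _ p P₁ H τ hs hp hO hP H0 Hp Hh hC hD τN τW hr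
  haveI : Fact p.Prime := ⟨hp⟩
  haveI nD : (pCore p M).Normal := Subgroup.sSup_normal _ fun _ h => h.1
  have cD := H3.centralizer_pCore_le hO
  have D2 : IsPGroup p (pCore p M) := pCore_isPGroup
  have Dmax : ∀ N : Subgroup M, N.Normal → IsPGroup p N → N ≤ pCore p M := fun N => le_pCore
  generalize pCore p M = D at *
  have Hc : (Nat.card H).Coprime p := ((Nat.Prime.coprime_iff_not_dvd hp).mpr Hp).symm
  obtain ⟨⟨h0, h0H⟩, h01⟩ := ne_bot_iff_exists_ne_one.mp H0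
  replace h01 : h0 ≠ 1 := fun e => h01 (Subtype.ext e)
  have h0D : h0 ∉ D := fun m => h01 (eq_one_of_mem_pgroup D2 m (coprime_orderOf_of_mem Hc h0H))
  have cW : ∀ h ∈ H, ∀ w ∈ P₁ ⊔ H, Commute w h := fun h hh w hw => by
    by_cases e : h = 1
    · simp [e]
    · exact mem_centralizer_singleton_iff.mp (hC h hh e ▸ hw)
  have dW : ∀ w ∈ P₁ ⊔ H, ∃ a ∈ P₁, ∃ h ∈ H, a * h = w := fun w hw =>
    (mem_sup_left_norm (le_norm_of_le_cent fun h hh a ha => cW h hh a (mem_sup_left ha))).mp hw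
  have pW : ∀ w ∈ P₁ ⊔ H, ∀ k, w ^ p ^ k = 1 → w ∈ P₁ := fun w hw k e => by
    obtain ⟨a, ha, h, hh, rfl⟩ := dW w hw
    obtain ⟨l, hl⟩ := isPGroup_iff.mp hP a ha
    have : h ^ p ^ (k + l) = 1 := by
      have := (cW h hh a (mem_sup_left ha)).mul_pow (p ^ (k + l))
      rwa [pow_add, pow_mul, e, one_pow, mul_comm (p ^ k), pow_mul a, hl, one_pow, one_mul, eq_comm, ← pow_add,
        add_comm] at this
    rwa [eq_one_of_ppow this (coprime_orderOf_of_mem Hc hh), mul_one]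
  obtain ⟨K', r, rp, nK, K0, -, ⟨Kc, Ke⟩, -⟩ := H3.exists_minimal_normal_elementary_le (⊤ : Subgroup (M ⧸ D))
    inferInstance fun e => h0D ((QuotientGroup.eq_one_iff h0).mp (mem_bot.mp (e ▸ mem_top _)))
  haveI : Fact r.Prime := ⟨rp⟩
  have πD : ∀ a, QuotientGroup.mk' D a = 1 ↔ a ∈ D := fun a => QuotientGroup.eq_one_iff a
  have πs := QuotientGroup.mk'_surjective D
  generalize QuotientGroup.mk' D = π at πD πs
  have nK' : ∀ g, g ∈ normalizer (K'.comap π : Set M) := fun g => normalizer_eq_top (K'.comap π) ▸ mem_top g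
  have rne : r ≠ p := by
    rintro rfl
    refine K0 (eq_bot_iff.mpr fun a ha => ?_)
    obtain ⟨a, rfl⟩ := πs a
    refine (πD a).mpr (Dmax (K'.comap π) inferInstance (isPGroup_iff.mpr fun b hb => ?_) ha)
    obtain ⟨k, hk⟩ := isPGroup_iff.mp D2 (b ^ r) ((πD _).mp (by rw [map_pow, Ke _ hb]))
    exact ⟨k + 1, by rw [pow_succ', pow_mul, hk]⟩
  have rc : r.Coprime p := (Nat.coprime_primes rp hp).mpr rne
  have onto : ∀ R, IsSylowIn r R (K'.comap π) → R.map π = K' := fun R hR => by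
    have := hR.map π
    rw [map_comap_eq_self_of_surjective πs] at this
    exact this.eq_of_isPGroup (isPGroup_iff.mpr fun a ha => ⟨1, by rw [pow_one, Ke a ha]⟩)
  have RD : ∀ R, IsSylowIn r R (K'.comap π) → ∀ a ∈ R, π a = 1 → a = 1 := fun R hR a ha e => by
    obtain ⟨k, hk⟩ := isPGroup_iff.mp hR.isPGroup a ha
    exact eq_one_of_mem_pgroup D2 ((πD a).mp e)
      (Nat.Coprime.coprime_dvd_left (orderOf_dvd_of_pow_eq_one hk) (rc.pow_left _))
  obtain ⟨R, hR⟩ := exists_isSylowIn r (K'.comap π)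
  by_cases rH : r ∣ Nat.card H
  · obtain ⟨S, hS⟩ := exists_isSylowIn r H
    obtain ⟨m, -, hm⟩ := (hS.trans le_top (by
      rw [relIndex_top_right]
      exact fun d => rp.one_lt.ne' (Nat.eq_one_of_dvd_coprimes Hh rH d))).exists_conj_le le_top hR.isPGroup
    have hR' := hR.cj_of_norm (nK' m)
    have RH := hm.trans hS.le
    generalize cj m R = R at hR' RH
    obtain ⟨⟨ρ, hρ⟩, ρ1⟩ := ne_bot_iff_exists_ne_one.mp (show R ≠ ⊥ from fun e => K0 (by rw [← onto R hR', e, Subgroup.map_bot]))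
    have : P₁.subgroupOf D = ⊤ := H92.eq_top_of_forall_conj_mem fun g => by
      obtain ⟨w, hw⟩ := hD g g.2
      obtain ⟨a, ha, n, hn, rfl⟩ := hR'.frattini' (nK' w)
      obtain ⟨b, hb, e⟩ := (onto R hR').ge hn
      have hd : b⁻¹ * n ∈ D := (πD _).mp (by rw [map_mul, map_inv, e, inv_mul_cancel])
      have m := nD.conj_mem _ g.2 (b⁻¹ * n)
      obtain ⟨k, hk⟩ := isPGroup_iff.mp D2 _ m
      refine ⟨⟨_, hd⟩, pW _ ?_ k hk⟩
      rw [← hC ρ (RH hρ) fun e => ρ1 (Subtype.ext e), mem_centralizer_singleton_iff]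
      have := cW _ (RH (conj_mem le_rfl (mul_mem ha (le_normalizer hb)) hρ)) _ (mem_sup_left hw)
      have e2 := congrArg (fun t => (a * b)⁻¹ * t * (a * b)) this.eq
      simpa [mul_assoc] using e2
    exact h0D (cD fun d hd => cW h0 h0H d (mem_sup_left (subgroupOf_eq_top.mp this hd)))
  · have Rc : ∀ a ∈ R, ∀ b ∈ R, a * b = b * a := fun a ha b hb => mul_inv_eq_one.mp (RD R hR _
      (mul_mem (mul_mem ha hb) (inv_mem (mul_mem hb ha))) (by
        rw [map_mul, map_inv, map_mul, map_mul, mul_inv_eq_one]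
        exact congrArg Subtype.val (mul_comm' (⟨π a, hR.le ha⟩ : K') ⟨π b, hR.le hb⟩)))
    haveI : IsMulCommutative R := ⟨⟨fun a b => Subtype.ext (Rc _ a.2 _ b.2)⟩⟩
    have cyc : IsCyclic R := by
      by_contra nc
      have := S0058.result R D nc (normalizer_eq_top D ▸ le_top)
        (IsPGroup.coprime_card_of_ne r p rne _ _ hR.isPGroup D2)
      refine h0D (cD fun d hd => ?_)
      rw [show d = 1 from mem_bot.mp ((this.ge.trans (iSup₂_le fun a ha g hg => ?_)) hd), mul_one, one_mul]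
      by_contra g1
      obtain ⟨k, hk⟩ := isPGroup_iff.mp D2 g hg.1
      refine hr r g rp rne rH g1 (((Nat.dvd_prime_pow hp).mp (orderOf_dvd_of_pow_eq_one hk)).imp fun _ h => h.2) ?_
      rw [← orderOf_eq_prime (RD R hR _ (pow_mem ha.1 r) (by rw [map_pow, Ke _ (hR.le ha.1)])) ha.2]
      exact orderOf_dvd_natCard _ (mem_centralizer_singleton_iff.mpr (mem_centralizer_singleton_iff.mp hg.2).symm)
    obtain ⟨ρ, rfl⟩ := (Subgroup.isCyclic_iff_exists_zpowers_eq_top R).mp cyc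
    have eK := onto _ hR
    rw [MonoidHom.map_zpowers] at eK
    have m : h0⁻¹ * (τ⁻¹ * h0 * τ) ∈ H := mul_mem (inv_mem h0H) (conj_mem' le_rfl τN h0H)
    have m1 : h0⁻¹ * (τ⁻¹ * h0 * τ) ≠ 1 := fun e => τW (hC h0 h0H h01 ▸ mem_centralizer_singleton_iff.mpr (by
      rw [inv_mul_eq_one, mul_assoc, eq_inv_mul_iff_mul_eq] at e; exact e))
    have c : Commute (π (h0⁻¹ * (τ⁻¹ * h0 * τ))) (π ρ) := by
      have k : ∀ x, x * π ρ * x⁻¹ ∈ zpowers (π ρ) := fun x => by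
        rw [eK]; exact nK.conj_mem _ (eK ▸ mem_zpowers _) x
      simpa using comm_cyc (k (π h0)) (k (π τ))
    obtain ⟨d, hd, e⟩ := H4.exists_mul_mem_centralizer' (A := zpowers (h0⁻¹ * (τ⁻¹ * h0 * τ))) (D := D) (x := ρ)
      (normalizer_eq_top D ▸ le_top) (by
        obtain ⟨n, hn⟩ := IsPGroup.iff_card.mp D2
        rw [hn, Nat.card_zpowers]; exact (coprime_orderOf_of_mem Hc m).pow_right _) (Or.inr inferInstance)
      fun a ⟨i, hi⟩ => (πD _).mp (by
        rw [map_mul, map_mul, map_mul, map_inv, map_inv, ← hi, map_zpow, (c.zpow_left i).eq]; simp)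
    obtain ⟨a, ha, h, hh, e2⟩ := dW (d * ρ) (hC _ m m1 ▸ mem_centralizer_singleton_iff.mpr (e _ (mem_zpowers _)).symm)
    obtain ⟨l, hl⟩ := isPGroup_iff.mp hP a ha
    have e3 : (d * ρ) ^ (p ^ l * Nat.card H) = 1 := by
      rw [← e2, (cW h hh a (mem_sup_left ha)).mul_pow, pow_mul, hl, one_pow, one_mul, mul_comm, pow_mul,
        show h ^ Nat.card H = 1 from congrArg Subtype.val (pow_card_eq_one' (x := (⟨h, hh⟩ : H))), one_pow]
    have e4 := congrArg π e3
    rw [map_pow, map_mul, (πD d).mpr hd, one_mul, map_one] at e4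
    refine K0 (eK ▸ zpowers_eq_bot.mpr (eq_one_of_ppow (p := r) (k := 1) (by
      rw [pow_one]; exact Ke _ (eK ▸ mem_zpowers _)) (Nat.Coprime.coprime_dvd_left (orderOf_dvd_of_pow_eq_one e4)
        (Nat.Coprime.mul_left (rc.symm.pow_left _) ((Nat.Prime.coprime_iff_not_dvd rp).mpr rH).symm))))

end Cfsg.Agent.H83.Rk
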