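import Cfsg.Agent.H53.TCDefs

/-!
`AttStmt`: for `r = 2` non-central involutions are point stabilizers, except in small cases.
-/

set_option autoImplicit false
set_option linter.unusedSectionVars false

namespace Cfsg.Agent.H83.TcA

open Cfsg.Agent.H53.TC Cfsg.Agent.H53.MW

universe u

variable {L V K W : Type*} [Group L] [Finite L] [AddCommGroup V] [Finite V] [Nontrivial V]
  [DistribMulAction L V] [Field K] [Module K V] [AddCommGroup W] [Finite W]
  [DistribMulAction L W] {σ : L →* RingAut K} {G T : Subgroup L} {π : L → W} {b : W → W → Kˣ}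
  (A : Nrm L V K W σ G T π b 2)
include A

theorem add_self (w : W) : w + w = 0 := by rw [← two_nsmul, A.rW]

theorem eq_of_add {x y : W} (h : x + y = 0) : x = y := by
  rw [← add_zero x, ← add_self A y, ← add_assoc, h, zero_add]

theorem b_sq (x y : W) : b x y * b x y = 1 := by rw [← A.alt.l, add_self A, A.alt.zero_left]

theorem b_pm (x y : W) : b x y = 1 ∨ b x y = -1 := by
  have := congrArg Units.val (b_sq A x y)
  rcases mul_self_eq_one_iff.1 this with h | h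
  · exact .inl (Units.ext h)
  · exact .inr (Units.ext h)

theorem b_symm (x y : W) : b x y = b y x := by
  rw [A.alt.swap x y, eq_inv_iff_mul_eq_one, b_sq A]

theorem b_neg {x y : W} (h : b x y ≠ 1) : b x y = -1 := (b_pm A x y).resolve_left h

theorem exists_ne {x : W} (h : x ≠ 0) : ∃ y, b x y ≠ 1 := by
  by_contra c
  push Not at c
  exact h (A.alt.nd x c)

theorem m1 : (-1 : Kˣ) ≠ 1 := by
  obtain ⟨w, hw⟩ := A.nt
  obtain ⟨y, hy⟩ := exists_ne A hw
  rwa [b_neg A hy] at hy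

theorem two_ne : (2 : K) ≠ 0 := fun h => m1 A (Units.ext (by
  rw [Units.val_neg, Units.val_one]; linear_combination -h))

theorem zero_of_neg {v : V} (h : -v = v) : v = 0 := by
  have : (2 : K) • v = 0 := by rw [two_smul]; nth_rewrite 1 [← h]; exact neg_add_cancel v
  exact (smul_eq_zero.1 this).resolve_left (two_ne A)

theorem lin {t : L} (ht : t ∈ T) (c : K) (v : V) : t • c • v = c • t • v := by
  rw [A.semi, A.σT t ht]; rfl

theorem π_one : π 1 = 0 := (A.ker 1 T.one_mem).2 ⟨1, fun v => by simp⟩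

theorem π_inv {t : L} (ht : t ∈ T) : π t⁻¹ = π t :=
  eq_of_add A (by rw [← A.mul _ (inv_mem ht) _ ht, inv_mul_cancel, π_one A])

theorem scal {t : L} (ht : t ∈ T) (h : π t = 0) : t = 1 ∨ ∀ v : V, t • v = -v := by
  obtain ⟨c, hc⟩ := (A.ker t ht).1 h
  obtain ⟨v, hv⟩ := _root_.exists_ne (0 : V)
  have h2 : (c * c) • v = (1 : K) • v := by
    rw [mul_smul, ← hc, ← hc, ← mul_smul, ← sq, A.two rfl t ht h, one_smul, one_smul]
  rcases mul_self_eq_one_iff.1 (smul_left_injective K hv h2) with e | e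
  · exact .inl (A.faith t fun v => by rw [hc, e, one_smul])
  · exact .inr fun v => by rw [hc, e, neg_smul, one_smul]

theorem comm {s t : L} (hs : s ∈ T) (ht : t ∈ T) (h : b (π s) (π t) = 1) (v : V) :
    s • t • v = t • s • v := by rw [A.hb s hs t ht, h, Units.val_one, one_smul]

theorem anti {s t : L} (hs : s ∈ T) (ht : t ∈ T) (h : b (π s) (π t) ≠ 1) (v : V) :
    s • t • v = -(t • s • v) := by
  rw [A.hb s hs t ht, b_neg A h, Units.val_neg, Units.val_one, neg_smul, one_smul]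

theorem exists_z : ∃ z ∈ T, π z = 0 ∧ ∀ v : V, z • v = -v := by
  obtain ⟨w, hw⟩ := A.nt
  obtain ⟨y, hy⟩ := exists_ne A hw
  obtain ⟨s, hs, rfl⟩ := A.surj w
  obtain ⟨t, ht, rfl⟩ := A.surj y
  have hz : ∀ v : V, (s * t * s⁻¹ * t⁻¹) • v = -v := fun v => by
    rw [mul_smul, mul_smul, mul_smul, anti A hs ht hy, smul_inv_smul, smul_inv_smul]
  have hm := mul_mem (mul_mem (mul_mem hs ht) (inv_mem hs)) (inv_mem ht)
  exact ⟨_, hm, (A.ker _ hm).2 ⟨-1, fun v => by rw [hz, neg_smul, one_smul]⟩, hz⟩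

theorem sq_pm {t : L} (ht : t ∈ T) : (∀ v : V, t • t • v = v) ∨ ∀ v : V, t • t • v = -v :=
  (scal A (mul_mem ht ht) (by rw [A.mul t ht t ht, add_self A])).imp
    (fun h v => by rw [← mul_smul, h, one_smul]) fun h v => by rw [← mul_smul, h]

theorem b_inv (f : L) (x y : W) : b (f • x) (f • y) = b x y := by
  apply Units.ext
  rw [A.bs]
  rcases b_pm A x y with h | h <;> simp [h]

theorem line {d e : W} (h : ∀ w, b d w = 1 → b e w = 1) : e = 0 ∨ e = d := by
  refine or_iff_not_imp_left.2 fun h0 => ?_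
  obtain ⟨w0, hw⟩ := exists_ne A h0
  have h1 : b d w0 ≠ 1 := fun c => hw (h _ c)
  refine eq_of_add A (A.alt.nd _ fun w => ?_)
  rw [A.alt.l]
  by_cases c : b d w = 1
  · rw [c, h w c, mul_one]
  · have := h (w + w0) (by rw [A.alt.r, b_neg A c, b_neg A h1]; simp)
    rw [A.alt.r, b_neg A hw] at this
    rw [b_neg A c, this]

theorem perp_perp (D : AddSubgroup W) : A.alt.perp (A.alt.perp D) = D := by
  have h1 := A.alt.card_mul D
  have h2 := A.alt.card_mul (A.alt.perp D)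
  have h3 : Nat.card (A.alt.perp (A.alt.perp D)) = Nat.card D :=
    Nat.eq_of_mul_eq_mul_left (Nat.card_pos (α := A.alt.perp D)) (by rw [h2, ← h1, mul_comm])
  exact (AddSubgroup.eq_of_le_of_card_ge (fun d hd => A.alt.mem_perp.2 fun x hx => by
    rw [b_symm A]; exact A.alt.mem_perp.1 hx d hd) h3.le).symm

section stab

variable (x0 : V)

/-- the image of the stabilizer -/
def DD : AddSubgroup W where
  carrier := {w | ∃ s ∈ T, s • x0 = x0 ∧ π s = w}
  zero_mem' := ⟨1, one_mem _, one_smul _ _, π_one A⟩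
  add_mem' := by
    rintro _ _ ⟨s, hs, e, rfl⟩ ⟨t, ht, e', rfl⟩
    exact ⟨s * t, mul_mem hs ht, by rw [mul_smul, e', e], A.mul s hs t ht⟩
  neg_mem' := by
    rintro _ ⟨s, hs, e, rfl⟩
    exact ⟨s, hs, e, eq_neg_of_add_eq_zero_left (add_self A _)⟩

/-- the orthogonal complement -/
abbrev PP : AddSubgroup W := A.alt.perp (DD A x0)

omit A in
/-- `v` is an eigenvector of the stabilizer with character `b(·, a)` -/
def Ev (T : Subgroup L) (π : L → W) (b : W → W → Kˣ) (a : W) (v : V) : Prop :=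
  ∀ s ∈ T, s • x0 = x0 → s • v = (b (π s) a : K) • v

variable {x0}

theorem mem_PP {w : W} : w ∈ PP A x0 ↔ ∀ s ∈ T, s • x0 = x0 → b (π s) w = 1 :=
  A.alt.mem_perp.trans ⟨fun h s hs e => h _ ⟨s, hs, e, rfl⟩, by
    rintro h _ ⟨s, hs, e, rfl⟩
    exact h s hs e⟩

theorem ev0 {v : V} : Ev x0 T π b 0 v ↔ ∀ s ∈ T, s • x0 = x0 → s • v = v := by
  simp only [Ev, A.alt.zero_right, Units.val_one, one_smul]

theorem ev_x0 : Ev x0 T π b 0 x0 := (ev0 A).2 fun _ _ h => h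

theorem ev_smul {a : W} {v : V} (h : Ev x0 T π b a v) {τ : L} (hτ : τ ∈ T) :
    Ev x0 T π b (a + π τ) (τ • v) := fun s hs e => by
  rw [A.hb s hs τ hτ, h s hs e, lin A hτ, smul_smul, A.alt.r, Units.val_mul, mul_comm]

theorem ev_t {τ : L} (hτ : τ ∈ T) : Ev x0 T π b (π τ) (τ • x0) := by
  simpa using ev_smul A (ev_x0 A) hτ

theorem ev_R {v : V} (h : Ev x0 T π b 0 v) {τ : L} (hτ : τ ∈ T) (hR : π τ ∈ PP A x0) :
    Ev x0 T π b 0 (τ • v) := (ev0 A).2 fun s hs e => by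
  rw [comm A hs hτ ((mem_PP A).1 hR s hs e), (ev0 A).1 h s hs e]

theorem ev_add {v w : V} (h : Ev x0 T π b 0 v) (h' : Ev x0 T π b 0 w) :
    Ev x0 T π b 0 (v + w) := fun s hs e => by rw [smul_add, h s hs e, h' s hs e, smul_add]

variable (h0 : x0 ≠ 0)
include h0

theorem eq_one {s : L} (hs : s ∈ T) (e : s • x0 = x0) (h : π s = 0) : s = 1 :=
  (scal A hs h).resolve_right fun c => h0 (zero_of_neg A ((c x0).symm.trans e))

theorem mem_DD {ρ : L} (hρ : ρ ∈ T) : π ρ ∈ DD A x0 ↔ ρ • x0 = x0 ∨ ρ • x0 = -x0 := by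
  constructor
  · rintro ⟨s, hs, e, e'⟩
    have h1 : π (ρ * s) = 0 := by rw [A.mul ρ hρ s hs, e', add_self A]
    refine (scal A (mul_mem hρ hs) h1).imp (fun c => ?_) fun c => ?_
    · rw [← e, ← mul_smul, c, one_smul, e]
    · rw [← c x0, mul_smul, e]
  · rintro (e | e)
    · exact ⟨ρ, hρ, e, rfl⟩
    · obtain ⟨z, hz, z0, z1⟩ := exists_z A
      exact ⟨z * ρ, mul_mem hz hρ, by rw [mul_smul, e, z1, neg_neg],
        by rw [A.mul z hz ρ hρ, z0, zero_add]⟩

theorem DD_le : DD A x0 ≤ PP A x0 := by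
  rintro _ ⟨t, ht, e, rfl⟩
  refine (mem_PP A).2 fun s hs e' => by_contra fun c => h0 (zero_of_neg A ?_)
  have := anti A hs ht c x0
  rw [e, e', e] at this
  exact this.symm

theorem exists_proj (u : W) : ∃ P : V →+ V, ∀ a v, Ev x0 T π b a v →
    (a + u ∈ PP A x0 → P v = v) ∧ (a + u ∉ PP A x0 → P v = 0) := by
  classical
  let S : Subgroup L := T ⊓ MulAction.stabilizer L x0
  have := Fintype.ofFinite S
  have hp : IsPGroup 2 S := fun s => ⟨1, Subtype.ext (by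
    rw [pow_one, Subgroup.coe_pow, sq]
    refine eq_one A h0 (mul_mem s.2.1 s.2.1) ?_ (by rw [A.mul _ s.2.1 _ s.2.1, add_self A])
    have : s.1 • x0 = x0 := s.2.2
    rw [mul_smul, this, this])⟩
  have : Fact (Nat.Prime 2) := ⟨Nat.prime_two⟩
  obtain ⟨n, hn⟩ := IsPGroup.iff_card.1 hp
  have hN : ((Fintype.card S : ℕ) : K) ≠ 0 := by
    rw [← Nat.card_eq_fintype_card, hn, Nat.cast_pow]
    exact pow_ne_zero _ (two_ne A)
  refine ⟨AddMonoidHom.mk' (fun v => ((Fintype.card S : ℕ) : K)⁻¹ •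
    ∑ s : S, (b (π s) u : K) • s.1 • v) (fun v w => by
      simp only [smul_add, Finset.sum_add_distrib]), fun a v h => ?_⟩
  have e : ∑ s : S, (b (π s) u : K) • s.1 • v = (∑ s : S, (b (π s) (a + u) : K)) • v := by
    rw [Finset.sum_smul]
    exact Finset.sum_congr rfl fun s _ => by
      rw [h s.1 s.2.1 s.2.2, smul_smul, A.alt.r, Units.val_mul, mul_comm]
  simp only [AddMonoidHom.mk'_apply, e]
  refine ⟨fun c => ?_, fun c => ?_⟩
  · rw [Finset.sum_congr rfl fun s _ => congrArg Units.val ((mem_PP A).1 c s.1 s.2.1 s.2.2)]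
    simp [smul_smul, hN]
  · rw [mem_PP A] at c
    push Not at c
    obtain ⟨s1, hs1, e1, c⟩ := c
    have h1 : ∑ s : S, (b (π s) (a + u) : K) = -∑ s : S, (b (π s) (a + u) : K) := by
      rw [← Finset.sum_neg_distrib]
      refine (Equiv.sum_comp (Equiv.mulLeft (⟨s1, hs1, e1⟩ : S)) _).symm.trans
        (Finset.sum_congr rfl fun s _ => ?_)
      rw [Equiv.coe_mulLeft, Subgroup.coe_mul, A.mul _ hs1 _ s.2.1, A.alt.l, b_neg A c]
      simp
    have h2 : (2 : K) * ∑ s : S, (b (π s) (a + u) : K) = 0 := by linear_combination h1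
    rw [(mul_eq_zero.1 h2).resolve_left (two_ne A), zero_smul, smul_zero]

theorem one_or {t s : L} (ht : t ∈ T) (et : t • x0 = x0) (hs : s ∈ T) (es : s • x0 = x0)
    (h : ∀ w, b (π t) w = 1 → b (π s) w = 1) : s = 1 ∨ s = t :=
  (line A h).imp (eq_one A h0 hs es) fun e => by
    have := eq_one A h0 (mul_mem (inv_mem ht) hs) (by rw [mul_smul, es, inv_smul_eq_iff, et])
      (by rw [A.mul _ (inv_mem ht) _ hs, π_inv A ht, e, add_self A])
    exact (inv_mul_eq_one.1 this).symm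

theorem caseB {t : L} (ht : t ∈ T) (et : t • x0 = x0) {a a' : W} (ha : b (π t) a = 1)
    (ha' : b (π t) a' = 1) (n1 : a ∉ PP A x0) (n2 : a' ∉ PP A x0) (n3 : a + a' ∉ PP A x0) :
    ∃ x : V, ∀ s ∈ T, s • x = x ↔ s = 1 ∨ s = t := by
  classical
  have := Fintype.ofFinite (W ⧸ PP A x0)
  choose l hl using A.surj
  let I : Finset (W ⧸ PP A x0) := Finset.univ.filter fun q => q ≠ 0 ∧ b (π t) q.out = 1
  have out : ∀ w : W, (w : W ⧸ PP A x0).out + w ∈ PP A x0 := fun w => by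
    have := QuotientAddGroup.eq.1 (QuotientAddGroup.out_eq' (w : W ⧸ PP A x0))
    rwa [neg_eq_of_add_eq_zero_left (add_self A _)] at this
  have bo : ∀ s ∈ T, s • x0 = x0 → ∀ w : W, b (π s) (w : W ⧸ PP A x0).out = b (π s) w :=
    fun s hs e w => by
      have := (mem_PP A).1 (out w) s hs e
      rw [A.alt.r] at this
      rw [← mul_one (b (π s) _), ← b_sq A (π s) w, ← mul_assoc, this, one_mul]
  have hI : ∀ w : W, (w : W ⧸ PP A x0) ∈ I ↔ w ∉ PP A x0 ∧ b (π t) w = 1 := fun w => by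
    simp only [I, Finset.mem_filter, Finset.mem_univ, true_and, bo t ht et, ne_eq,
      QuotientAddGroup.eq_zero_iff]
  have pr : ∀ τ ∈ T, ∀ u : W, ∃ P : V →+ V, ∀ ρ, (ρ = 1 ∨ ρ = τ) →
      P (ρ • ∑ q ∈ I, l q.out • x0) = if ((π ρ + u : W) : W ⧸ PP A x0) ∈ I then
        ρ • l ((π ρ + u : W) : W ⧸ PP A x0).out • x0 else 0 := by
    intro τ hτ u
    obtain ⟨P, hP⟩ := exists_proj A h0 u
    refine ⟨P, fun ρ hρ => ?_⟩
    have hρT : ρ ∈ T := hρ.elim (fun e => e ▸ one_mem _) fun e => e ▸ hτ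
    rw [Finset.smul_sum, map_sum, ← Finset.sum_ite_eq' I _ fun q => ρ • l q.out • x0]
    refine Finset.sum_congr rfl fun q _ => ?_
    have ev := hP _ _ (ev_smul A (ev_t A (hl q.out).1) hρT)
    rw [(hl q.out).2, add_assoc] at ev
    have iff : q.out + (π ρ + u) ∈ PP A x0 ↔ q = ((π ρ + u : W) : W ⧸ PP A x0) := by
      rw [← QuotientAddGroup.out_eq' q, QuotientAddGroup.eq, QuotientAddGroup.out_eq',
        neg_eq_of_add_eq_zero_left (add_self A _)]
    split_ifs with c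
    · rw [ev.1 (iff.2 c), c]
    · exact ev.2 fun k => c (iff.1 k)
  have ne0 : ∀ (g : L), g • x0 ≠ 0 := fun g => (smul_ne_zero_iff_ne g).2 h0
  have tx : t • ∑ q ∈ I, l q.out • x0 = ∑ q ∈ I, l q.out • x0 := by
    rw [Finset.smul_sum]
    refine Finset.sum_congr rfl fun q hq => ?_
    rw [comm A ht (hl _).1 (by rw [(hl _).2]; exact (Finset.mem_filter.1 hq).2.2), et]
  refine ⟨∑ q ∈ I, l q.out • x0, fun τ hτ => ⟨fun e => ?_, ?_⟩⟩
  swap
  · rintro (rfl | rfl)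
    exacts [one_smul _ _, tx]
  have key : ∀ u : W, (if ((π τ + u : W) : W ⧸ PP A x0) ∈ I then
      τ • l ((π τ + u : W) : W ⧸ PP A x0).out • x0 else 0) =
      if (u : W ⧸ PP A x0) ∈ I then l (u : W ⧸ PP A x0).out • x0 else 0 := by
    intro u
    obtain ⟨P, hP⟩ := pr τ hτ u
    have h1 := hP 1 (.inl rfl)
    simp only [π_one A, zero_add, one_smul] at h1
    rw [← hP τ (.inr rfl), e, h1]
  have hR : π τ ∈ PP A x0 := by
    by_contra c
    by_cases c' : b (π t) (π τ) = 1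
    · have := key 0
      rw [add_zero, if_pos ((hI _).2 ⟨c, c'⟩), if_neg (fun k => ((hI _).1 k).1 (zero_mem _)),
        ← mul_smul] at this
      exact ne0 _ this
    · have := key a
      rw [if_pos ((hI _).2 ⟨n1, ha⟩), if_neg (fun k => c' (by
        have := ((hI _).1 k).2
        rwa [A.alt.r, ha, mul_one] at this))] at this
      exact ne0 _ this.symm
  have fix : ∀ u, u ∉ PP A x0 → b (π t) u = 1 →
      (b (π τ) (u : W ⧸ PP A x0).out : K) • τ • x0 = x0 := by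
    intro u u1 u2
    have e1 : ((π τ + u : W) : W ⧸ PP A x0) = u := by
      rw [QuotientAddGroup.mk_add, (QuotientAddGroup.eq_zero_iff _).2 hR, zero_add]
    have := key u
    rw [e1, if_pos ((hI _).2 ⟨u1, u2⟩), if_pos ((hI _).2 ⟨u1, u2⟩), A.hb τ hτ _ (hl _).1, (hl _).2,
      ← lin A (hl _).1] at this
    exact smul_left_cancel _ this
  have hD : π τ ∈ DD A x0 := (mem_DD A h0 hτ).2 (by
    have := fix a n1 ha
    rcases b_pm A (π τ) (a : W ⧸ PP A x0).out with c | c <;> rw [c] at this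
    · exact .inl (by simpa using this)
    · exact .inr (by simpa [neg_eq_iff_eq_neg] using this))
  obtain ⟨s, hs, es, e1⟩ := hD
  simp only [← e1, bo s hs es] at fix
  have e2 : τ • x0 = x0 := by
    have f1 := fix a n1 ha
    have f2 := fix a' n2 ha'
    have f3 := fix (a + a') n3 (by rw [A.alt.r, ha, ha', mul_one])
    have e3 : b (π s) a = b (π s) a' :=
      Units.ext (smul_left_injective K (ne0 τ) (f1.trans f2.symm))
    rwa [A.alt.r, e3, b_sq A, Units.val_one, one_smul] at f3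
  refine one_or A h0 ht et hτ e2 fun w hw => ?_
  by_cases c : w ∈ PP A x0
  · exact (mem_PP A).1 c τ hτ e2
  · have := fix w c hw
    rw [e2, e1] at this
    exact Units.ext (smul_left_injective K h0 (this.trans (one_smul K x0).symm))

theorem caseC {t t2 : L} (ht : t ∈ T) (et : t • x0 = x0) (h2 : t2 ∈ T) (ha : b (π t) (π t2) = 1)
    (n1 : π t2 ∉ PP A x0) (hZ : ∀ w, b (π t) w = 1 → w ∈ PP A x0 ∨ w + π t2 ∈ PP A x0)
    {z : V} (z0 : z ≠ 0) (zv : Ev x0 T π b 0 z)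
    (zn : ∀ ρ ∈ T, π ρ ∈ PP A x0 → z ≠ ρ • x0) :
    ∃ x : V, ∀ s ∈ T, s • x = x ↔ s = 1 ∨ s = t := by
  refine ⟨x0 + t2 • z, fun τ hτ => ⟨fun e => ?_, ?_⟩⟩
  swap
  · rintro (rfl | rfl)
    · exact one_smul _ _
    · rw [smul_add, et, comm A ht h2 ha, (ev0 A).1 zv _ ht et]
  obtain ⟨P, hP⟩ := exists_proj A h0 (π τ)
  have e1 := congrArg P e
  have p1 := hP _ _ (ev_x0 A)
  have p2 := hP _ _ (ev_smul A zv h2)
  rw [zero_add] at p1 p2
  rw [smul_add, map_add, map_add, (hP _ _ (ev_t A hτ)).1 (by rw [add_self A]; exact zero_mem _),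
    (hP _ _ (ev_smul A (ev_smul A zv h2) hτ)).2 (by rwa [zero_add, add_assoc, add_self A, add_zero]),
    add_zero] at e1
  by_cases c : π τ ∈ PP A x0
  · rw [p1.1 c, p2.2 fun k => n1 ((add_mem_cancel_right c).1 k), add_zero] at e1
    rw [smul_add, e1, add_right_inj, A.hb τ hτ t2 h2, (ev0 A).1 zv τ hτ e1] at e
    have e3 : b (π τ) (π t2) = 1 := Units.ext (smul_left_injective K
      ((smul_ne_zero_iff_ne t2).2 z0) (e.trans (one_smul K _).symm))
    refine one_or A h0 ht et hτ e1 fun w hw => (hZ w hw).elim (fun k => (mem_PP A).1 k τ hτ e1)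
      fun k => ?_
    have := (mem_PP A).1 k τ hτ e1
    rwa [A.alt.r, e3, mul_one] at this
  · rw [p1.2 c, zero_add] at e1
    by_cases c' : π t2 + π τ ∈ PP A x0
    · rw [p2.1 c'] at e1
      exact absurd (by rw [mul_smul, e1, inv_smul_smul]) (zn (t2⁻¹ * τ) (mul_mem (inv_mem h2) hτ)
        (by rwa [A.mul _ (inv_mem h2) _ hτ, π_inv A h2]))
    · rw [p2.2 c'] at e1
      exact absurd e1 ((smul_ne_zero_iff_ne τ).2 h0)

variable (hm : ∀ v, Ev x0 T π b 0 v → v ≠ 0 → ∀ s ∈ T, s • v = v → s • x0 = x0)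
include hm

theorem aniso {ρ : L} (hρ : ρ ∈ T) (h1 : π ρ ∈ PP A x0) (h2 : π ρ ∉ DD A x0) (v : V) :
    ρ • ρ • v = -v := by
  refine ((sq_pm A hρ).resolve_left fun c => h2 ((mem_DD A h0 hρ).2 ?_)) v
  by_cases e : x0 + ρ • x0 = 0
  · exact .inr (eq_neg_of_add_eq_zero_right e)
  · exact .inl (hm _ (ev_add A (ev_x0 A) (ev_R A (ev_x0 A) hρ h1)) e ρ hρ
      (by rw [smul_add, c, add_comm]))

theorem anti_or {ρ ρ' : L} (hρ : ρ ∈ T) (h1 : π ρ ∈ PP A x0) (h2 : π ρ ∉ DD A x0)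
    (hρ' : ρ' ∈ T) (h1' : π ρ' ∈ PP A x0) (h2' : π ρ' ∉ DD A x0) (c : b (π ρ) (π ρ') = 1) :
    π ρ + π ρ' ∈ DD A x0 := by
  rw [← A.mul ρ hρ ρ' hρ']
  by_contra k
  have := aniso A h0 hm (mul_mem hρ hρ') (by rw [A.mul ρ hρ ρ' hρ']; exact add_mem h1 h1') k x0
  rw [mul_smul, mul_smul, ← comm A hρ hρ' c, aniso A h0 hm hρ h1 h2,
    aniso A h0 hm hρ' h1' h2', neg_neg] at this
  exact h0 (zero_of_neg A this.symm)

variable (hV : ∀ v, Ev x0 T π b 0 v → v ≠ 0 → ∃ ρ ∈ T, π ρ ∈ PP A x0 ∧ v = ρ • x0)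
include hV

theorem no_eig {ι : L} (hι : ι ∈ T) (h2 : π ι ∉ DD A x0) {c : K} (e : ι • x0 = c • x0) :
    False := by
  rw [← perp_perp A (DD A x0), A.alt.mem_perp] at h2
  push Not at h2
  obtain ⟨w, hw, h2⟩ := h2
  obtain ⟨j, hj, rfl⟩ := A.surj w
  have ne0 : ∀ (g : L), g • x0 ≠ 0 := fun g => (smul_ne_zero_iff_ne g).2 h0
  have c0 : c ≠ 0 := fun k => ne0 ι (by rw [e, k, zero_smul])
  have e1 : ι • j • x0 = -(c • j • x0) := by
    rw [anti A hι hj (by rwa [b_symm A]), e, lin A hj]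
  have two : ∀ v : V, c • v = -(c • v) → v = 0 := fun v k =>
    (smul_eq_zero.1 (zero_of_neg A k.symm)).resolve_left c0
  have n : x0 + j • x0 ≠ 0 := fun k => by
    rw [eq_neg_of_add_eq_zero_right k, smul_neg, smul_neg, e] at e1
    exact h0 (two _ (neg_injective e1))
  obtain ⟨τ, hτ, -, e2⟩ := hV _ (ev_add A (ev_x0 A) (ev_R A (ev_x0 A) hj hw)) n
  have e3 := congrArg (ι • ·) e2
  simp only [smul_add, e, e1] at e3
  by_cases k : b (π ι) (π τ) = 1
  · rw [comm A hι hτ k, e, lin A hτ, ← e2, smul_add, add_right_inj] at e3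
    exact ne0 j (two _ e3.symm)
  · rw [anti A hι hτ k, e, lin A hτ, ← e2, smul_add, neg_add, add_left_inj] at e3
    exact h0 (two _ e3)

theorem struct {ι : L} (hι : ι ∈ T) (h1 : π ι ∈ PP A x0) (h2 : π ι ∉ DD A x0) :
    ∃ τ ∈ T, τ • x0 = x0 + ι • x0 ∧ ∀ u ∈ PP A x0, ∀ F : AddSubgroup W, DD A x0 ≤ F →
      π ι ∈ F → π τ ∈ F → u ∈ F := by
  have n : x0 + ι • x0 ≠ 0 := fun k =>
    h2 ((mem_DD A h0 hι).2 (.inr (eq_neg_of_add_eq_zero_right k)))
  obtain ⟨τ, hτ, t1, e⟩ := hV _ (ev_add A (ev_x0 A) (ev_R A (ev_x0 A) hι h1)) n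
  have ne0 : ∀ (g : L), g • x0 ≠ 0 := fun g => (smul_ne_zero_iff_ne g).2 h0
  have t2 : π τ ∉ DD A x0 := fun k => by
    rcases (mem_DD A h0 hτ).1 k with c | c <;> rw [c] at e
    · exact ne0 ι (by simpa using e)
    · refine no_eig A h0 hm hV hι h2 (c := -2) ?_
      rw [neg_smul, two_smul, neg_add]
      nth_rewrite 1 [← e]
      abel
  have t3 : π ι + π τ ∉ DD A x0 := fun k => by
    rw [← A.mul ι hι τ hτ, mem_DD A h0 (mul_mem hι hτ), mul_smul, ← e, smul_add,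
      aniso A h0 hm hι h1 h2] at k
    rcases k with c | c
    · refine no_eig A h0 hm hV hι h2 (c := 2) ?_
      rw [two_smul]
      nth_rewrite 2 [← c]
      abel
    · exact ne0 ι (by simpa using c)
  have t4 : b (π ι) (π τ) ≠ 1 := fun k => t3 (anti_or A h0 hm hι h1 h2 hτ t1 t2 k)
  refine ⟨τ, hτ, e.symm, fun u hu F hF f1 f2 => ?_⟩
  have base : ∀ u ∈ PP A x0, b u (π ι) = 1 → b u (π τ) = 1 → u ∈ F := by
    intro u hu c1 c2
    obtain ⟨ρ, hρ, rfl⟩ := A.surj u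
    by_contra k
    obtain ⟨s, hs, es, e'⟩ := anti_or A h0 hm hρ hu (fun c => k (hF c)) hι h1 h2 c1
    have := (mem_PP A).1 t1 s hs es
    rw [e', A.alt.l, c2, one_mul] at this
    exact t4 this
  have t5 : b (π τ) (π ι) ≠ 1 := by rwa [b_symm A]
  have step : ∀ u ∈ PP A x0, b u (π ι) = 1 → u ∈ F := by
    intro u hu c1
    by_cases c2 : b u (π τ) = 1
    · exact base u hu c1 c2
    · refine (add_mem_cancel_right f1).1 (base _ (add_mem hu h1) ?_ ?_)
      · rw [A.alt.l, c1, A.alt.self, mul_one]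
      · rw [A.alt.l, b_neg A c2, b_neg A t4]; simp
  by_cases c1 : b u (π ι) = 1
  · exact step u hu c1
  · refine (add_mem_cancel_right f2).1 (step _ (add_mem hu t1) ?_)
    rw [A.alt.l, b_neg A c1, b_neg A t5]; simp

theorem caseD {t1 t2 : L} (h1 : t1 ∈ T) (h2 : t2 ∈ T) (n1 : π t1 ∉ PP A x0)
    (n2 : π t2 ∉ PP A x0) (n3 : π t1 + π t2 ∉ PP A x0)
    (hW : ∀ F : AddSubgroup W, PP A x0 ≤ F → π t1 ∈ F → π t2 ∈ F → ∀ w, w ∈ F) :
    Idx L V W := by
  classical
  obtain ⟨ι, hι, i1, i2⟩ : ∃ ι ∈ T, π ι ∈ PP A x0 ∧ (PP A x0 ≤ DD A x0 ∨ π ι ∉ DD A x0) := by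
    by_cases c : PP A x0 ≤ DD A x0
    · exact ⟨1, one_mem _, by rw [π_one A]; exact zero_mem _, .inl c⟩
    · obtain ⟨w, w1, w2⟩ := SetLike.not_le_iff_exists.1 c
      obtain ⟨ι, hι, rfl⟩ := A.surj w
      exact ⟨ι, hι, w1, .inr w2⟩
  have ne0 : ∀ (g : L), g • x0 ≠ 0 := fun g => (smul_ne_zero_iff_ne g).2 h0
  have cj : ∀ h : L, h • x0 = x0 → ∀ s : L, (h * s * h⁻¹) • x0 = h • s • x0 := fun h e s => by
    rw [mul_smul, mul_smul, inv_smul_eq_iff.2 e.symm]
  have cT : ∀ h : L, ∀ {s}, s ∈ T → h * s * h⁻¹ ∈ T := fun h s hs => A.normal.conj_mem s hs h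
  have pP : ∀ h : L, h • x0 = x0 → ∀ w ∈ PP A x0, h • w ∈ PP A x0 := fun h e w hw =>
    (mem_PP A).2 fun s hs es => by
      have e' : h⁻¹ • x0 = x0 := inv_smul_eq_iff.2 e.symm
      rw [← b_inv A h⁻¹, inv_smul_smul, ← A.conj h⁻¹ s hs]
      exact (mem_PP A).1 hw _ (cT _ hs) (by rw [cj _ e', es, e'])
  have pN : ∀ h : L, h • x0 = x0 → ∀ w, w ∉ PP A x0 → h • w ∉ PP A x0 := fun h e w hw c =>
    hw (by simpa using pP h⁻¹ (inv_smul_eq_iff.2 e.symm) _ c)
  have evh : ∀ h : L, h • x0 = x0 → ∀ {s}, s ∈ T → Ev x0 T π b (h • π s) (h • s • x0) :=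
    fun h e s hs => by
      rw [← cj h e, ← A.conj h s hs]
      exact ev_t A (cT h hs)
  have triv : ∀ d ∈ DD A x0, b d (π t1) = 1 → b d (π t2) = 1 → d = 0 := fun d hd c1 c2 =>
    A.alt.nd d fun w => by
      have := hW (A.alt.perp (AddSubgroup.zmultiples d)) (fun u hu => A.alt.mem_perp.2 fun x hx =>
        A.alt.mem_perp.1 hu x ((AddSubgroup.zmultiples_le.2 hd) hx))
        (A.alt.mem_perp.2 (by rintro _ ⟨n, rfl⟩; rw [A.alt.zsmul_left, c1, one_zpow]))
        (A.alt.mem_perp.2 (by rintro _ ⟨n, rfl⟩; rw [A.alt.zsmul_left, c2, one_zpow])) w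
      exact A.alt.mem_perp.1 this d (AddSubgroup.mem_zmultiples d)
  -- the components of `y`
  have cmp : ∀ h : L, h • x0 = x0 → h • (ι • x0 + t1 • x0 + t2 • x0) = ι • x0 + t1 • x0 + t2 • x0 →
      h • ι • x0 = ι • x0 ∧ (h • t1 • x0 = t1 • x0 ∨ h • t1 • x0 = t2 • x0) := by
    intro h e ey
    rw [smul_add, smul_add] at ey
    constructor
    · obtain ⟨P, hP⟩ := exists_proj A h0 0
      simp only [add_zero] at hP
      have := congrArg P ey
      rwa [map_add, map_add, map_add, map_add, (hP _ _ (evh h e hι)).1 (pP h e _ i1),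
        (hP _ _ (evh h e h1)).2 (pN h e _ n1), (hP _ _ (evh h e h2)).2 (pN h e _ n2),
        (hP _ _ (ev_t A hι)).1 i1, (hP _ _ (ev_t A h1)).2 n1, (hP _ _ (ev_t A h2)).2 n2,
        add_zero, add_zero, add_zero, add_zero] at this
    · obtain ⟨P, hP⟩ := exists_proj A h0 (h • π t1)
      have := congrArg P ey
      rw [map_add, map_add, map_add, map_add,
        (hP _ _ (evh h e hι)).2 fun k => pN h e _ n1 ((add_mem_cancel_left (pP h e _ i1)).1 k),
        (hP _ _ (evh h e h1)).1 (by rw [add_self A]; exact zero_mem _),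
        (hP _ _ (evh h e h2)).2 (by rw [← smul_add, add_comm]; exact pN h e _ n3),
        (hP _ _ (ev_t A hι)).2 fun k => pN h e _ n1 ((add_mem_cancel_left i1).1 k),
        zero_add, zero_add, add_zero] at this
      have q1 := hP _ _ (ev_t A h1)
      have q2 := hP _ _ (ev_t A h2)
      by_cases c1 : π t1 + h • π t1 ∈ PP A x0 <;> by_cases c2 : π t2 + h • π t1 ∈ PP A x0
      · refine absurd ?_ n3
        have := add_mem c1 c2
        rwa [add_add_add_comm, add_self A, add_zero] at this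
      · rw [q1.1 c1, q2.2 c2, add_zero] at this; exact .inl this
      · rw [q1.2 c1, q2.1 c2, zero_add] at this; exact .inr this
      · rw [q1.2 c1, q2.2 c2, add_zero, ← mul_smul] at this
        exact absurd this (ne0 _)
  -- two elements with the same image of `x0` and the same square
  have same : ∀ e ∈ T, ∀ e' ∈ T, e • x0 = e' • x0 → e • e • x0 = e' • e' • x0 →
      π e + π e' ∈ DD A x0 ∧ b (π e + π e') (π e) = 1 := by
    intro e he e' he' c1 c2
    refine ⟨⟨e⁻¹ * e', mul_mem (inv_mem he) he', by rw [mul_smul, ← c1, inv_smul_smul],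
      by rw [A.mul _ (inv_mem he) _ he', π_inv A he]⟩, ?_⟩
    rw [A.alt.l, A.alt.self, one_mul]
    by_contra k
    rw [← c1, anti A he' he k, ← c1] at c2
    rw [← mul_smul] at c2
    exact ne0 _ (zero_of_neg A c2.symm)
  have sqc : ∀ h : L, h • x0 = x0 → ∀ {s}, s ∈ T →
      (h * s * h⁻¹) • (h * s * h⁻¹) • x0 = s • s • x0 := by
    intro h e s hs
    rw [cj h e, mul_smul, mul_smul, inv_smul_smul]
    rcases sq_pm A hs with c | c
    · rw [c, e]
    · rw [c, smul_neg, e]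
  let ψ : L → Bool × Bool := fun h =>
    (decide (h • t1 • x0 = t1 • x0), decide (b (h • π t1) (π t1 + π t2) = 1))
  let E : Bool × Bool ≃ Fin 4 := Fintype.equivFinOfCardEq (by simp)
  refine ⟨x0, ι • x0 + t1 • x0 + t2 • x0, fun h => E (ψ h), fun h h' e ey e' ey' eψ w => ?_⟩
  obtain ⟨a1, a2⟩ := Prod.mk.inj (E.injective eψ)
  rw [decide_eq_decide] at a1 a2
  obtain ⟨c1, c2⟩ := cmp h e ey
  obtain ⟨c1', c2'⟩ := cmp h' e' ey'
  have t12 : t1 • x0 ≠ t2 • x0 := fun k => n3 (DD_le A h0 ⟨t1⁻¹ * t2, mul_mem (inv_mem h1) h2,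
    by rw [mul_smul, ← k, inv_smul_smul], by rw [A.mul _ (inv_mem h1) _ h2, π_inv A h1]⟩)
  have d1 : h • t1 • x0 = h' • t1 • x0 := by
    rcases c2 with c | c
    · rw [c, a1.1 c]
    · rw [c, c2'.resolve_left fun k => t12 ((a1.2 k).symm.trans c)]
  have d2 : h • t2 • x0 = h' • t2 • x0 := by
    rw [smul_add, smul_add] at ey ey'
    have := ey.trans ey'.symm
    rwa [c1, c1', d1, add_right_inj] at this
  have f1 : h • π t1 = h' • π t1 := by
    obtain ⟨s1, s2⟩ := same _ (cT h h1) _ (cT h' h1) (by rw [cj h e, cj h' e', d1])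
      (by rw [sqc h e h1, sqc h' e' h1])
    rw [A.conj h _ h1, A.conj h' _ h1] at s1 s2
    have s3 : b (h • π t1 + h' • π t1) (π t1 + π t2) = 1 := by
      rw [A.alt.l]
      by_cases k : b (h • π t1) (π t1 + π t2) = 1
      · rw [k, a2.1 k, mul_one]
      · rw [b_neg A k, b_neg A fun k' => k (a2.2 k')]; simp
    have s4 : ∀ {s}, s ∈ T → h • t1 • x0 = s • x0 → b (h • π t1 + h' • π t1) (π s) = 1 := by
      intro s hs k
      have m : h • π t1 + π s ∈ DD A x0 := ⟨(h * t1 * h⁻¹)⁻¹ * s, mul_mem (inv_mem (cT h h1)) hs,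
        by rw [mul_smul, ← k, ← cj h e, inv_smul_smul],
        by rw [A.mul _ (inv_mem (cT h h1)) _ hs, π_inv A (cT h h1), A.conj h _ h1]⟩
      have := A.alt.mem_perp.1 (DD_le A h0 m) _ s1
      rwa [A.alt.r, s2, one_mul] at this
    rw [A.alt.r] at s3
    refine eq_of_add A (triv _ s1 ?_ ?_) <;> rcases c2 with c | c
    · exact s4 h1 c
    · rwa [s4 h2 c, mul_one] at s3
    · rwa [s4 h1 c, one_mul] at s3
    · exact s4 h2 c
  -- pass to `k = h'⁻¹ h`
  set k := h'⁻¹ * h with hk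
  have kk : ∀ v : V, h • v = h' • v → k • v = v := fun v c => by rw [hk, mul_smul, c, inv_smul_smul]
  have k0 : k • x0 = x0 := kk _ (e.trans e'.symm)
  have g1 : k • π t1 = π t1 := by rw [hk, mul_smul, f1, inv_smul_smul]
  have g2 : k • π t2 = π t2 := by
    obtain ⟨s1, s2⟩ := same _ h2 _ (cT k h2) (by rw [cj k k0, kk _ d2]) (by rw [sqc k k0 h2])
    rw [A.conj k _ h2] at s1 s2
    refine (eq_of_add A (triv _ s1 ?_ s2)).symm
    rw [A.alt.l]
    nth_rewrite 2 [← g1]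
    rw [b_inv A, b_sq A]
  let F : AddSubgroup W :=
    { carrier := {u | u + k • u ∈ DD A x0}
      zero_mem' := by simp
      add_mem' := fun {x y} hx hy => by
        have := (DD A x0).add_mem hx hy
        rwa [add_add_add_comm, ← smul_add] at this
      neg_mem' := fun {x} hx => by
        have := (DD A x0).neg_mem hx
        rwa [neg_add, ← smul_neg] at this }
  have hF : ∀ {s}, s ∈ T → k • s • x0 = s • x0 → π s ∈ F := fun {s} hs c =>
    ⟨s⁻¹ * (k * s * k⁻¹), mul_mem (inv_mem hs) (cT k hs), by rw [mul_smul, cj k k0, c, inv_smul_smul],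
      by rw [A.mul _ (inv_mem hs) _ (cT k hs), π_inv A hs, A.conj k s hs]⟩
  have DF : DD A x0 ≤ F := by
    rintro _ ⟨s, hs, es, rfl⟩
    exact hF hs (by rw [es, k0])
  have PF : PP A x0 ≤ F := by
    rcases i2 with c | c
    · exact c.trans DF
    · obtain ⟨τ, hτ, eτ, hs⟩ := struct A h0 hm hV hι i1 c
      have kι := kk _ (c1.trans c1'.symm)
      exact fun u hu => hs u hu F DF (hF hι kι) (hF hτ (by rw [eτ, smul_add, k0, kι]))
  let F' : AddSubgroup W :=
    { carrier := {u | k • u = u}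
      zero_mem' := smul_zero k
      add_mem' := fun {x y} hx hy => by
        change k • (x + y) = x + y
        rw [smul_add, hx, hy]
      neg_mem' := fun {x} hx => by
        change k • (-x) = -x
        rw [smul_neg, hx] }
  have fin : k • w = w := hW F' (fun u hu => (eq_of_add A (triv _ (PF hu)
    (by rw [A.alt.l]; nth_rewrite 2 [← g1]; rw [b_inv A, b_sq A])
    (by rw [A.alt.l]; nth_rewrite 2 [← g2]; rw [b_inv A, b_sq A]))).symm) g1 g2 w
  rw [hk, mul_smul, inv_smul_eq_iff] at fin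
  exact fin

end stab

theorem main {t : L} (ht : t ∈ T) (t2 : t ^ 2 = 1) (t0 : π t ≠ 0) :
    (∃ x : V, ∀ s ∈ T, s • x = x ↔ s = 1 ∨ s = t) ∨ Idx L V W := by
  have hne : ∃ x : V, x ≠ 0 ∧ t • x = x := by
    by_contra c
    push Not at c
    refine t0 ((A.ker t ht).2 ⟨-1, fun v => ?_⟩)
    rw [neg_smul, one_smul, eq_neg_iff_add_eq_zero]
    by_contra k
    exact c _ k (by rw [smul_add, ← mul_smul, ← sq, t2, one_smul, add_comm])
  obtain ⟨x0, ⟨h0, et⟩, hmax⟩ := Set.exists_max_image {x : V | x ≠ 0 ∧ t • x = x}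
    (fun x => Nat.card (T ⊓ MulAction.stabilizer L x : Subgroup L)) (Set.toFinite _) hne
  have hm : ∀ v, Ev x0 T π b 0 v → v ≠ 0 → ∀ s ∈ T, s • v = v → s • x0 = x0 := by
    intro v hv v0 s hs es
    have le : T ⊓ MulAction.stabilizer L x0 ≤ T ⊓ MulAction.stabilizer L v :=
      fun g hg => ⟨hg.1, (ev0 A).1 hv g hg.1 hg.2⟩
    have := Subgroup.eq_of_le_of_card_ge le (hmax v ⟨v0, (ev0 A).1 hv t ht et⟩)
    exact (this.ge ⟨hs, es⟩).2
  by_cases c1 : ∀ s ∈ T, s • x0 = x0 → s = 1 ∨ s = t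
  · refine .inl ⟨x0, fun s hs => ⟨c1 s hs, ?_⟩⟩
    rintro (rfl | rfl)
    exacts [one_smul _ _, et]
  by_cases c2 : ∃ a a', b (π t) a = 1 ∧ b (π t) a' = 1 ∧ a ∉ PP A x0 ∧ a' ∉ PP A x0 ∧
      a + a' ∉ PP A x0
  · obtain ⟨a, a', p1, p2, p3, p4, p5⟩ := c2
    exact .inl (caseB A h0 ht et p1 p2 p3 p4 p5)
  push Not at c1 c2
  obtain ⟨s, hs, es, s1, s2⟩ := c1
  obtain ⟨w2, p1, p2⟩ : ∃ w, b (π t) w = 1 ∧ b (π s) w ≠ 1 := by
    by_contra k
    push Not at k
    exact (one_or A h0 ht et hs es k).elim s1 s2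
  obtain ⟨w1, q1, q2⟩ : ∃ w, b (π s) w = 1 ∧ b (π t) w ≠ 1 := by
    by_contra k
    push Not at k
    exact (one_or A h0 hs es ht et k).elim (fun e => t0 (e ▸ π_one A)) (Ne.symm s2)
  obtain ⟨u2, h2, rfl⟩ := A.surj w2
  obtain ⟨u1, h1, rfl⟩ := A.surj w1
  have n2 : π u2 ∉ PP A x0 := fun k => p2 ((mem_PP A).1 k s hs es)
  have hZ : ∀ w, b (π t) w = 1 → w ∈ PP A x0 ∨ w + π u2 ∈ PP A x0 := fun w hw =>
    or_iff_not_imp_left.2 fun k => c2 w _ hw p1 k n2
  by_cases c3 : ∀ v, Ev x0 T π b 0 v → v ≠ 0 → ∃ ρ ∈ T, π ρ ∈ PP A x0 ∧ v = ρ • x0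
  · refine .inr (caseD A h0 hm c3 h1 h2 (fun k => q2 ((mem_PP A).1 k t ht et)) n2
      (fun k => ?_) fun F hF f1 f2 w => ?_)
    · have := (mem_PP A).1 k t ht et
      rw [A.alt.r, p1, mul_one] at this
      exact q2 this
    · have step : ∀ w, b (π t) w = 1 → w ∈ F := fun w hw =>
        (hZ w hw).elim (fun k => hF k) fun k => (add_mem_cancel_right f2).1 (hF k)
      by_cases k : b (π t) w = 1
      · exact step w k
      · refine (add_mem_cancel_right f1).1 (step _ ?_)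
        rw [A.alt.r, b_neg A k, b_neg A q2]; simp
  · push Not at c3
    obtain ⟨z, zv, z0, zn⟩ := c3
    exact .inl (caseC A h0 ht et h2 p1 n2 hZ z0 zv zn)

omit A in
theorem att : AttStmt.{u} := by
  intro L V K W _ _ _ _ _ _ _ _ _ _ _ _ σ G T π b r A hr t ht t2 t0
  subst hr
  exact main A ht t2 t0

set_option linter.all false in
theorem eqns_TcAtt : True := by
  first | (have := @_root_.Cfsg.Agent.H83.TcA.Ev.eq_def.{0,0,0,0}) | (have := @_root_.Cfsg.Agent.H83.TcA.Ev.eq_def.{0,0,0}) | (have := @_root_.Cfsg.Agent.H83.TcA.Ev.eq_def.{0,0}) | (have := @_root_.Cfsg.Agent.H83.TcA.Ev.eq_def.{0}) | (have := @_root_.Cfsg.Agent.H83.TcA.Ev.eq_def) | skip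
  first | (have := @_root_.Cfsg.Agent.H83.TcA.Ev.eq_1.{0,0,0,0}) | (have := @_root_.Cfsg.Agent.H83.TcA.Ev.eq_1.{0,0,0}) | (have := @_root_.Cfsg.Agent.H83.TcA.Ev.eq_1.{0,0}) | (have := @_root_.Cfsg.Agent.H83.TcA.Ev.eq_1.{0}) | (have := @_root_.Cfsg.Agent.H83.TcA.Ev.eq_1) | skip
  first | (have := @_root_.Cfsg.Agent.H83.TcA.Ev.eq_2.{0,0,0,0}) | (have := @_root_.Cfsg.Agent.H83.TcA.Ev.eq_2.{0,0,0}) | (have := @_root_.Cfsg.Agent.H83.TcA.Ev.eq_2.{0,0}) | (have := @_root_.Cfsg.Agent.H83.TcA.Ev.eq_2.{0}) | (have := @_root_.Cfsg.Agent.H83.TcA.Ev.eq_2) | skip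
  first | (have := @_root_.Cfsg.Agent.H83.TcA.Ev.congr_simp.{0,0,0,0}) | (have := @_root_.Cfsg.Agent.H83.TcA.Ev.congr_simp.{0,0,0}) | (have := @_root_.Cfsg.Agent.H83.TcA.Ev.congr_simp.{0,0}) | (have := @_root_.Cfsg.Agent.H83.TcA.Ev.congr_simp.{0}) | (have := @_root_.Cfsg.Agent.H83.TcA.Ev.congr_simp) | skip
  trivial

end Cfsg.Agent.H83.TcA
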